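import Mathlib

/-!
# The `2`-adic valuation of `∏_{i<N} (q^N - q^i)` for odd `q`
-/

set_option autoImplicit false

namespace Cfsg.Agent.Lib.Helper65.DetWr

theorem val_prod_eq_sum {ι : Type*} (s : Finset ι) (f : ι → ℕ) (h : ∀ i ∈ s, f i ≠ 0) :
    padicValNat 2 (∏ i ∈ s, f i) = ∑ i ∈ s, padicValNat 2 (f i) := by
  classical
  have hfact : Fact (Nat.Prime 2) := ⟨Nat.prime_two⟩
  induction s using Finset.induction_on with
  | empty => simp
  | insert a s ha ih =>
    have h' : ∀ i ∈ s, f i ≠ 0 := fun i hi => h i (Finset.mem_insert_of_mem hi)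
    rw [Finset.prod_insert ha, Finset.sum_insert ha,
      padicValNat.mul (h a (Finset.mem_insert_self a s)) (Finset.prod_ne_zero_iff.2 h'), ih h']

theorem pow_sub_one_ne_zero {q : ℕ} (hq1 : 1 < q) {m : ℕ} (hm : m ≠ 0) : q ^ m - 1 ≠ 0 := by
  have h1 : 2 ≤ q ^ m := le_trans hq1 (Nat.le_self_pow hm q)
  omega

/-- `v₂(q ^ k - 1) = v₂(q - 1)` for odd `q` and odd `k`. -/
theorem val_pow_odd_sub_one {q : ℕ} (hq1 : 1 < q) (hodd : Odd q) {k : ℕ} (hk : Odd k) :
    padicValNat 2 (q ^ k - 1) = padicValNat 2 (q - 1) := by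
  have hfact : Fact (Nat.Prime 2) := ⟨Nat.prime_two⟩
  have h1 := geom_sum_mul_of_one_le (x := q) hq1.le k
  have hsum : Odd (∑ i ∈ Finset.range k, q ^ i) := by
    rw [Finset.odd_sum_iff_odd_card_odd]
    have : (Finset.range k).filter (fun i => Odd (q ^ i)) = Finset.range k := by
      apply Finset.filter_true_of_mem
      intro i _
      exact hodd.pow
    rw [this, Finset.card_range]
    exact hk
  have hne : (∑ i ∈ Finset.range k, q ^ i) ≠ 0 := by
    rintro h0
    rw [h0] at hsum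
    exact absurd hsum (by decide)
  have hq : q - 1 ≠ 0 := by omega
  rw [← h1, padicValNat.mul hne hq]
  have : padicValNat 2 (∑ i ∈ Finset.range k, q ^ i) = 0 := by
    apply padicValNat.eq_zero_of_not_dvd
    rw [← even_iff_two_dvd, Nat.not_even_iff_odd]
    exact hsum
  rw [this, zero_add]

/-- `v₂(q ^ (2m) - 1) = v₂(q² - 1) + v₂(m)` for odd `q > 1`, `m ≠ 0`. -/
theorem val_pow_even_sub_one' {q : ℕ} (hq1 : 1 < q) (hodd : Odd q) {m : ℕ} (hm : m ≠ 0) :
    padicValNat 2 (q ^ (2 * m) - 1) = padicValNat 2 (q ^ 2 - 1) + padicValNat 2 m := by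
  have hfact : Fact (Nat.Prime 2) := ⟨Nat.prime_two⟩
  have hd : 2 ∣ q - 1 := by
    obtain ⟨t, ht⟩ := hodd
    exact ⟨t, by omega⟩
  have hnd : ¬ 2 ∣ q := by
    obtain ⟨t, ht⟩ := hodd
    omega
  have h := padicValNat.pow_two_sub_pow (x := q) (y := 1) hq1 hd hnd (n := 2 * m) (by omega)
    (even_two_mul m)
  have h' := padicValNat.pow_two_sub_pow (x := q) (y := 1) hq1 hd hnd (n := 2) (by norm_num)
    (by decide)
  rw [one_pow, padicValNat.mul (by norm_num) hm, padicValNat_self] at h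
  rw [one_pow, padicValNat_self] at h'
  omega

theorem val_sum_range {q : ℕ} (hq1 : 1 < q) (hodd : Odd q) (N : ℕ) :
    ∑ k ∈ Finset.range N, padicValNat 2 (q ^ (k + 1) - 1) =
      (N - N / 2) * padicValNat 2 (q - 1) + (N / 2) * padicValNat 2 (q ^ 2 - 1) +
        padicValNat 2 (N / 2).factorial := by
  have hfact : Fact (Nat.Prime 2) := ⟨Nat.prime_two⟩
  induction N with
  | zero => simp
  | succ N ih =>
    rw [Finset.sum_range_succ, ih]
    rcases Nat.even_or_odd N with hN | hN
    · -- `N + 1` odd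
      obtain ⟨l, hl⟩ := hN
      have hk : Odd (N + 1) := ⟨l, by omega⟩
      rw [val_pow_odd_sub_one hq1 hodd hk]
      have e1 : (N + 1) / 2 = N / 2 := by omega
      have e2 : N + 1 - N / 2 = (N - N / 2) + 1 := by omega
      rw [e1, e2, Nat.add_mul]
      omega
    · -- `N + 1` even
      obtain ⟨l, hl⟩ := hN
      have e0 : N + 1 = 2 * (l + 1) := by omega
      have e1 : (N + 1) / 2 = l + 1 := by omega
      have e2 : N / 2 = l := by omega
      have e3 : N + 1 - (l + 1) = N - l := by omega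
      rw [e0, val_pow_even_sub_one' hq1 hodd (Nat.succ_ne_zero l)]
      have e4 : 2 * (l + 1) / 2 = l + 1 := by omega
      have e5 : 2 * (l + 1) - (l + 1) = N - l := by omega
      rw [e4, e5, e2, Nat.factorial_succ,
        padicValNat.mul (Nat.succ_ne_zero l) (Nat.factorial_ne_zero l), Nat.add_mul]
      omega

theorem val_card_gl {q : ℕ} (hq1 : 1 < q) (hodd : Odd q) (N : ℕ) :
    padicValNat 2 (∏ i : Fin N, (q ^ N - q ^ (i : ℕ))) =
      (N - N / 2) * padicValNat 2 (q - 1) + (N / 2) * padicValNat 2 (q ^ 2 - 1) +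
        padicValNat 2 (N / 2).factorial := by
  have hfact : Fact (Nat.Prime 2) := ⟨Nat.prime_two⟩
  rw [Fin.prod_univ_eq_prod_range (fun i => q ^ N - q ^ i) N, ← val_sum_range hq1 hodd N]
  have hq0 : q ≠ 0 := by omega
  have hfac : ∀ i ∈ Finset.range N, q ^ N - q ^ i = q ^ i * (q ^ (N - i) - 1) := by
    intro i hi
    have hi' : i < N := Finset.mem_range.mp hi
    have : q ^ N = q ^ i * q ^ (N - i) := by
      rw [← pow_add]; congr 1; omega
    rw [this, Nat.mul_sub, mul_one]
  rw [Finset.prod_congr rfl hfac, val_prod_eq_sum]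
  · rw [← Finset.sum_range_reflect (fun k => padicValNat 2 (q ^ (k + 1) - 1)) N]
    apply Finset.sum_congr rfl
    intro i hi
    have hi' : i < N := Finset.mem_range.mp hi
    have hqi : padicValNat 2 (q ^ i) = 0 := by
      apply padicValNat.eq_zero_of_not_dvd
      rw [← even_iff_two_dvd, Nat.not_even_iff_odd]
      exact hodd.pow
    rw [padicValNat.mul (pow_ne_zero i hq0) (pow_sub_one_ne_zero hq1 (by omega)), hqi, zero_add]
    have e : N - 1 - i + 1 = N - i := by omega
    rw [e]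
  · intro i hi
    have hi' : i < N := Finset.mem_range.mp hi
    exact Nat.mul_ne_zero (pow_ne_zero i hq0) (pow_sub_one_ne_zero hq1 (by omega))

end Cfsg.Agent.Lib.Helper65.DetWr
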