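import Mathlib
import Cfsg.Agent.Lib.Helper74.Wreath

/-!
# Determinant of a base element in the wreath-product representation
-/

set_option autoImplicit false

namespace Cfsg.Agent.Lib.Helper65.DetWr

open Cfsg.Agent.Lib.Helper74.Wreath RegularWreathProduct

theorem det_wrRep_base {F : Type*} [Field F] {T V Q : Type*} [Group T] [Group Q] [Fintype Q]
    [AddCommGroup V] [Module F V] [FiniteDimensional F V] (ρ : Representation F T V)
    (f : Q → T) :
    LinearMap.det (wrRep ρ (⟨f, 1⟩ : T ≀ᵣ Q)) = ∏ q, LinearMap.det (ρ (f q)) := by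
  classical
  have h : wrRep ρ (⟨f, 1⟩ : T ≀ᵣ Q) =
      LinearMap.pi (fun x => (ρ (f x)).comp (LinearMap.proj x)) := by
    refine LinearMap.ext fun v => funext fun x => ?_
    rw [wrRep_apply]
    simp
  rw [h, LinearMap.det_pi]

end Cfsg.Agent.Lib.Helper65.DetWr
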