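import Mathlib
import Cfsg.Agent.Lib.Helper74.Wreath

/-!
# Determinant of the swap in the wreath-product representation with `C₂` on top
-/

set_option autoImplicit false

namespace Cfsg.Agent.Lib.Helper65.DetWr

open Cfsg.Agent.Lib.Helper74.Wreath RegularWreathProduct

/-- The nontrivial element of `Multiplicative (ZMod 2)`. -/
def tau : Multiplicative (ZMod 2) := Multiplicative.ofAdd 1

theorem tau_cases (q : Multiplicative (ZMod 2)) : q = 1 ∨ q = tau := by
  revert q; decide

theorem tau_ne_one : tau ≠ 1 := by decide

theorem one_ne_tau : (1 : Multiplicative (ZMod 2)) ≠ tau := by decide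

theorem tau_mul_tau : tau * tau = 1 := by decide

theorem tau_inv : tau⁻¹ = tau := by decide

/-- The sign function on `Multiplicative (ZMod 2)`. -/
noncomputable def sgn (F : Type*) [Field F] (x : Multiplicative (ZMod 2)) : F :=
  if x = 1 then 1 else -1

theorem sgn_one (F : Type*) [Field F] : sgn F 1 = 1 := by
  simp [sgn]

theorem sgn_tau (F : Type*) [Field F] : sgn F tau = -1 := by
  simp [sgn, tau_ne_one]

section

variable {F : Type*} [Field F] {V : Type*} [AddCommGroup V] [Module F V]

/-- The conjugating map `(a, b) ↦ (a + b, a - b)`. -/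
noncomputable def Pm : Module.End F (Multiplicative (ZMod 2) → V) :=
  LinearMap.pi (fun x => LinearMap.proj 1 + sgn F x • LinearMap.proj tau)

/-- The diagonal map `(a, b) ↦ (a, -b)`. -/
noncomputable def Dm : Module.End F (Multiplicative (ZMod 2) → V) :=
  LinearMap.pi (fun x => (sgn F x • LinearMap.id).comp (LinearMap.proj x))

theorem Pm_apply (v : Multiplicative (ZMod 2) → V) (x : Multiplicative (ZMod 2)) :
    (Pm (F := F) v) x = v 1 + sgn F x • v tau := rfl

theorem Dm_apply (v : Multiplicative (ZMod 2) → V) (x : Multiplicative (ZMod 2)) :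
    (Dm (F := F) v) x = sgn F x • v x := rfl

theorem Pm_Pm : (Pm (F := F) (V := V)) * Pm = (2 : F) • (1 : Module.End F _) := by
  refine LinearMap.ext fun v => funext fun x => ?_
  rw [Module.End.mul_apply, Pm_apply, Pm_apply, Pm_apply, sgn_one, sgn_tau]
  simp only [LinearMap.smul_apply, Module.End.one_apply, Pi.smul_apply]
  rcases tau_cases x with rfl | rfl
  · rw [sgn_one]; module
  · rw [sgn_tau]; module

end

theorem det_wrRep_inl {F : Type*} [Field F] {T V : Type*} [Group T]
    [AddCommGroup V] [Module F V] [FiniteDimensional F V] (h2 : (2 : F) ≠ 0)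
    (heven : Even (Module.finrank F V)) (ρ : Representation F T V)
    (q : Multiplicative (ZMod 2)) :
    LinearMap.det (wrRep ρ (inl q : T ≀ᵣ Multiplicative (ZMod 2))) = 1 := by
  classical
  rcases tau_cases q with rfl | rfl
  · rw [map_one, map_one]
    exact LinearMap.det_id
  · have hS : ∀ (v : Multiplicative (ZMod 2) → V) (x : Multiplicative (ZMod 2)),
        wrRep ρ (inl tau : T ≀ᵣ Multiplicative (ZMod 2)) v x = v (tau * x) := by
      intro v x
      rw [wrRep_apply, left_inl, right_inl, tau_inv]
      simp
    have hcomm : wrRep ρ (inl tau : T ≀ᵣ Multiplicative (ZMod 2)) * Pm (F := F) =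
        Pm (F := F) * Dm := by
      refine LinearMap.ext fun v => funext fun x => ?_
      rw [Module.End.mul_apply, Module.End.mul_apply, hS, Pm_apply, Pm_apply, Dm_apply, Dm_apply,
        sgn_one, sgn_tau]
      rcases tau_cases x with rfl | rfl
      · rw [mul_one, sgn_one, sgn_tau]; module
      · rw [tau_mul_tau, sgn_one, sgn_tau]; module
    have hdetP : LinearMap.det (Pm (F := F) (V := V)) ≠ 0 := by
      intro h0
      have h1 := congrArg LinearMap.det (Pm_Pm (F := F) (V := V))
      rw [map_mul, h0, LinearMap.det_smul, map_one, mul_one, mul_zero] at h1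
      exact pow_ne_zero _ h2 h1.symm
    have hdetD : LinearMap.det (Dm (F := F) (V := V)) = 1 := by
      unfold Dm
      rw [LinearMap.det_pi]
      have huniv : (Finset.univ : Finset (Multiplicative (ZMod 2))) = {1, tau} := by decide
      rw [huniv, Finset.prod_pair one_ne_tau, LinearMap.det_smul, LinearMap.det_smul,
        LinearMap.det_id, sgn_one, sgn_tau, one_pow, heven.neg_one_pow]
      norm_num
    have h3 := congrArg LinearMap.det hcomm
    rw [map_mul, map_mul, hdetD, mul_one] at h3
    exact mul_right_cancel₀ hdetP (by rw [h3, one_mul])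

end Cfsg.Agent.Lib.Helper65.DetWr
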