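import Mathlib
import Cfsg.Agent.S4127

/-!
# Piece SQ-K2 for S4130 (helper65, for helper66)

If `p²` divides no class size then commutators of a Sylow `p`-subgroup are central.
-/

set_option autoImplicit false

namespace Cfsg.Agent.Lib.Helper65.SqfK2

theorem sylow_commutator_central {G : Type*} [Group G] [Finite G] (p : ℕ) [Fact p.Prime]
    (h : ∀ x : G, ¬ p ^ 2 ∣ (Subgroup.centralizer ({x} : Set G)).index)
    (P : Sylow p G) : ∀ a ∈ P, ∀ b ∈ P, a * b * a⁻¹ * b⁻¹ ∈ Subgroup.center G := by
  classical
  have hp : p.Prime := Fact.out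
  -- key: for each `x`, some Sylow `S` has all its commutators centralizing `x`
  have key : ∀ x : G, ∃ S : Sylow p G, ∀ a ∈ S, ∀ b ∈ S,
      a * b * a⁻¹ * b⁻¹ ∈ Subgroup.centralizer ({x} : Set G) := by
    intro x
    obtain ⟨C, hC⟩ : ∃ C : Subgroup G, C = Subgroup.centralizer ({x} : Set G) := ⟨_, rfl⟩
    rw [← hC]
    obtain ⟨R₀⟩ : Nonempty (Sylow p C) := inferInstance
    obtain ⟨R, hR⟩ : ∃ R : Subgroup G, R = (R₀ : Subgroup C).map C.subtype := ⟨_, rfl⟩
    have hRC : R ≤ C := by
      rw [hR]
      exact Subgroup.map_subtype_le _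
    have hRp : IsPGroup p R := by
      rw [hR]
      exact R₀.2.map _
    obtain ⟨S, hRS⟩ := hRp.exists_le_sylow
    refine ⟨S, ?_⟩
    have hcR : Nat.card R = p ^ (Nat.card C).factorization p := by
      rw [hR, Subgroup.card_map_of_injective C.subtype_injective]
      exact R₀.card_eq_multiplicity
    have hcS : Nat.card S = p ^ (Nat.card G).factorization p := S.card_eq_multiplicity
    have hidx : Nat.card G = Nat.card C * C.index := (Subgroup.card_mul_index C).symm
    have hi0 : C.index ≠ 0 := Subgroup.index_ne_zero_of_finite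
    have hfac : (Nat.card G).factorization p ≤ (Nat.card C).factorization p + 1 := by
      rw [hidx, Nat.factorization_mul Nat.card_pos.ne' hi0]
      have h2 : (C.index).factorization p < 2 := by
        by_contra hcon
        push Not at hcon
        apply h x
        rw [← hC]
        exact (hp.pow_dvd_iff_le_factorization hi0).mpr hcon
      simp only [Finsupp.coe_add, Pi.add_apply]
      omega
    have hfac' : (Nat.card C).factorization p ≤ (Nat.card G).factorization p := by
      rw [hidx, Nat.factorization_mul Nat.card_pos.ne' hi0]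
      simp only [Finsupp.coe_add, Pi.add_apply]
      omega
    -- work inside `S`
    obtain ⟨R', hR'⟩ : ∃ R' : Subgroup S, R' = R.subgroupOf S := ⟨_, rfl⟩
    have hcR' : Nat.card R' = p ^ (Nat.card C).factorization p := by
      rw [hR', ← hcR]
      exact Nat.card_congr (Subgroup.subgroupOfEquivOfLe hRS).toEquiv
    have hci := Subgroup.card_mul_index R'
    rw [hcR'] at hci
    have hcS' : Nat.card (S : Subgroup G) = p ^ (Nat.card G).factorization p := hcS
    rw [hcS'] at hci
    have hmem : ∀ a b : S, a * b * a⁻¹ * b⁻¹ ∈ R' := by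
      rcases Nat.lt_or_ge ((Nat.card C).factorization p) ((Nat.card G).factorization p) with hlt | hge
      · -- index `p`
        have hs : (Nat.card G).factorization p = (Nat.card C).factorization p + 1 := by omega
        rw [hs, pow_succ] at hci
        have hidx' : R'.index = p := Nat.eq_of_mul_eq_mul_left (pow_pos hp.pos _) hci
        have hnorm : R'.Normal := by
          apply Subgroup.normal_of_index_eq_minFac_card
          rw [hidx', hcS', hs, hp.pow_minFac (Nat.succ_ne_zero _)]
        have hcq : Nat.card (S ⧸ R') = p := hidx'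
        have : Fact p.Prime := ⟨hp⟩
        have hcyc : IsCyclic (S ⧸ R') := isCyclic_of_prime_card hcq
        intro a b
        rw [← QuotientGroup.eq_one_iff]
        have hcomm : (a : S ⧸ R') * (b : S ⧸ R') = (b : S ⧸ R') * (a : S ⧸ R') := by
          obtain ⟨γ, hγ⟩ := hcyc.exists_generator
          obtain ⟨i, hi⟩ := Subgroup.mem_zpowers_iff.mp (hγ (a : S ⧸ R'))
          obtain ⟨j, hj⟩ := Subgroup.mem_zpowers_iff.mp (hγ (b : S ⧸ R'))
          rw [← hi, ← hj]
          exact zpow_mul_comm γ i j
        rw [QuotientGroup.mk_mul, QuotientGroup.mk_mul, QuotientGroup.mk_mul, QuotientGroup.mk_inv,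
          QuotientGroup.mk_inv, hcomm]
        group
      · -- index one
        have hs : (Nat.card G).factorization p = (Nat.card C).factorization p := by omega
        rw [hs] at hci
        have hidx' : R'.index = 1 := by
          have h1 : p ^ (Nat.card C).factorization p * R'.index
              = p ^ (Nat.card C).factorization p * 1 := by rw [hci, mul_one]
          exact Nat.eq_of_mul_eq_mul_left (pow_pos hp.pos _) h1
        have htop : R' = ⊤ := Subgroup.index_eq_one.mp hidx'
        intro a b
        rw [htop]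
        exact Subgroup.mem_top _
    intro a ha b hb
    have h1 := hmem ⟨a, ha⟩ ⟨b, hb⟩
    rw [hR', Subgroup.mem_subgroupOf] at h1
    exact hRC h1
  -- the covering argument
  obtain ⟨D, hD⟩ : ∃ D : Subgroup G, D = Subgroup.centralizer
      {c : G | ∃ a ∈ P, ∃ b ∈ P, c = a * b * a⁻¹ * b⁻¹} := ⟨_, rfl⟩
  have hDtop : D = ⊤ := by
    by_contra hne
    obtain ⟨x, hx⟩ := Cfsg.Agent.S4127.exists_not_mem_conj D hne
    obtain ⟨S, hS⟩ := key x
    obtain ⟨g, hg⟩ := MulAction.exists_smul_eq G P S
    apply hx g
    rw [hD, Subgroup.mem_centralizer_iff]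
    rintro c ⟨a, ha, b, hb, rfl⟩
    have ha' : g * a * g⁻¹ ∈ S := by
      rw [← hg]
      exact Subgroup.smul_mem_pointwise_smul a (MulAut.conj g) P ha
    have hb' : g * b * g⁻¹ ∈ S := by
      rw [← hg]
      exact Subgroup.smul_mem_pointwise_smul b (MulAut.conj g) P hb
    have h1 := hS _ ha' _ hb'
    rw [Subgroup.mem_centralizer_iff] at h1
    have h2 := h1 x rfl
    have e : g * a * g⁻¹ * (g * b * g⁻¹) * (g * a * g⁻¹)⁻¹ * (g * b * g⁻¹)⁻¹
        = g * (a * b * a⁻¹ * b⁻¹) * g⁻¹ := by group
    rw [e] at h2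
    calc a * b * a⁻¹ * b⁻¹ * (g⁻¹ * x * g)
        = g⁻¹ * (x * (g * (a * b * a⁻¹ * b⁻¹) * g⁻¹)) * g := by rw [h2]; group
      _ = g⁻¹ * x * g * (a * b * a⁻¹ * b⁻¹) := by group
  intro a ha b hb
  rw [Subgroup.mem_center_iff]
  intro g
  have hg : g ∈ D := by rw [hDtop]; exact Subgroup.mem_top g
  rw [hD, Subgroup.mem_centralizer_iff] at hg
  exact (hg _ ⟨a, ha, b, hb, rfl⟩).symm

end Cfsg.Agent.Lib.Helper65.SqfK2
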