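import Mathlib
import Cfsg.Agent.Lib.Helper44.SURegBase

/-!
# S2282 piece LEMA (helper65): three non-collinear transvection centres

If `e, f` is a hyperbolic pair of centres, `d` a unit vector orthogonal to both, and some
isotropic vector `α₀ e + δ₀ d + γ₀ f` with `δ₀ ≠ 0` is a centre, then every isotropic vector of the
span of `e, d, f` is a centre.
-/

set_option autoImplicit false

open Matrix Cfsg.Agent.Lib.Helper7 Cfsg.Agent.Lib.Helper18 Cfsg.Agent.Lib.Helper93
  Cfsg.Agent.Lib.Helper44.SUReg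

namespace Cfsg.Agent.Lib.Helper65.SUReg

variable {F : Type*} [Field F] [Fintype F] {q n m : ℕ}

theorem lemA_form (hF : Fintype.card F = q ^ 2) {e f d : Fin n → F}
    (hee : Cfsg.hermForm n F q e e = 0) (hff : Cfsg.hermForm n F q f f = 0)
    (hef : Cfsg.hermForm n F q e f = 1) (hde : Cfsg.hermForm n F q d e = 0)
    (hdf : Cfsg.hermForm n F q d f = 0) (hdd : Cfsg.hermForm n F q d d = 1)
    (α δ γ α' δ' γ' : F) :
    Cfsg.hermForm n F q (α • e + δ • d + γ • f) (α' • e + δ' • d + γ' • f) =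
      α * γ' ^ q + γ * α' ^ q + δ * δ' ^ q := by
  have hfe : Cfsg.hermForm n F q f e = 1 := by rw [hf_conj hF n e f, hef, one_pow]
  have hed := hf_eq_zero_symm hF n _ _ hde
  have hfd := hf_eq_zero_symm hF n _ _ hdf
  simp only [hf_add_left, hf_add_right hF, hf_smul_left, hf_smul_right, hee, hff, hef, hfe, hde,
    hed, hdf, hfd, hdd]
  ring

theorem su_lemA (hF : Fintype.card F = q ^ 2) {H : Subgroup (GL (Fin n) F)}
    (hH : H ≤ Cfsg.GU n F q ⊓ Cfsg.Geo.specialLinear (Fin n) F) {e f d : Fin n → F}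
    (hee : Cfsg.hermForm n F q e e = 0) (hff : Cfsg.hermForm n F q f f = 0)
    (hef : Cfsg.hermForm n F q e f = 1) (hde : Cfsg.hermForm n F q d e = 0)
    (hdf : Cfsg.hermForm n F q d f = 0) (hdd : Cfsg.hermForm n F q d d = 1)
    (hce : Cen q H e) (hcf : Cen q H f) {α₀ δ₀ γ₀ : F} (hδ₀ : δ₀ ≠ 0)
    (hcp : Cen q H (α₀ • e + δ₀ • d + γ₀ • f)) :
    ∀ α δ γ : F, Cfsg.hermForm n F q (α • e + δ • d + γ • f) (α • e + δ • d + γ • f) = 0 →
      Cen q H (α • e + δ • d + γ • f) := by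
  have hq0 : q ≠ 0 := herm_q_ne_zero hF
  have form := lemA_form hF hee hff hef hde hdf hdd
  -- (i)
  have step1 : ∀ s t₀ : F, Cen q H (t₀ • e + s • d + (1 : F) • f) →
      ∀ t : F, t + t ^ q + s ^ (q + 1) = 0 → Cen q H (t • e + s • d + (1 : F) • f) := by
    intro s t₀ h0 t ht
    have hiso := h0.1
    rw [form, one_pow] at hiso
    have hc : (t - t₀) + (t - t₀) ^ q = 0 := by
      rw [herm_sub_pow hF]
      linear_combination ht - hiso
    have h2 := Cen.hyp hH hce h0 (t - t₀) hc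
    have h3 : Cfsg.hermForm n F q (t₀ • e + s • d + (1 : F) • f) e = 1 := by
      have := form t₀ s 1 1 0 0
      simpa [hq0] using this
    rw [h3, mul_one] at h2
    have h4 : t₀ • e + s • d + (1 : F) • f + (t - t₀) • e = t • e + s • d + (1 : F) • f := by
      module
    rwa [h4] at h2
  -- (ii)
  have S0 : ∀ t : F, t + t ^ q + (0 : F) ^ (q + 1) = 0 →
      Cen q H (t • e + (0 : F) • d + (1 : F) • f) := by
    apply step1 0 0
    have : (0 : F) • e + (0 : F) • d + (1 : F) • f = f := by simp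
    rw [this]; exact hcf
  have hiso0 := hcp.1
  rw [form] at hiso0
  have hγ₀ : γ₀ ≠ 0 := by
    rintro rfl
    rw [zero_pow hq0, mul_zero, zero_mul, zero_add, zero_add] at hiso0
    rcases mul_eq_zero.mp hiso0 with h | h
    · exact hδ₀ h
    · exact pow_ne_zero q hδ₀ h
  set s₀ := γ₀⁻¹ * δ₀ with hs₀
  have hs₀0 : s₀ ≠ 0 := mul_ne_zero (inv_ne_zero hγ₀) hδ₀
  have Ss₀ : ∀ t : F, t + t ^ q + s₀ ^ (q + 1) = 0 →
      Cen q H (t • e + s₀ • d + (1 : F) • f) := by
    apply step1 s₀ (γ₀⁻¹ * α₀)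
    have h1 := hcp.smul hF γ₀⁻¹
    have h2 : γ₀⁻¹ • (α₀ • e + δ₀ • d + γ₀ • f) = (γ₀⁻¹ * α₀) • e + s₀ • d + (1 : F) • f := by
      rw [smul_add, smul_add, smul_smul, smul_smul, smul_smul, inv_mul_cancel₀ hγ₀]
    rwa [h2] at h1
  -- (iii)
  have step3 : ∀ s₁ s₂ r : F, s₁ ≠ s₂ →
      (∀ t : F, t + t ^ q + s₁ ^ (q + 1) = 0 → Cen q H (t • e + s₁ • d + (1 : F) • f)) →
      (∀ t : F, t + t ^ q + s₂ ^ (q + 1) = 0 → Cen q H (t • e + s₂ • d + (1 : F) • f)) →
      r ^ q ≠ r → ∀ t : F, t + t ^ q + ((s₂ + r * s₁) / (1 + r)) ^ (q + 1) = 0 →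
        Cen q H (t • e + ((s₂ + r * s₁) / (1 + r)) • d + (1 : F) • f) := by
    intro s₁ s₂ r hne hS1 hS2 hr
    obtain ⟨l, hl⟩ := exists_trace_one hF
    have hν0 : (s₁ - s₂) ^ (q + 1) ≠ 0 := pow_ne_zero _ (sub_ne_zero.mpr hne)
    have hνq : ((s₁ - s₂) ^ (q + 1)) ^ q = (s₁ - s₂) ^ (q + 1) := herm_norm_fixed hF _
    have hrr : r ^ q - r ≠ 0 := sub_ne_zero.mpr hr
    obtain ⟨ν, hν⟩ : ∃ ν : F, ν = (s₁ - s₂) ^ (q + 1) := ⟨_, rfl⟩
    rw [← hν] at hν0 hνq
    obtain ⟨c, hc⟩ : ∃ c : F, c = (r ^ q - r) / ν := ⟨_, rfl⟩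
    have hcq : c ^ q = -c := by
      rw [hc, div_pow, herm_sub_pow hF, herm_pow_pow hF, hνq]; ring
    have hc0 : c ≠ 0 := by rw [hc]; exact div_ne_zero hrr hν0
    obtain ⟨η, hη⟩ : ∃ η : F, η = r / c := ⟨_, rfl⟩
    have hηq : η ^ q = - (r ^ q / c) := by
      rw [hη, div_pow, hcq, div_neg]
    have hηtr : η + η ^ q = -ν := by
      rw [hηq, hη, hc]
      field_simp
      ring
    obtain ⟨t₂, ht₂⟩ : ∃ t₂ : F, t₂ = -(l * s₂ ^ (q + 1)) := ⟨_, rfl⟩
    have ht₂a : t₂ + t₂ ^ q + s₂ ^ (q + 1) = 0 := by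
      rw [ht₂, herm_neg_pow hF, mul_pow, herm_norm_fixed hF]
      linear_combination (-(s₂ ^ (q + 1))) * hl
    obtain ⟨t₁, ht₁⟩ : ∃ t₁ : F, t₁ = (η - t₂ - s₂ * s₁ ^ q) ^ q := ⟨_, rfl⟩
    have ht₁q : t₁ ^ q = η - t₂ - s₂ * s₁ ^ q := by rw [ht₁]; exact herm_pow_pow hF _
    have ht₁e : t₁ = η ^ q - t₂ ^ q - s₂ ^ q * s₁ := by
      rw [ht₁, herm_sub_pow hF, herm_sub_pow hF, mul_pow, herm_pow_pow hF]
    have hνe : ν = (s₁ - s₂) * (s₁ ^ q - s₂ ^ q) := by
      rw [hν, pow_succ, herm_sub_pow hF]; ring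
    have ht₁a : t₁ + t₁ ^ q + s₁ ^ (q + 1) = 0 := by
      rw [ht₁q, ht₁e]
      linear_combination hηtr - ht₂a - hνe
    have h1 := hS1 t₁ ht₁a
    have h2 := hS2 t₂ ht₂a
    have hcc : c + c ^ q = 0 := by rw [hcq]; ring
    have h3 := Cen.hyp hH h1 h2 c hcc
    rw [form, ht₁q, one_pow] at h3
    have hcη : c * (t₂ * 1 + 1 * (η - t₂ - s₂ * s₁ ^ q) + s₂ * s₁ ^ q) = r := by
      rw [hη]; field_simp; ring
    rw [hcη] at h3
    have h1r : 1 + r ≠ 0 := by
      intro h
      have : r = -1 := by linear_combination h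
      apply hr
      rw [this, herm_neg_pow hF, one_pow]
    have h4 := h3.smul hF (1 + r)⁻¹
    have h5 : (1 + r)⁻¹ • (t₂ • e + s₂ • d + (1 : F) • f + r • (t₁ • e + s₁ • d + (1 : F) • f))
        = ((1 + r)⁻¹ * (t₂ + r * t₁)) • e + ((1 + r)⁻¹ * (s₂ + r * s₁)) • d
          + ((1 + r)⁻¹ * (1 + r)) • f := by
      module
    rw [h5, inv_mul_cancel₀ h1r] at h4
    exact step1 ((s₂ + r * s₁) / (1 + r)) ((1 + r)⁻¹ * (t₂ + r * t₁))
      (by rw [div_eq_inv_mul]; exact h4)
  -- (iv)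
  obtain ⟨κ, hκ⟩ := exists_not_fixed hF
  have hκ0 : κ ≠ 0 := by
    rintro rfl; exact hκ (zero_pow hq0)
  have Smul : ∀ lam : F, lam ^ q ≠ lam → ∀ t : F, t + t ^ q + (lam * s₀) ^ (q + 1) = 0 →
      Cen q H (t • e + (lam * s₀) • d + (1 : F) • f) := by
    intro lam hlam
    have h1 : 1 - lam ≠ 0 := by
      intro h
      have : lam = 1 := by linear_combination -h
      apply hlam; rw [this, one_pow]
    have hr : (lam / (1 - lam)) ^ q ≠ lam / (1 - lam) := by
      rw [div_pow, herm_sub_pow hF, one_pow]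
      intro h
      have h1' : 1 - lam ^ q ≠ 0 := by
        intro h'
        have h3 : lam ^ q = 1 := by linear_combination -h'
        have h2 := herm_pow_pow hF lam
        rw [h3, one_pow] at h2
        exact h1 (by rw [← h2]; ring)
      rw [div_eq_div_iff h1' h1] at h
      apply hlam
      linear_combination h
    have := step3 s₀ 0 (lam / (1 - lam)) hs₀0 Ss₀ S0 hr
    have he : (0 + lam / (1 - lam) * s₀) / (1 + lam / (1 - lam)) = lam * s₀ := by
      have h1r : 1 + lam / (1 - lam) = 1 / (1 - lam) := by field_simp; ring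
      rw [h1r]; field_simp; ring
    rwa [he] at this
  have Sall : ∀ s t : F, t + t ^ q + s ^ (q + 1) = 0 →
      Cen q H (t • e + s • d + (1 : F) • f) := by
    intro s
    have hs : s = (s / s₀) * s₀ := by field_simp
    rw [hs]
    obtain ⟨lam, hlamdef⟩ : ∃ lam : F, lam = s / s₀ := ⟨_, rfl⟩
    rw [← hlamdef]
    by_cases hlam : lam ^ q = lam
    · by_cases hl0 : lam = 0
      · rw [hl0, zero_mul]; exact S0
      · have hκl : κ - lam ≠ 0 := by
          intro h; apply hκ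
          have : κ = lam := by linear_combination h
          rw [this]; exact hlam
        have hr : (lam / (κ - lam)) ^ q ≠ lam / (κ - lam) := by
          rw [div_pow, herm_sub_pow hF, hlam]
          intro h
          have hκl' : κ ^ q - lam ≠ 0 := by
            intro h'
            have h2 := herm_pow_pow hF κ
            have h3 : κ ^ q = lam := by linear_combination h'
            rw [h3, hlam] at h2
            exact hκl (by rw [h2]; ring)
          rw [div_eq_div_iff hκl' hκl] at h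
          apply hκ
          have h4 : lam * (κ ^ q - κ) = 0 := by linear_combination -h
          rcases mul_eq_zero.mp h4 with h3 | h3
          · exact absurd h3 hl0
          · linear_combination h3
        have hS1 := Smul κ hκ
        have hne : κ * s₀ ≠ 0 := mul_ne_zero hκ0 hs₀0
        have := step3 (κ * s₀) 0 (lam / (κ - lam)) hne hS1 S0 hr
        have he : (0 + lam / (κ - lam) * (κ * s₀)) / (1 + lam / (κ - lam)) = lam * s₀ := by
          have h1r : 1 + lam / (κ - lam) = κ / (κ - lam) := by field_simp; ring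
          rw [h1r]; field_simp; ring
        rwa [he] at this
    · exact Smul lam hlam
  intro α δ γ hiso
  rw [form] at hiso
  by_cases hγ : γ = 0
  · subst hγ
    rw [zero_pow hq0, mul_zero, zero_mul, zero_add, zero_add] at hiso
    have hδ : δ = 0 := by
      rcases mul_eq_zero.mp hiso with h | h
      · exact h
      · exact (pow_eq_zero_iff hq0).mp h
    subst hδ
    have : α • e + (0 : F) • d + (0 : F) • f = α • e := by simp
    rw [this]; exact hce.smul hF α
  · have hγq : γ ^ q ≠ 0 := pow_ne_zero _ hγ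
    have hadm : γ⁻¹ * α + (γ⁻¹ * α) ^ q + (γ⁻¹ * δ) ^ (q + 1) = 0 := by
      have : γ⁻¹ * α + (γ⁻¹ * α) ^ q + (γ⁻¹ * δ) ^ (q + 1)
          = (γ * γ ^ q)⁻¹ * (α * γ ^ q + γ * α ^ q + δ * δ ^ q) := by
        rw [mul_pow, mul_pow, inv_pow, inv_pow, pow_succ, pow_succ]
        field_simp
      rw [this, hiso, mul_zero]
    have h1 := Sall (γ⁻¹ * δ) (γ⁻¹ * α) hadm
    have h2 := h1.smul hF γ
    have h3 : γ • ((γ⁻¹ * α) • e + (γ⁻¹ * δ) • d + (1 : F) • f) = α • e + δ • d + γ • f := by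
      rw [smul_add, smul_add, smul_smul, smul_smul, smul_smul, mul_inv_cancel_left₀ hγ,
        mul_inv_cancel_left₀ hγ, mul_one]
    rwa [h3] at h2

end Cfsg.Agent.Lib.Helper65.SUReg
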