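import Cfsg.Agent.Lib.Helper46.BSW0
import Cfsg.Agent.Lib.Helper4.CharExp2

/-!
# Piece E0A of the Brauer–Suzuki–Wall project: the set `{Δ = 0}` (case `δ = -1`)
-/

set_option autoImplicit false

namespace Cfsg.Agent.Lib.Helper65.BSWE0A

open Cfsg Cfsg.Agent.Lib.Helper4 Cfsg.Agent.Lib.Helper46.BSW

universe u

variable {G : Type u} [Group G]

theorem off_ne_one {K : Subgroup G} {y : G} (hy : Off K y) : y ≠ 1 := by
  rintro rfl
  apply hy 1
  rw [mul_one, one_mul, inv_one]
  exact K.one_mem

theorem off_conj {K : Subgroup G} {y : G} (hy : Off K y) (g : G) : Off K (g * y * g⁻¹) := by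
  intro w hw
  apply hy (w * g)
  have e : w * g * y * (w * g)⁻¹ = w * (g * y * g⁻¹) * w⁻¹ := by group
  rw [e]
  exact hw

theorem off_inv {K : Subgroup G} {y : G} (hy : Off K y) : Off K y⁻¹ := by
  intro w hw
  apply hy w
  have e : w * y * w⁻¹ = (w * y⁻¹ * w⁻¹)⁻¹ := by group
  rw [e]
  exact K.inv_mem hw

theorem off_of_isConj {K : Subgroup G} {x y : G} (hxy : IsConj x y) (hy : Off K y) : Off K x := by
  obtain ⟨c, hc⟩ := isConj_iff.1 hxy.symm
  rw [← hc]
  exact off_conj hy c

theorem s_sq {t s : G} {K : Subgroup G} (h : Setup t s K) : s * s = 1 := by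
  have := pow_orderOf_eq_one s
  rw [h.hs, pow_two] at this
  exact this

theorem s_inv {t s : G} {K : Subgroup G} (h : Setup t s K) : s⁻¹ = s :=
  inv_eq_of_mul_eq_one_left (s_sq h)

theorem cent_le' {t s : G} {K : Subgroup G} (h : Setup t s K) :
    ∀ x ∈ K, x ≠ 1 →
      Subgroup.centralizer ({x} : Set G) ≤ Subgroup.centralizer ({t} : Set G) := by
  intro x hx hx1 g hg
  by_contra hgt
  have hTI := h.hTI g hgt
  have hgx : g * x = x * g := Subgroup.mem_centralizer_singleton_iff.1 hg
  have hmem : x ∈ K ⊓ K.map (MulAut.conj g).toMonoidHom := by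
    refine ⟨hx, ⟨x, hx, ?_⟩⟩
    show g * x * g⁻¹ = x
    rw [hgx]
    group
  rw [hTI, Subgroup.mem_bot] at hmem
  exact hx1 hmem

theorem cent_not_off' {t s : G} {K : Subgroup G} (h : Setup t s K) :
    ∀ g ∈ Subgroup.centralizer ({t} : Set G), ¬ Off K g := by
  intro g hg hoff
  have hss := s_sq h
  have hsi := s_inv h
  have hinv' : ∀ x ∈ K, s * x * s = x⁻¹ := by
    intro x hx
    have := h.hinv x hx
    rwa [hsi] at this
  let S : Subgroup G :=
    { carrier := {g | g ∈ K ∨ g * s ∈ K}
      one_mem' := Or.inl K.one_mem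
      mul_mem' := by
        rintro a b (ha | ha) (hb | hb)
        · exact Or.inl (K.mul_mem ha hb)
        · right
          have e : a * b * s = a * (b * s) := by group
          show a * b * s ∈ K
          rw [e]
          exact K.mul_mem ha hb
        · right
          have e : a * b * s = (a * s) * (s * b * s) := by
            calc a * b * s = a * (s * s) * b * s := by rw [hss, mul_one]
              _ = (a * s) * (s * b * s) := by group
          show a * b * s ∈ K
          rw [e, hinv' b hb]
          exact K.mul_mem ha (K.inv_mem hb)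
        · left
          have e : a * b = (a * s) * (s * (b * s) * s) := by
            calc a * b = a * (s * s) * b * (s * s) := by rw [hss, mul_one, mul_one]
              _ = (a * s) * (s * (b * s) * s) := by group
          show a * b ∈ K
          rw [e, hinv' _ hb]
          exact K.mul_mem ha (K.inv_mem hb)
      inv_mem' := by
        rintro a (ha | ha)
        · exact Or.inl (K.inv_mem ha)
        · right
          have e : a⁻¹ * s = (s * (a * s) * s)⁻¹ := by
            calc a⁻¹ * s = (s * s) * a⁻¹ * s := by rw [hss, one_mul]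
              _ = s⁻¹ * s⁻¹ * a⁻¹ * s⁻¹ := by rw [hsi]
              _ = (s * (a * s) * s)⁻¹ := by group
          show a⁻¹ * s ∈ K
          rw [e, hinv' _ ha, inv_inv]
          exact ha }
  have hKS : K ≤ S := fun x hx => Or.inl hx
  have hsS : Subgroup.zpowers s ≤ S := by
    rw [Subgroup.zpowers_le]
    right
    rw [hss]
    exact K.one_mem
  have hgS : g ∈ S := by
    have : g ∈ K ⊔ Subgroup.zpowers s := by rw [h.hH]; exact hg
    exact (sup_le hKS hsS) this
  rcases hgS with hgK | hgK
  · apply hoff 1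
    rw [one_mul, inv_one, mul_one]
    exact hgK
  · have hg2 : g ^ 2 = 1 := by
      have e : g ^ 2 = (g * s) * (s * (g * s) * s) := by
        calc g ^ 2 = g * g := pow_two g
          _ = g * (s * s) * g * (s * s) := by rw [hss, mul_one, mul_one]
          _ = (g * s) * (s * (g * s) * s) := by group
      rw [e, hinv' _ hgK, mul_inv_cancel]
    have hg1 : g ≠ 1 := by
      rintro rfl
      rw [one_mul] at hgK
      exact h.hsK hgK
    have hord : orderOf g = 2 := orderOf_eq_prime hg2 hg1
    obtain ⟨c, hc⟩ := isConj_iff.1 (h.hconj g t hord h.ht)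
    apply hoff c
    rw [hc]
    exact h.htK

theorem val_of_isConj (Δ : IrrCharacter G) {x y : G} (hxy : IsConj x y) :
    (Δ : G → ℂ) x = (Δ : G → ℂ) y := by
  obtain ⟨c, hc⟩ := isConj_iff.1 hxy.symm
  rw [← hc]
  exact irr_conj_apply Δ y c

end Cfsg.Agent.Lib.Helper65.BSWE0A

namespace Cfsg.Agent.Lib.Helper46.BSW

open Cfsg Cfsg.Agent.Lib.Helper4
open Cfsg.Agent.Lib.Helper65.BSWE0A

universe u

variable {G : Type u} [Group G]

/-! ### Piece E0A : the set `{Δ = 0}` (case `δ = -1`) -/
theorem e0_classes [Finite G] {t s : G} {K : Subgroup G} (h : Setup t s K)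
    (hk : 4 ≤ Nat.card K) (Δ : IrrCharacter G) (hS : Stage1 K (-1) Δ)
    (hE1 : ∀ z, Off K z → (Δ : G → ℂ) z = 1 →
      ∃ u : G, TorusData K Δ (Subgroup.centralizer ({z} : Set G)) u)
    (hcard : ∀ y, Off K y → (Δ : G → ℂ) y = 0 →
      Nat.card (Subgroup.centralizer ({y} : Set G)) + 1 = 2 * Nat.card K)
    (hnr : ∀ y, Off K y → (Δ : G → ℂ) y = 0 → ¬ IsConj y y⁻¹) :
    (∀ y, Off K y → (Δ : G → ℂ) y = 0 → ∀ x ∈ Subgroup.centralizer ({y} : Set G), x ≠ 1 →
      Off K x ∧ (Δ : G → ℂ) x = 0) ∧
    (∀ y y', Off K y → (Δ : G → ℂ) y = 0 → Off K y' → (Δ : G → ℂ) y' = 0 →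
      IsConj y y' ∨ IsConj y⁻¹ y') := by
  classical
  have hfin : Fintype G := Fintype.ofFinite G
  have hoff1 : ∀ z, Off K z → (Δ : G → ℂ) z = 0 ∨ (Δ : G → ℂ) z = 1 := by
    intro z hz
    have := hS.off_val z hz
    simpa using this
  refine ⟨?_, ?_⟩
  · intro y hy hΔy x hx hx1
    have hxy : x * y = y * x := Subgroup.mem_centralizer_singleton_iff.1 hx
    have hoffx : Off K x := by
      by_contra hnot
      unfold Off at hnot
      push Not at hnot
      obtain ⟨g, hg⟩ := hnot
      have hg1 : g * x * g⁻¹ ≠ 1 := by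
        intro h1
        apply hx1
        have e : x = g⁻¹ * (g * x * g⁻¹) * g := by group
        rw [e, h1]
        group
      have hle := cent_le' h (g * x * g⁻¹) hg hg1
      have hmem : g * y * g⁻¹ ∈ Subgroup.centralizer ({g * x * g⁻¹} : Set G) := by
        rw [Subgroup.mem_centralizer_singleton_iff]
        have e1 : g * y * g⁻¹ * (g * x * g⁻¹) = g * (y * x) * g⁻¹ := by group
        have e2 : g * x * g⁻¹ * (g * y * g⁻¹) = g * (x * y) * g⁻¹ := by group
        rw [e1, e2, hxy]
      exact cent_not_off' h _ (hle hmem) (off_conj hy g)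
    refine ⟨hoffx, ?_⟩
    rcases hoff1 x hoffx with h0 | h1
    · exact h0
    · exfalso
      obtain ⟨u, hT⟩ := hE1 x hoffx h1
      have hyC : y ∈ Subgroup.centralizer ({x} : Set G) :=
        Subgroup.mem_centralizer_singleton_iff.2 hxy.symm
      have := hT.val y hyC (off_ne_one hy)
      rw [hΔy] at this
      exact zero_ne_one this
  · intro y y' hy hΔy hy' hΔy'
    by_contra hcon
    push Not at hcon
    obtain ⟨hc1, hc2⟩ := hcon
    have hyi : Off K y⁻¹ := off_inv hy
    have hΔyi : (Δ : G → ℂ) y⁻¹ = 0 := by rw [irr_inv, hΔy, map_zero]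
    have hsub1 : Finset.univ.filter (fun x : G => IsConj x y) ⊆
        Finset.univ.filter (fun z : G => Off K z ∧ (Δ : G → ℂ) z = 0) := by
      intro x hx
      rw [Finset.mem_filter] at hx ⊢
      exact ⟨Finset.mem_univ _, off_of_isConj hx.2 hy, by rw [val_of_isConj Δ hx.2, hΔy]⟩
    have hsub2 : Finset.univ.filter (fun x : G => IsConj x y⁻¹) ⊆
        Finset.univ.filter (fun z : G => Off K z ∧ (Δ : G → ℂ) z = 0) := by
      intro x hx
      rw [Finset.mem_filter] at hx ⊢
      exact ⟨Finset.mem_univ _, off_of_isConj hx.2 hyi, by rw [val_of_isConj Δ hx.2, hΔyi]⟩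
    have hdisj : Disjoint (Finset.univ.filter (fun x : G => IsConj x y))
        (Finset.univ.filter (fun x : G => IsConj x y⁻¹)) := by
      rw [Finset.disjoint_left]
      intro x hx1 hx2
      rw [Finset.mem_filter] at hx1 hx2
      exact hnr y hy hΔy (hx1.2.symm.trans hx2.2)
    have hy'E : y' ∈ Finset.univ.filter (fun z : G => Off K z ∧ (Δ : G → ℂ) z = 0) := by
      rw [Finset.mem_filter]
      exact ⟨Finset.mem_univ _, hy', hΔy'⟩
    have hy'U : y' ∉ Finset.univ.filter (fun x : G => IsConj x y) ∪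
        Finset.univ.filter (fun x : G => IsConj x y⁻¹) := by
      rw [Finset.mem_union, Finset.mem_filter, Finset.mem_filter]
      rintro (⟨-, hx⟩ | ⟨-, hx⟩)
      · exact hc1 hx.symm
      · exact hc2 hx.symm
    have hle : (insert y' (Finset.univ.filter (fun x : G => IsConj x y) ∪
        Finset.univ.filter (fun x : G => IsConj x y⁻¹))).card ≤
        (Finset.univ.filter (fun z : G => Off K z ∧ (Δ : G → ℂ) z = 0)).card := by
      apply Finset.card_le_card
      intro x hx
      rw [Finset.mem_insert] at hx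
      rcases hx with rfl | hx
      · exact hy'E
      · rcases Finset.mem_union.1 hx with hx | hx
        · exact hsub1 hx
        · exact hsub2 hx
    rw [Finset.card_insert_of_notMem hy'U, Finset.card_union_of_disjoint hdisj] at hle
    have hcardE : ((Finset.univ.filter (fun z : G => Off K z ∧ (Δ : G → ℂ) z = 0)).card : ℤ) =
        (2 * (Nat.card K : ℤ) + (-1 : ℤ)) ^ 2 - 1 := by
      have := hS.card_E0
      rw [Nat.card_eq_fintype_card, Fintype.card_subtype] at this
      exact this
    have hidx := hS.a.index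
    have hcl : ∀ w : G, Off K w → (Δ : G → ℂ) w = 0 →
        ((Finset.univ.filter (fun x : G => IsConj x w)).card : ℤ) * (2 * (Nat.card K : ℤ) - 1) =
          (Nat.card G : ℤ) := by
      intro w hw hΔw
      rw [card_conj_class w]
      have h1 := Subgroup.index_mul_card (Subgroup.centralizer ({w} : Set G))
      have h2 := hcard w hw hΔw
      have h3 : (Nat.card (Subgroup.centralizer ({w} : Set G)) : ℤ) = 2 * (Nat.card K : ℤ) - 1 := by
        omega
      rw [← h3]
      exact_mod_cast h1
    have h1 := hcl y hy hΔy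
    have h2 := hcl y⁻¹ hyi hΔyi
    have hkZ : (4 : ℤ) ≤ (Nat.card K : ℤ) := by exact_mod_cast hk
    have hpos : (0 : ℤ) < 2 * (Nat.card K : ℤ) - 1 := by omega
    have hA : ((Finset.univ.filter (fun x : G => IsConj x y)).card : ℤ) =
        2 * (Nat.card K : ℤ) * ((Nat.card K : ℤ) - 1) := by
      apply mul_right_cancel₀ hpos.ne'
      rw [h1, hidx]
      ring
    have hB : ((Finset.univ.filter (fun x : G => IsConj x y⁻¹)).card : ℤ) =
        2 * (Nat.card K : ℤ) * ((Nat.card K : ℤ) - 1) := by
      apply mul_right_cancel₀ hpos.ne'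
      rw [h2, hidx]
      ring
    have hleZ : ((Finset.univ.filter (fun x : G => IsConj x y)).card : ℤ) +
        ((Finset.univ.filter (fun x : G => IsConj x y⁻¹)).card : ℤ) + 1 ≤
        ((Finset.univ.filter (fun z : G => Off K z ∧ (Δ : G → ℂ) z = 0)).card : ℤ) := by
      exact_mod_cast hle
    rw [hA, hB, hcardE] at hleZ
    nlinarith

end Cfsg.Agent.Lib.Helper46.BSW
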