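import Mathlib
import Cfsg.Agent.Lib.Helper97.SpPair
import Cfsg.Agent.Lib.Helper65.GUMaxE

/-!
Overgroups of the unitary group `GU_m(q)` inside `Sp_{2m}(q)`, `q` odd, part A: the data
`SUData f θ d` (a symplectic form `f`, a matrix `θ` with `θ² = d` a non-square and `θ`
skew-adjoint for `f`), the attached quadratic form `x ↦ f(x, θ x)`, and the isometries
commuting with `θ`: unitary transvections, the involutions `-1` on a non-degenerate `K`-line,
and the scalars of norm one.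
-/

set_option autoImplicit false
set_option linter.unusedSectionVars false
set_option linter.unusedVariables false
set_option linter.unusedSimpArgs false

namespace Cfsg.Agent.Lib.Helper65

open Module QuadraticMap
open scoped Matrix
open Cfsg.Agent.Lib.Helper51 Cfsg.Agent.Lib.Helper97

section SpGUA

variable {ι : Type} [Fintype ι] [DecidableEq ι] {F : Type*} [Field F]

/-- A symplectic form `f` together with a skew-adjoint matrix `θ` whose square is a non-square
scalar `d` (so `F[θ]` is a quadratic field on which the adjoint induces the conjugation). -/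
structure SUData (f : (ι → F) → (ι → F) → F) (θ : Matrix ι ι F) (d : F) : Prop where
  symp : Cfsg.Geo.IsSymplecticForm f
  sq : ∀ x : ι → F, θ *ᵥ (θ *ᵥ x) = d • x
  adj : ∀ u v : ι → F, f (θ *ᵥ u) v = - f u (θ *ᵥ v)
  irr : ∀ c : F, c * c ≠ d
  two : (2 : F) ≠ 0

variable {f : (ι → F) → (ι → F) → F} {θ : Matrix ι ι F} {d : F}

namespace SUData

variable (sd : SUData f θ d)
include sd

theorem d_ne : d ≠ 0 := by
  intro h
  exact sd.irr 0 (by rw [h, mul_zero])

theorem adj' (u v : ι → F) : f u (θ *ᵥ v) = - f (θ *ᵥ u) v := by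
  rw [sd.adj, neg_neg]

theorem f_tt (u v : ι → F) : f (θ *ᵥ u) (θ *ᵥ v) = - (d * f u v) := by
  rw [sd.adj, sd.sq, sd.symp.bilinear.smul_right]

theorem f_self_theta' (u : ι → F) : f (θ *ᵥ u) u = - f u (θ *ᵥ u) := sd.adj u u

theorem theta_mul : θ * θ = d • (1 : Matrix ι ι F) := by
  apply matrix_ext_mulVec
  intro v
  rw [← Matrix.mulVec_mulVec, sd.sq, Matrix.smul_mulVec, Matrix.one_mulVec]

/-- The symmetric bilinear form `(x, y) ↦ f(x, θ y)`. -/
noncomputable def bθ : LinearMap.BilinForm F (ι → F) :=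
  LinearMap.mk₂ F (fun x y => f x (θ *ᵥ y))
    (fun x y v => sd.symp.bilinear.add_left x y _)
    (fun c x v => by rw [sd.symp.bilinear.smul_left, smul_eq_mul])
    (fun v x y => by rw [Matrix.mulVec_add, sd.symp.bilinear.add_right])
    (fun c v x => by rw [Matrix.mulVec_smul, sd.symp.bilinear.smul_right, smul_eq_mul])

/-- The quadratic form `x ↦ f(x, θ x)` (the Hermitian norm). -/
noncomputable def qf : QuadraticForm F (ι → F) := sd.bθ.toQuadraticMap

theorem qf_apply (x : ι → F) : sd.qf x = f x (θ *ᵥ x) := rfl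

theorem polar_qf (x y : ι → F) : polar ⇑sd.qf x y = 2 * f x (θ *ᵥ y) := by
  have h := LinearMap.BilinMap.polar_toQuadraticMap (B := sd.bθ) x y
  have e : sd.bθ y x = f x (θ *ᵥ y) := by
    show f y (θ *ᵥ x) = f x (θ *ᵥ y)
    rw [sd.symp.skew, sd.adj, neg_neg]
  have e' : sd.bθ x y = f x (θ *ᵥ y) := rfl
  rw [e, e'] at h
  rw [show polar ⇑sd.qf x y = polar ⇑(sd.bθ.toQuadraticMap) x y from rfl, h]
  ring

theorem polar_qf_theta (x y : ι → F) : polar ⇑sd.qf x (θ *ᵥ y) = 2 * d * f x y := by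
  rw [sd.polar_qf, sd.sq, sd.symp.bilinear.smul_right]
  ring

theorem f_eq_zero_of_polar {x y : ι → F} (h : polar ⇑sd.qf x (θ *ᵥ y) = 0) : f x y = 0 := by
  rw [sd.polar_qf_theta] at h
  rcases mul_eq_zero.mp h with h | h
  · exact absurd h (mul_ne_zero sd.two sd.d_ne)
  · exact h

theorem f_theta_eq_zero_of_polar {x y : ι → F} (h : polar ⇑sd.qf x y = 0) :
    f x (θ *ᵥ y) = 0 := by
  rw [sd.polar_qf] at h
  exact (mul_eq_zero.mp h).resolve_left sd.two

theorem qf_nondeg : (polarBilin sd.qf).Nondegenerate := by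
  have hnd : ∀ u : ι → F, (∀ v, polar ⇑sd.qf u v = 0) → u = 0 := by
    intro u hu
    by_contra hu0
    obtain ⟨x, hx⟩ := (sd.symp.nondegenerate u hu0).2
    apply hx
    have h1 := sd.f_eq_zero_of_polar (hu (θ *ᵥ x))
    exact h1
  constructor
  · intro x hx
    apply hnd x
    intro y
    have := hx y
    rwa [polarBilin_apply_apply] at this
  · intro y hy
    apply hnd y
    intro x
    have := hy x
    rw [polarBilin_apply_apply] at this
    rw [polar_comm]
    exact this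

/-- The data of part `GUMax` for the quadratic form `x ↦ f(x, θ x)`. -/
theorem gu : GUData sd.qf θ 0 (-d) where
  sq := fun x => by rw [sd.sq]; module
  adj := fun u v => by
    rw [sd.polar_qf, sd.polar_qf, sd.polar_qf, sd.f_tt, sd.sq, sd.symp.bilinear.smul_right]
    ring
  norm := fun v => by
    rw [sd.qf_apply, sd.qf_apply, sd.sq, sd.symp.bilinear.smul_right, sd.f_self_theta']
    ring
  self := fun v => by
    rw [sd.polar_qf, sd.sq, sd.symp.bilinear.smul_right, sd.symp.alternating]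
    ring
  irr := fun c => by
    intro h
    apply sd.irr c
    linear_combination h

end SUData

/-- `k` commutes with `θ` and preserves `f`. -/
def IsKU (f : (ι → F) → (ι → F) → F) (θ : Matrix ι ι F) (k : Matrix.GeneralLinearGroup ι F) :
    Prop :=
  (k : Matrix ι ι F) * θ = θ * (k : Matrix ι ι F) ∧
    ∀ x y : ι → F, f ((k : Matrix ι ι F) *ᵥ x) ((k : Matrix ι ι F) *ᵥ y) = f x y

namespace SUData

variable (sd : SUData f θ d)
include sd

/-- The unitary transvection with centre the isotropic vector `a`. -/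
theorem exists_tau {a : ι → F} (ha : f a (θ *ᵥ a) = 0) (c : F) :
    ∃ k : Matrix.GeneralLinearGroup ι F, IsKU f θ k ∧ ∀ x : ι → F,
      (k : Matrix ι ι F) *ᵥ x = x + c • (f x (θ *ᵥ a) • (θ *ᵥ a) - (d * f x a) • a) := by
  have hf := sd.symp
  have hb := hf.bilinear
  obtain ⟨k, hk⟩ : ∃ k : Matrix.GeneralLinearGroup ι F,
      k = tvG (θ *ᵥ a) (c • rho f (θ *ᵥ a)) (symp_dot0 hf _ c) *
        tvG a ((-(c * d)) • rho f a) (symp_dot0 hf a _) := ⟨_, rfl⟩
  have hkx : ∀ x : ι → F,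
      (k : Matrix ι ι F) *ᵥ x = x + c • (f x (θ *ᵥ a) • (θ *ᵥ a) - (d * f x a) • a) := by
    intro x
    rw [hk, Units.val_mul, ← Matrix.mulVec_mulVec, stv_mulVec hf, stv_mulVec hf, hb.add_left,
      hb.smul_left, ha]
    module
  refine ⟨k, ⟨?_, ?_⟩, hkx⟩
  · apply matrix_ext_mulVec
    intro x
    rw [← Matrix.mulVec_mulVec, ← Matrix.mulVec_mulVec, hkx, hkx]
    simp only [Matrix.mulVec_add, Matrix.mulVec_smul, Matrix.mulVec_sub, sd.sq, sd.f_tt,
      sd.adj x a]
    module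
  · intro x y
    rw [hk, Units.val_mul, ← Matrix.mulVec_mulVec, ← Matrix.mulVec_mulVec, stv_pres hf,
      stv_pres hf]

/-- The involution `-1` on the non-degenerate `K`-line of `e`. -/
theorem exists_zmap {e : ι → F} (he : f e (θ *ᵥ e) ≠ 0) :
    ∃ k : Matrix.GeneralLinearGroup ι F, IsKU f θ k ∧ ∀ x : ι → F,
      (k : Matrix ι ι F) *ᵥ x
        = x - (2 / f e (θ *ᵥ e)) • (f x (θ *ᵥ e) • e - f x e • (θ *ᵥ e)) := by
  have hf := sd.symp
  have hb := hf.bilinear
  obtain ⟨Z, hZ⟩ : ∃ Z : Matrix ι ι F,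
      Z = tv e ((-(2 / f e (θ *ᵥ e))) • rho f (θ *ᵥ e)) *
        tv (θ *ᵥ e) ((2 / f e (θ *ᵥ e)) • rho f e) := ⟨_, rfl⟩
  have hZx : ∀ x : ι → F,
      Z *ᵥ x = x - (2 / f e (θ *ᵥ e)) • (f x (θ *ᵥ e) • e - f x e • (θ *ᵥ e)) := by
    intro x
    rw [hZ, ← Matrix.mulVec_mulVec, tv_mulVec, tv_mulVec, smul_dotProduct, smul_dotProduct,
      rho_dot hb, rho_dot hb, hb.add_left, hb.smul_left, sd.f_tt, hf.alternating]
    simp only [smul_eq_mul]
    module
  have hee : f (θ *ᵥ e) e = - f e (θ *ᵥ e) := sd.f_self_theta' e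
  have hZZ : Z * Z = 1 := by
    apply matrix_ext_mulVec
    intro x
    rw [← Matrix.mulVec_mulVec, hZx, hZx, Matrix.one_mulVec]
    simp only [form_sub_left hb, hb.smul_left, hb.add_left, sd.f_tt, hf.alternating, hee]
    have h1 : (2 / f e (θ *ᵥ e)) * f e (θ *ᵥ e) = 2 := div_mul_cancel₀ _ he
    generalize f e (θ *ᵥ e) = ε at *
    generalize f x (θ *ᵥ e) = A at *
    generalize f x e = B at *
    have e1 : A - 2 / ε * (A * ε - B * -(d * 0)) = -A := by linear_combination -A * h1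
    have e2 : B - 2 / ε * (A * 0 - B * -ε) = -B := by linear_combination -B * h1
    rw [e1, e2]
    module
  refine ⟨⟨Z, Z, hZZ, hZZ⟩, ⟨?_, ?_⟩, hZx⟩
  · show Z * θ = θ * Z
    apply matrix_ext_mulVec
    intro x
    rw [← Matrix.mulVec_mulVec, ← Matrix.mulVec_mulVec, hZx, hZx]
    simp only [Matrix.mulVec_add, Matrix.mulVec_smul, Matrix.mulVec_sub, sd.sq, sd.f_tt,
      sd.adj x e]
    module
  · intro x y
    show f (Z *ᵥ x) (Z *ᵥ y) = f x y
    rw [hZx, hZx]
    have hxe : f e y = - f y e := hf.skew e y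
    have hxte : f (θ *ᵥ e) y = - f y (θ *ᵥ e) := hf.skew _ y
    simp only [form_sub_left hb, form_sub_right hb, hb.smul_left, hb.smul_right, hb.add_left,
      hb.add_right, sd.f_tt, hf.alternating, hee, hxe, hxte]
    have h1 : (2 / f e (θ *ᵥ e)) * f e (θ *ᵥ e) = 2 := div_mul_cancel₀ _ he
    generalize f e (θ *ᵥ e) = ε at *
    generalize (2 / ε) = c at *
    linear_combination (f x e * f y (θ *ᵥ e) - f x (θ *ᵥ e) * f y e) * c * h1

/-- The scalars of norm one. -/
theorem exists_scal {s t : F} (hst : s * s - d * (t * t) = 1) :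
    ∃ k : Matrix.GeneralLinearGroup ι F, IsKU f θ k ∧ ∀ x : ι → F,
      (k : Matrix ι ι F) *ᵥ x = s • x + t • (θ *ᵥ x) := by
  have hf := sd.symp
  have hb := hf.bilinear
  have h1 : (s • (1 : Matrix ι ι F) + t • θ) * (s • (1 : Matrix ι ι F) - t • θ) = 1 := by
    apply matrix_ext_mulVec
    intro x
    rw [← Matrix.mulVec_mulVec]
    simp only [Matrix.add_mulVec, Matrix.sub_mulVec, Matrix.smul_mulVec, Matrix.one_mulVec,
      Matrix.mulVec_sub, Matrix.mulVec_smul, sd.sq]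
    have : x = (s * s - d * (t * t)) • x := by rw [hst, one_smul]
    conv_rhs => rw [this]
    module
  have h2 : (s • (1 : Matrix ι ι F) - t • θ) * (s • (1 : Matrix ι ι F) + t • θ) = 1 := by
    apply matrix_ext_mulVec
    intro x
    rw [← Matrix.mulVec_mulVec]
    simp only [Matrix.add_mulVec, Matrix.sub_mulVec, Matrix.smul_mulVec, Matrix.one_mulVec,
      Matrix.mulVec_add, Matrix.mulVec_smul, sd.sq]
    have : x = (s * s - d * (t * t)) • x := by rw [hst, one_smul]
    conv_rhs => rw [this]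
    module
  have hx : ∀ x : ι → F, (s • (1 : Matrix ι ι F) + t • θ) *ᵥ x = s • x + t • (θ *ᵥ x) := by
    intro x
    rw [Matrix.add_mulVec, Matrix.smul_mulVec, Matrix.smul_mulVec, Matrix.one_mulVec]
  refine ⟨⟨_, _, h1, h2⟩, ⟨?_, ?_⟩, hx⟩
  · show (s • (1 : Matrix ι ι F) + t • θ) * θ = θ * (s • (1 : Matrix ι ι F) + t • θ)
    simp only [add_mul, mul_add, smul_mul_assoc, mul_smul_comm, one_mul, mul_one]
  · intro x y
    show f ((s • (1 : Matrix ι ι F) + t • θ) *ᵥ x) ((s • (1 : Matrix ι ι F) + t • θ) *ᵥ y)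
      = f x y
    rw [hx, hx]
    simp only [hb.smul_left, hb.smul_right, hb.add_left, hb.add_right, sd.f_tt, sd.adj x y]
    linear_combination f x y * hst

end SUData

/-- The data `SUData` of a quadratic field subalgebra closed under adjoints for the symplectic
form `f` and not self-adjoint, in odd characteristic. -/
theorem exists_suData (f : (ι → F) → (ι → F) → F) (hf : Cfsg.Geo.IsSymplecticForm f)
    (h2 : (2 : F) ≠ 0) (K : Subalgebra F (Matrix ι ι F))
    (hK : Cfsg.Geo.IsFieldSubalgebra 2 K) (hac : Cfsg.Geo.IsAdjointClosedFor f K)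
    (hnsa : ¬ Cfsg.Geo.IsSelfAdjointFor f K) :
    ∃ (θ : Matrix ι ι F) (d : F), θ ∈ K ∧
      (∀ k ∈ K, ∃ α β : F, k = α • (1 : Matrix ι ι F) + β • θ) ∧
      (∀ c : F, θ ≠ c • (1 : Matrix ι ι F)) ∧ SUData f θ d := by
  have hb := hf.bilinear
  obtain ⟨θ₀, hθK, hθ1, hspan⟩ := exists_theta K hK.finrank_eq
  obtain ⟨α₀, τ, hθθ⟩ := hspan (θ₀ * θ₀) (K.mul_mem hθK hθK)
  have hsq : ∀ x : ι → F, θ₀ *ᵥ (θ₀ *ᵥ x) = α₀ • x + τ • (θ₀ *ᵥ x) := by
    intro x
    rw [Matrix.mulVec_mulVec, hθθ, Matrix.add_mulVec, Matrix.smul_mulVec, Matrix.smul_mulVec,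
      Matrix.one_mulVec]
  have hnd : ∀ w : ι → F, (∀ u, f u w = 0) → w = 0 := by
    intro w hw
    by_contra hw0
    obtain ⟨x, hx⟩ := (hf.nondegenerate w hw0).1
    exact hx (hw x)
  have hdom : ∀ x ∈ K, ∀ y ∈ K, x ≠ 0 → x * y = 0 → y = 0 := by
    intro x hx y hy hx0 hxy
    obtain ⟨x', hx', hxx'⟩ := hK.inv x hx hx0
    calc y = (x * x') * y := by rw [hxx', one_mul]
      _ = x' * (x * y) := by rw [hK.comm x hx x' hx', mul_assoc]
      _ = 0 := by rw [hxy, mul_zero]
  obtain ⟨θ', hθ'K, hadj⟩ := hac θ₀ hθK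
  have hsq' : θ' * θ' = α₀ • (1 : Matrix ι ι F) + τ • θ' := by
    apply matrix_ext_mulVec
    intro v
    have : θ' *ᵥ (θ' *ᵥ v) - (α₀ • v + τ • (θ' *ᵥ v)) = 0 := by
      apply hnd
      intro u
      rw [form_sub_right hb, hb.add_right, hb.smul_right, hb.smul_right, ← hadj, ← hadj,
        hsq, hb.add_left, hb.smul_left, hb.smul_left, hadj]
      ring
    rw [← Matrix.mulVec_mulVec, Matrix.add_mulVec, Matrix.smul_mulVec, Matrix.smul_mulVec,
      Matrix.one_mulVec]
    exact sub_eq_zero.mp this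
  have hθ'ne : θ' ≠ θ₀ := by
    intro h
    apply hnsa
    intro k hk u v
    obtain ⟨a, b, rfl⟩ := hspan k hk
    rw [Matrix.add_mulVec, Matrix.add_mulVec, Matrix.smul_mulVec, Matrix.smul_mulVec,
      Matrix.smul_mulVec, Matrix.smul_mulVec, Matrix.one_mulVec, Matrix.one_mulVec,
      hb.add_left, hb.add_right, hb.smul_left, hb.smul_left, hb.smul_right,
      hb.smul_right, hadj, h]
  have hθ' : θ' = τ • (1 : Matrix ι ι F) - θ₀ := by
    have hprod : (θ' - θ₀) * (θ' - (τ • (1 : Matrix ι ι F) - θ₀)) = 0 := by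
      have hc := hK.comm θ₀ hθK θ' hθ'K
      have e1 : (θ' - θ₀) * (θ' - (τ • (1 : Matrix ι ι F) - θ₀))
          = θ' * θ' - τ • θ' - (θ₀ * θ₀ - τ • θ₀) + (θ' * θ₀ - θ₀ * θ') := by
        simp only [sub_mul, mul_sub, mul_smul_comm, mul_one]
        module
      rw [e1, hsq', hθθ, hc, sub_self]
      module
    have := hdom _ (K.sub_mem hθ'K hθK) _
      (K.sub_mem hθ'K (K.sub_mem (K.smul_mem K.one_mem τ) hθK)) (sub_ne_zero.mpr hθ'ne) hprod
    exact sub_eq_zero.mp this
  have hadjF : ∀ u v : ι → F, f (θ₀ *ᵥ u) v = τ * f u v - f u (θ₀ *ᵥ v) := by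
    intro u v
    rw [hadj, hθ', Matrix.sub_mulVec, Matrix.smul_mulVec, Matrix.one_mulVec, form_sub_right hb,
      hb.smul_right]
  obtain ⟨θ, hθ⟩ : ∃ θ : Matrix ι ι F, θ = θ₀ - (τ / 2) • (1 : Matrix ι ι F) := ⟨_, rfl⟩
  have hθx : ∀ x : ι → F, θ *ᵥ x = θ₀ *ᵥ x - (τ / 2) • x := by
    intro x
    rw [hθ, Matrix.sub_mulVec, Matrix.smul_mulVec, Matrix.one_mulVec]
  have hθmem : θ ∈ K := by
    rw [hθ]
    exact K.sub_mem hθK (K.smul_mem K.one_mem _)
  have hsqθ : ∀ x : ι → F, θ *ᵥ (θ *ᵥ x) = (α₀ + τ * τ / 4) • x := by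
    intro x
    rw [hθx, hθx, Matrix.mulVec_sub, Matrix.mulVec_smul, hsq]
    have h4 : (4 : F) ≠ 0 := by
      have : (4 : F) = 2 * 2 := by norm_num
      rw [this]
      exact mul_ne_zero h2 h2
    have e : (α₀ + τ * τ / 4) = α₀ + (τ / 2) * (τ / 2) := by field_simp; ring
    rw [e]
    have e2 : τ = 2 * (τ / 2) := by field_simp
    generalize τ / 2 = σ at *
    rw [e2]
    module
  have hθ1' : ∀ c : F, θ ≠ c • (1 : Matrix ι ι F) := by
    intro c hc
    apply hθ1 (c + τ / 2)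
    have : θ₀ = θ + (τ / 2) • (1 : Matrix ι ι F) := by rw [hθ]; abel
    rw [this, hc, add_smul]
  refine ⟨θ, α₀ + τ * τ / 4, hθmem, ?_, hθ1', ⟨hf, hsqθ, ?_, ?_, h2⟩⟩
  · intro k hk
    obtain ⟨a, b, rfl⟩ := hspan k hk
    refine ⟨a + b * (τ / 2), b, ?_⟩
    rw [hθ]
    module
  · intro u v
    rw [hθx, hθx, form_sub_left hb, form_sub_right hb, hb.smul_left, hb.smul_right, hadjF]
    have e2 : τ = 2 * (τ / 2) := by field_simp
    generalize τ / 2 = σ at *
    rw [e2]
    ring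
  · intro c hc
    have hθθ' : θ * θ = (α₀ + τ * τ / 4) • (1 : Matrix ι ι F) := by
      apply matrix_ext_mulVec
      intro v
      rw [← Matrix.mulVec_mulVec, hsqθ, Matrix.smul_mulVec, Matrix.one_mulVec]
    have hprod : (θ - c • (1 : Matrix ι ι F)) * (θ + c • (1 : Matrix ι ι F)) = 0 := by
      have e1 : (θ - c • (1 : Matrix ι ι F)) * (θ + c • (1 : Matrix ι ι F))
          = θ * θ - (c * c) • (1 : Matrix ι ι F) := by
        simp only [sub_mul, mul_add, smul_mul_assoc, mul_smul_comm, one_mul, mul_one]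
        module
      rw [e1, hθθ', hc, sub_self]
    have h0 := hdom _ (K.sub_mem hθmem (K.smul_mem K.one_mem c)) _
      (K.add_mem hθmem (K.smul_mem K.one_mem c)) (sub_ne_zero.mpr (hθ1' c)) hprod
    apply hθ1' (-c)
    rw [neg_smul]
    exact eq_neg_of_add_eq_zero_left h0

end SpGUA

end Cfsg.Agent.Lib.Helper65
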