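import Mathlib
import Cfsg.Agent.Lib.Helper52.OutDefs
import Cfsg.Agent.Lib.Helper53.Hilbert90Gen
import Cfsg.Agent.Lib.Helper51.HypPairs
import Cfsg.Agent.Lib.Helper51.OTransportOdd
import Cfsg.Agent.S2618
import Cfsg.Prelude.Def_LieTypeDatum

/-!
# LS-2: descent of an odd-dimensional quadratic form to the fixed field of an automorphism
-/

set_option autoImplicit false
set_option linter.unusedSectionVars false
set_option linter.unusedSimpArgs false

namespace Cfsg.Agent.Lib.Helper65.LS2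

open Module QuadraticMap Matrix
open Cfsg.Agent.Lib.Helper51
open Cfsg.Agent.Lib.Helper51.OTransport (eq_of_polar_basis)

/-- Every nondegenerate quadratic form in `2m+1` variables over a finite field of odd
characteristic is similar to the standard one. -/
theorem std_odd {K : Type*} [Field K] [Finite K] (h2 : (2 : K) ≠ 0) (m : ℕ)
    (Q : QuadraticForm K (Unit ⊕ (Fin m ⊕ Fin m) → K)) (hQ : (polarBilin Q).Nondegenerate) :
    ∃ (R : GL (Unit ⊕ (Fin m ⊕ Fin m)) K) (c : Kˣ), ∀ v : Unit ⊕ (Fin m ⊕ Fin m) → K,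
      Q ((R : Matrix (Unit ⊕ (Fin m ⊕ Fin m)) (Unit ⊕ (Fin m ⊕ Fin m)) K) *ᵥ v)
        = (c : K) * Cfsg.quadFormOdd m K v := by
  classical
  have hV : Module.finrank K (Unit ⊕ (Fin m ⊕ Fin m) → K) = 2 * m + 1 := by
    rw [Module.finrank_fintype_fun_eq_card]
    simp only [Fintype.card_sum, Fintype.card_unit, Fintype.card_fin]
    omega
  obtain ⟨b, hb0, hb1, -, hb3, hb4⟩ := Cfsg.Agent.S2618.result hV Q hQ
  obtain ⟨c, hcdef⟩ : ∃ c : K, c = Q (b (Sum.inl ())) := ⟨_, rfl⟩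
  have hc0 : c ≠ 0 := hcdef ▸ hb0
  have hw : ∀ k : Unit ⊕ (Fin m ⊕ Fin m),
      IsUnit (Sum.elim (fun _ => (1 : K)) (Sum.elim (fun _ => c) (fun _ => 1)) k) := by
    rintro (⟨⟩ | k | k)
    · exact isUnit_one
    · exact hc0.isUnit
    · exact isUnit_one
  obtain ⟨b', hb'0, hb'1, hb'2⟩ : ∃ b' : Module.Basis (Unit ⊕ (Fin m ⊕ Fin m)) K
      (Unit ⊕ (Fin m ⊕ Fin m) → K),
      (b' (Sum.inl ()) = b (Sum.inl ())) ∧
        (∀ i, b' (Sum.inr (Sum.inl i)) = c • b (Sum.inr (Sum.inl i)))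
        ∧ (∀ i, b' (Sum.inr (Sum.inr i)) = b (Sum.inr (Sum.inr i))) :=
    ⟨b.isUnitSMul hw, by rw [Module.Basis.isUnitSMul_apply]; simp,
      fun i => by rw [Module.Basis.isUnitSMul_apply]; simp,
      fun i => by rw [Module.Basis.isUnitSMul_apply]; simp⟩
  have hbk : ∀ k, b'.equivFun (b' k) = Pi.single k 1 := by
    intro k
    funext j
    rw [Module.Basis.equivFun_self, Pi.single_apply]
    simp [eq_comm]
  have hT : ∀ v, c * QOdd m K (b'.equivFun v) = Q v := by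
    intro v
    have := eq_of_polar_basis h2
      (c • (QOdd m K).comp (b'.equivFun :
        (Unit ⊕ (Fin m ⊕ Fin m) → K) →ₗ[K] (Unit ⊕ (Fin m ⊕ Fin m) → K)))
      Q b' ?_ v
    · simpa [QuadraticMap.comp_apply] using this
    · intro k l
      have e1 : QuadraticMap.polar
          ⇑(c • (QOdd m K).comp (b'.equivFun :
            (Unit ⊕ (Fin m ⊕ Fin m) → K) →ₗ[K] (Unit ⊕ (Fin m ⊕ Fin m) → K)))
            (b' k) (b' l)
          = c * QuadraticMap.polar ⇑(QOdd m K) (Pi.single k 1) (Pi.single l 1) := by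
        simp only [QuadraticMap.polar, _root_.smul_apply, QuadraticMap.comp_apply, map_add,
          LinearEquiv.coe_coe, hbk, smul_eq_mul]
        ring
      rw [e1, polar_QOdd]
      rcases k with ⟨⟩ | k | k <;> rcases l with ⟨⟩ | l | l
      · rw [hb'0, QuadraticMap.polar_self, ← hcdef]
        simp
        ring
      · rw [hb'0, hb'1, QuadraticMap.polar_smul_right, (hb1 l).1]
        simp [Pi.single_apply]
      · rw [hb'0, hb'2, (hb1 l).2]
        simp [Pi.single_apply]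
      · rw [hb'0, hb'1, QuadraticMap.polar_smul_left, QuadraticMap.polar_comm, (hb1 k).1]
        simp [Pi.single_apply]
      · rw [hb'1, hb'1, QuadraticMap.polar_smul_left, QuadraticMap.polar_smul_right, (hb4 k l).1]
        simp [Pi.single_apply]
      · rw [hb'1, hb'2, QuadraticMap.polar_smul_left, hb3 k l]
        by_cases hkl : k = l
        · subst hkl
          simp [Pi.single_apply]
        · simp [Pi.single_apply, hkl, Ne.symm hkl]
      · rw [hb'2, hb'0, QuadraticMap.polar_comm, (hb1 k).2]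
        simp [Pi.single_apply]
      · rw [hb'2, hb'1, QuadraticMap.polar_smul_right, QuadraticMap.polar_comm, hb3 l k]
        by_cases hkl : l = k
        · subst hkl
          simp [Pi.single_apply]
        · simp [Pi.single_apply, hkl, Ne.symm hkl]
      · rw [hb'2, hb'2, (hb4 k l).2]
        simp [Pi.single_apply]
  refine ⟨⟨LinearMap.toMatrix' (b'.equivFun.symm :
      (Unit ⊕ (Fin m ⊕ Fin m) → K) →ₗ[K] (Unit ⊕ (Fin m ⊕ Fin m) → K)),
    LinearMap.toMatrix' (b'.equivFun :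
      (Unit ⊕ (Fin m ⊕ Fin m) → K) →ₗ[K] (Unit ⊕ (Fin m ⊕ Fin m) → K)), ?_, ?_⟩,
    Units.mk0 c hc0, ?_⟩
  · rw [← LinearMap.toMatrix'_comp]
    simp
  · rw [← LinearMap.toMatrix'_comp]
    simp
  · intro v
    show Q (LinearMap.toMatrix' (b'.equivFun.symm :
      (Unit ⊕ (Fin m ⊕ Fin m) → K) →ₗ[K] (Unit ⊕ (Fin m ⊕ Fin m) → K)) *ᵥ v)
        = c * Cfsg.quadFormOdd m K v
    rw [← Matrix.toLin'_apply, Matrix.toLin'_toMatrix', ← hT, LinearEquiv.coe_coe,
      LinearEquiv.apply_symm_apply, coe_QOdd]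

/-- the fixed field of an automorphism -/
def fixSub {F : Type*} [Field F] (σ : F ≃+* F) : Subfield F where
  carrier := {x | σ x = x}
  mul_mem' := by
    intro a b ha hb
    show σ (a * b) = a * b
    rw [map_mul, ha, hb]
  one_mem' := map_one σ
  add_mem' := by
    intro a b ha hb
    show σ (a + b) = a + b
    rw [map_add, ha, hb]
  zero_mem' := map_zero σ
  neg_mem' := by
    intro a ha
    show σ (-a) = -a
    rw [map_neg, ha]
  inv_mem' := by
    intro a ha
    show σ a⁻¹ = a⁻¹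
    rw [map_inv₀, ha]

theorem mem_fixSub {F : Type*} [Field F] (σ : F ≃+* F) (x : F) : x ∈ fixSub σ ↔ σ x = x :=
  Iff.rfl

section descent

variable {F : Type*} [Field F] {ι : Type} [Fintype ι] [DecidableEq ι] (σ : F ≃+* F)

/-- extension of scalars of a vector -/
def up (w : ι → ↥(fixSub σ)) : ι → F := fun i => (w i : F)

theorem up_add (x y : ι → ↥(fixSub σ)) : up σ (x + y) = up σ x + up σ y := rfl

theorem up_smul (a : ↥(fixSub σ)) (x : ι → ↥(fixSub σ)) : up σ (a • x) = (a : F) • up σ x := rfl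

theorem up_single (i : ι) : up σ (Pi.single i 1) = Pi.single i 1 := by
  funext j
  unfold up
  by_cases h : j = i
  · subst h
    simp
  · simp [Pi.single_eq_of_ne h]

theorem up_sigma (w : ι → ↥(fixSub σ)) : (fun i => σ (up σ w i)) = up σ w := by
  funext i
  exact (w i).2

theorem up_injective : Function.Injective (up σ (ι := ι)) := by
  intro x y h
  funext i
  exact Subtype.ext (congrFun h i)

variable (Q1 : QuadraticForm F (ι → F)) (hσ : ∀ v : ι → F, Q1 (fun i => σ (v i)) = σ (Q1 v))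

/-- the restriction of `Q1` to rational vectors, as a function -/
def q0 (hσ : ∀ v : ι → F, Q1 (fun i => σ (v i)) = σ (Q1 v)) (w : ι → ↥(fixSub σ)) :
    ↥(fixSub σ) :=
  ⟨Q1 (up σ w), by
    rw [mem_fixSub, ← hσ, up_sigma]⟩

theorem coe_q0 (w : ι → ↥(fixSub σ)) : ((q0 σ Q1 hσ w : ↥(fixSub σ)) : F) = Q1 (up σ w) := rfl

theorem coe_polar_q0 (x y : ι → ↥(fixSub σ)) :
    ((QuadraticMap.polar (q0 σ Q1 hσ) x y : ↥(fixSub σ)) : F) =
      QuadraticMap.polar ⇑Q1 (up σ x) (up σ y) := by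
  unfold QuadraticMap.polar
  rw [Subfield.coe_sub, Subfield.coe_sub, coe_q0, coe_q0, coe_q0, up_add]

/-- the restriction of `Q1` to rational vectors, as a quadratic form over the fixed field -/
def Q10 : QuadraticForm ↥(fixSub σ) (ι → ↥(fixSub σ)) :=
  QuadraticMap.ofPolar (q0 σ Q1 hσ)
    (by
      intro a x
      apply Subtype.ext
      rw [coe_q0, up_smul, QuadraticMap.map_smul]
      rfl)
    (by
      intro x x' y
      apply Subtype.ext
      rw [Subfield.coe_add, coe_polar_q0, coe_polar_q0, coe_polar_q0, up_add,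
        QuadraticMap.polar_add_left])
    (by
      intro a x y
      apply Subtype.ext
      rw [coe_polar_q0, up_smul, QuadraticMap.polar_smul_left]
      rfl)

theorem coe_Q10 (w : ι → ↥(fixSub σ)) : ((Q10 σ Q1 hσ w : ↥(fixSub σ)) : F) = Q1 (up σ w) := rfl

theorem coe_polar_Q10 (x y : ι → ↥(fixSub σ)) :
    ((QuadraticMap.polar ⇑(Q10 σ Q1 hσ) x y : ↥(fixSub σ)) : F) =
      QuadraticMap.polar ⇑Q1 (up σ x) (up σ y) :=
  coe_polar_q0 σ Q1 hσ x y

theorem Q10_nondeg (hQ1 : (polarBilin Q1).Nondegenerate) :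
    (polarBilin (Q10 σ Q1 hσ)).Nondegenerate := by
  have hleft : ∀ x : ι → ↥(fixSub σ),
      (∀ y, QuadraticMap.polar ⇑(Q10 σ Q1 hσ) x y = 0) → x = 0 := by
    intro x hx
    apply up_injective σ
    have h0 : up σ (0 : ι → ↥(fixSub σ)) = 0 := rfl
    rw [h0]
    apply hQ1.1
    intro y
    have hlin : polarBilin Q1 (up σ x) = 0 := by
      apply LinearMap.pi_ext
      intro j a
      have e : (Pi.single j a : ι → F) = a • up σ (Pi.single j 1) := by
        rw [up_single, ← Pi.single_smul, smul_eq_mul, mul_one]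
      rw [e, map_smul, QuadraticMap.polarBilin_apply_apply, ← coe_polar_Q10 σ Q1 hσ, hx]
      simp
    rw [hlin]
    rfl
  constructor
  · intro x hx
    apply hleft x
    intro y
    have := hx y
    rwa [QuadraticMap.polarBilin_apply_apply] at this
  · intro y hy
    apply hleft y
    intro x
    have := hy x
    rw [QuadraticMap.polarBilin_apply_apply] at this
    rw [QuadraticMap.polar_comm]
    exact this

end descent

theorem quadFormOdd_up {F : Type*} [Field F] (σ : F ≃+* F) (m : ℕ)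
    (w : Unit ⊕ (Fin m ⊕ Fin m) → ↥(fixSub σ)) :
    ((Cfsg.quadFormOdd m ↥(fixSub σ) w : ↥(fixSub σ)) : F) = Cfsg.quadFormOdd m F (up σ w) := by
  unfold Cfsg.quadFormOdd up
  push_cast
  rfl

theorem descent_odd {F : Type*} [Field F] [Fintype F] (h2 : (2 : F) ≠ 0) (m : ℕ) (σ : F ≃+* F)
    (Q1 : QuadraticForm F (Unit ⊕ (Fin m ⊕ Fin m) → F)) (hQ1 : (polarBilin Q1).Nondegenerate)
    (hσ : ∀ v : Unit ⊕ (Fin m ⊕ Fin m) → F, Q1 (fun i => σ (v i)) = σ (Q1 v)) :
    ∃ (R : GL (Unit ⊕ (Fin m ⊕ Fin m)) F) (c : Fˣ),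
      (R : Matrix (Unit ⊕ (Fin m ⊕ Fin m)) (Unit ⊕ (Fin m ⊕ Fin m)) F).map σ
        = (R : Matrix (Unit ⊕ (Fin m ⊕ Fin m)) (Unit ⊕ (Fin m ⊕ Fin m)) F) ∧
      ∀ v : Unit ⊕ (Fin m ⊕ Fin m) → F,
        Q1 ((R : Matrix (Unit ⊕ (Fin m ⊕ Fin m)) (Unit ⊕ (Fin m ⊕ Fin m)) F) *ᵥ v)
          = (c : F) * Cfsg.quadFormOdd m F v := by
  classical
  have h2K : (2 : ↥(fixSub σ)) ≠ 0 := by
    intro h
    apply h2
    have h' : ((2 : ↥(fixSub σ)) : F) = 0 := by
      rw [h]
      rfl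
    have e : ((2 : ↥(fixSub σ)) : F) = (2 : F) := rfl
    rw [e] at h'
    exact h'
  obtain ⟨R0, c0, hR0⟩ := std_odd h2K m (Q10 σ Q1 hσ) (Q10_nondeg σ Q1 hσ hQ1)
  refine ⟨Matrix.GeneralLinearGroup.map (fixSub σ).subtype R0,
    Units.map ((fixSub σ).subtype : ↥(fixSub σ) →* F) c0, ?_, ?_⟩
  · ext i j
    rw [Matrix.map_apply]
    exact ((R0 : Matrix (Unit ⊕ (Fin m ⊕ Fin m)) (Unit ⊕ (Fin m ⊕ Fin m)) ↥(fixSub σ)) i j).2
  · have hup : ∀ w : Unit ⊕ (Fin m ⊕ Fin m) → ↥(fixSub σ),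
        Q1 (((Matrix.GeneralLinearGroup.map (fixSub σ).subtype R0 :
            GL (Unit ⊕ (Fin m ⊕ Fin m)) F) :
          Matrix (Unit ⊕ (Fin m ⊕ Fin m)) (Unit ⊕ (Fin m ⊕ Fin m)) F) *ᵥ up σ w)
        = ((c0 : ↥(fixSub σ)) : F) * Cfsg.quadFormOdd m F (up σ w) := by
      intro w
      have e1 : ((Matrix.GeneralLinearGroup.map (fixSub σ).subtype R0 :
            GL (Unit ⊕ (Fin m ⊕ Fin m)) F) :
          Matrix (Unit ⊕ (Fin m ⊕ Fin m)) (Unit ⊕ (Fin m ⊕ Fin m)) F) *ᵥ up σ w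
          = up σ ((R0 : Matrix (Unit ⊕ (Fin m ⊕ Fin m)) (Unit ⊕ (Fin m ⊕ Fin m))
              ↥(fixSub σ)) *ᵥ w) := by
        funext i
        exact (RingHom.map_mulVec (fixSub σ).subtype _ w i).symm
      rw [e1, ← coe_Q10 σ Q1 hσ, hR0, Subfield.coe_mul, quadFormOdd_up]
    intro v
    have key := eq_of_polar_basis h2
      (Q1.comp (Matrix.toLin' ((Matrix.GeneralLinearGroup.map (fixSub σ).subtype R0 :
            GL (Unit ⊕ (Fin m ⊕ Fin m)) F) :
          Matrix (Unit ⊕ (Fin m ⊕ Fin m)) (Unit ⊕ (Fin m ⊕ Fin m)) F)))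
      ((((c0 : ↥(fixSub σ)) : F)) • QOdd m F) (Pi.basisFun F (Unit ⊕ (Fin m ⊕ Fin m))) ?_ v
    · simpa [QuadraticMap.comp_apply, coe_QOdd] using key
    · intro i j
      have hA : ∀ w : Unit ⊕ (Fin m ⊕ Fin m) → ↥(fixSub σ),
          (Q1.comp (Matrix.toLin' ((Matrix.GeneralLinearGroup.map (fixSub σ).subtype R0 :
            GL (Unit ⊕ (Fin m ⊕ Fin m)) F) :
          Matrix (Unit ⊕ (Fin m ⊕ Fin m)) (Unit ⊕ (Fin m ⊕ Fin m)) F))) (up σ w) =
          ((((c0 : ↥(fixSub σ)) : F)) • QOdd m F) (up σ w) := by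
        intro w
        rw [QuadraticMap.comp_apply, Matrix.toLin'_apply, hup w, _root_.smul_apply,
          smul_eq_mul, coe_QOdd]
      rw [Pi.basisFun_apply, Pi.basisFun_apply]
      unfold QuadraticMap.polar
      rw [← up_single σ i, ← up_single σ j, ← up_add, hA, hA, hA]

end Cfsg.Agent.Lib.Helper65.LS2
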