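import Mathlib
import Cfsg.Prelude.Def_GeometricClasses
import Cfsg.Prelude.Def_LieClassical
import Cfsg.Agent.Lib.Helper71.Asch0
import Cfsg.Agent.Lib.Helper71.Asch5
import Cfsg.Agent.Lib.Helper82.ASCOREB
import Cfsg.Agent.Lib.Helper46.ASB3s
import Cfsg.Agent.Lib.Helper46.ASB4
import Cfsg.Agent.Lib.Helper61.ASB6
import Cfsg.Agent.Lib.Helper67.ASNL
import Cfsg.Agent.Lib.Helper46.ASB7core
import Cfsg.Agent.Lib.Helper73.SLPC2
import Cfsg.Agent.Lib.Helper16.SLPC3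
import Cfsg.Agent.Lib.Helper82.ASSA
import Cfsg.Agent.Lib.Helper28.ASSB
import Cfsg.Agent.Lib.Helper66.ASSC
import Cfsg.Agent.Lib.Helper82.ASSG
import Cfsg.Agent.Lib.Helper77.OMPO7
import Cfsg.Agent.Lib.Helper54.OMPO8a
import Cfsg.Agent.Lib.Helper4.OMPTRa
import Cfsg.Agent.Lib.Helper63.OMPTRb
import Cfsg.Agent.Lib.Helper46.OMPT1
import Cfsg.Agent.Lib.Helper97.SpOver3
import Cfsg.Agent.Lib.Helper97.SpOver4
import Cfsg.Agent.Lib.Helper75.SPPEVEN
import Cfsg.Agent.Lib.Helper63.SPPS1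
import Cfsg.Agent.Lib.Helper86.SPPCAP
import Cfsg.Agent.Lib.Helper76.SPPPAIRa
import Cfsg.Agent.Lib.Helper39.SPPPAIRb
import Cfsg.Agent.Lib.Helper31.SPPPLN
import Cfsg.Agent.Lib.Helper19.SPPQTI
import Cfsg.Agent.Lib.Helper83.SPPHOMP
import Cfsg.Agent.Lib.Helper10.SPPUNIQ
import Cfsg.Agent.Lib.Helper89.SPPADJ
import Cfsg.Agent.Lib.Helper75.SPPFLD2b
import Cfsg.Agent.Lib.Helper39.SPPSQ
import Cfsg.Agent.Lib.Helper92.SPPTS0
import Cfsg.Agent.Lib.Helper6.SPPTS1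
import Cfsg.Agent.Lib.Helper75.SPPTS2
import Cfsg.Agent.Lib.Helper2.SPPTS5
import Cfsg.Agent.Lib.Helper54.SPPTS9
import Cfsg.Agent.Lib.Helper46.SPPTRq
import Cfsg.Agent.Lib.Helper10.SPPNS3
import Cfsg.Agent.Lib.Helper93.SPPTS3
import Cfsg.Agent.Lib.Helper53.SPPNS5
import Cfsg.Agent.Lib.Helper52.SPPNS9
import Cfsg.Agent.Lib.Helper65.SP4CDefs
import Cfsg.Agent.Lib.Helper65.SP4CPLANE
import Cfsg.Agent.Lib.Helper65.SP4CSAK
import Cfsg.Agent.Lib.Helper65.SP4CQTf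
import Cfsg.Agent.Lib.Helper65.SP4CQTq
import Cfsg.Agent.Lib.Helper65.SP4CCOMP

/-! Project SP4C (helper65): the maximal subgroups of `Sp_4(q)`, `q` even (statement S5790):
assembly of the pieces `Cfsg.Agent.Lib.Helper65.SP4C*`, helper71's project SPP and the linear
engine of project ASCH. -/

set_option autoImplicit false

namespace Cfsg.Agent.Lib.Helper65.SP4C

open Matrix Cfsg.Geo Cfsg.Agent.Lib.Helper71.Asch
open Cfsg.Agent.Lib.Helper82.ASCOREB (coreB)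
open Cfsg.Agent.Lib.Helper46.ASB3s (B3s B3a)
open Cfsg.Agent.Lib.Helper46.ASB4 (B4 not_le_scalars)
open Cfsg.Agent.Lib.Helper61.ASB6 (B6)
open Cfsg.Agent.Lib.Helper67.ASNL (NL_core exists_subfield_aut)
open Cfsg.Agent.Lib.Helper46.ASB7core (B7core)
open Cfsg.Agent.Lib.Helper73.SLPC2 (C2)
open Cfsg.Agent.Lib.Helper16.SLPC3 (C3)
open Cfsg.Agent.Lib.Helper82.ASSA (SA)
open Cfsg.Agent.Lib.Helper28.ASSB (SB)
open Cfsg.Agent.Lib.Helper66.ASSC (SC)
open Cfsg.Agent.Lib.Helper82.ASSG (SH)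
open Cfsg.Agent.Lib.Helper77.OMPO7 (O7)
open Cfsg.Agent.Lib.Helper54.OMPO8a (O8a)
open Cfsg.Agent.Lib.Helper75.SPPEVEN (EVEN)
open Cfsg.Agent.Lib.Helper63.SPPS1 (S1)
open Cfsg.Agent.Lib.Helper86.SPPCAP (CAP)
open Cfsg.Agent.Lib.Helper76.SPPPAIRa (PAIRa)
open Cfsg.Agent.Lib.Helper39.SPPPAIRb (PAIRb)
open Cfsg.Agent.Lib.Helper31.SPPPLN (PLN)
open Cfsg.Agent.Lib.Helper19.SPPQTI (QTI)
open Cfsg.Agent.Lib.Helper83.SPPHOMP (HOMP)
open Cfsg.Agent.Lib.Helper10.SPPUNIQ (UNIQ)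
open Cfsg.Agent.Lib.Helper89.SPPADJ (ADJ)
open Cfsg.Agent.Lib.Helper75.SPPFLD2b (FLD2b)
open Cfsg.Agent.Lib.Helper39.SPPSQ (SQ)
open Cfsg.Agent.Lib.Helper92.SPPTS0 (tf TS0a TS0b)
open Cfsg.Agent.Lib.Helper6.SPPTS1 (tW TS1)
open Cfsg.Agent.Lib.Helper75.SPPTS2 (TS2)
open Cfsg.Agent.Lib.Helper2.SPPTS5 (TS5)
open Cfsg.Agent.Lib.Helper54.SPPTS9 (tQi TS9)
open Cfsg.Agent.Lib.Helper46.SPPTRq (TRq)
open Cfsg.Agent.Lib.Helper10.SPPNS3 (NS3)
open Cfsg.Agent.Lib.Helper93.SPPTS3 (tK TS3)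
open Cfsg.Agent.Lib.Helper53.SPPNS5 (NS5)
open Cfsg.Agent.Lib.Helper52.SPPNS9 (NS9)

variable {F : Type*} [Field F] [Fintype F]

omit [Fintype F] in
/-- `IsMaximalIn K H`, `H ≤ M`, `¬ K ≤ M` give `H = M ⊓ K`. -/
theorem eq_inf_of_max {ι : Type} [Fintype ι] [DecidableEq ι] {K H M : Subgroup (GL ι F)}
    (hH : IsMaximalIn K H) (hHM : H ≤ M) (hM : ¬ K ≤ M) : H = M ⊓ K := by
  rcases hH.2 (M ⊓ K) (le_inf hHM hH.1.le) inf_le_right with h | h
  · exact h.symm
  · exact absurd (h ▸ inf_le_left) hM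

/-- characteristic two from the parity of the order -/
theorem two_eq_zero_of_even (heven : ¬ Odd (Fintype.card F)) : (2 : F) = 0 := by
  obtain ⟨p, hp⟩ := CharP.exists F
  have := hp
  have : Fact p.Prime := ⟨CharP.char_is_prime F p⟩
  obtain ⟨n, hpn, hn⟩ := FiniteField.card F p
  have hev : Even (Fintype.card F) := Nat.not_odd_iff_even.mp heven
  rw [hn] at hev
  have hp2 : p = 2 := by
    have h2p : 2 ∣ p := Nat.Prime.dvd_of_dvd_pow Nat.prime_two hev.two_dvd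
    exact ((Nat.prime_dvd_prime_iff_eq Nat.prime_two hpn).mp h2p).symm
  subst hp2
  exact_mod_cast CharP.cast_eq_zero F 2

omit [Fintype F] in
/-- isometries of a quadratic form are similarities -/
theorem le_sim_of_fixes {ι : Type} [Fintype ι] [DecidableEq ι] (G : Subgroup (GL ι F))
    (Q : (ι → F) → F) (h : FixesQuadForm (matrixSet G) Q) : G ≤ quadSimilarityGroup Q := by
  intro g hg
  refine ⟨1, fun v => ?_⟩
  rw [Units.val_one, one_mul]
  exact h g.1 ⟨g, hg, rfl⟩ v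

/-- QT (assembly): a tensor decomposition `2 ⊗ 2` normalised by an irreducible group of
isometries gives an invariant quadratic form polarising to `f`. -/
theorem QT (h2 : (2 : F) = 0) (f : (Fin 4 → F) → (Fin 4 → F) → F) (hf : IsSymplecticForm f)
    (G N : Subgroup (GL (Fin 4) F)) (hfix : FixesForm (matrixSet G) f)
    (hirr : ActsIrreducibly (matrixSet G)) (hNG : N ≤ G) (hN : Nrm G N)
    (e : Fin 4 ≃ Fin 2 × Fin 2) (P : GL (Fin 4) F) (R : Subgroup (GL (Fin 2) F))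
    (hRa : ActsAbsolutelyIrreducibly (matrixSet R))
    (h1 : ∀ x ∈ N, ∃ y ∈ R, x.1 = tmat e P y.1 1)
    (h2' : ∀ y ∈ R, ∃ x ∈ N, x.1 = tmat e P y.1 1) :
    ∃ Q : (Fin 4 → F) → F, IsNondegenerateQuadraticForm Q ∧
      (∀ u v, QuadraticMap.polar Q u v = f u v) ∧ FixesQuadForm (matrixSet G) Q := by
  obtain ⟨μ, hμ, hform, hG⟩ := QTf h2 f hf G N hfix hirr hNG hN e P R hRa h1 h2'
  exact QTq f hf G e P μ hμ hform hG

/-- Clifford step in dimension 4, characteristic 2. -/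
theorem cliff4 (hq : ¬ Odd (Fintype.card F)) (f : (Fin 4 → F) → (Fin 4 → F) → F)
    (hf : IsSymplecticForm f)
    (H L : Subgroup (GL (Fin 4) F)) (hfix : FixesForm (matrixSet H) f)
    (hirr : ActsIrreducibly (matrixSet H)) (hLH : L ≤ H) (hN : Nrm H L)
    (hns : ¬ L ≤ scalars (Fin 4) F) :
    ActsAbsolutelyIrreducibly (matrixSet L) ∨
    (∃ D : Fin 2 → Submodule F (Fin 4 → F), IsNondegenerateMDecomposition f 2 D ∧
      H ≤ decompositionStabilizer D) ∨
    (∃ K : Subalgebra F (Matrix (Fin 4) (Fin 4) F), IsFieldSubalgebra 2 K ∧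
      IsSelfAdjointFor f K ∧ (∀ k ∈ K, ∀ v : Fin 4 → F, f (k *ᵥ v) v = 0) ∧
      H ≤ subalgebraNormalizer K) ∨
    (∃ Q : (Fin 4 → F) → F, IsNondegenerateQuadraticForm Q ∧
      (∀ u v, QuadraticMap.polar Q u v = f u v) ∧ H ≤ quadSimilarityGroup Q) := by
  classical
  have h2 : (2 : F) = 0 := two_eq_zero_of_even hq
  have hfixL : FixesForm (matrixSet L) f := by
    rintro s ⟨g, hg, rfl⟩
    exact hfix _ ⟨g, hLH hg, rfl⟩
  rcases CAP (by norm_num) H L hirr hLH hN with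
    ⟨t, m, D, hD, hHD, hiso, hinv, hfull⟩ | ⟨d, k, e, P, R, hR, hR1, hR2⟩
  · have htm := C2 D hD
    have ht2 := hD.two_le
    have hm := hD.pos
    have hcases : (t = 2 ∧ m = 2) ∨ (t = 4 ∧ m = 1) := by
      have h1 : t ∣ 4 := Dvd.intro m htm
      have h3 : t ≤ 4 := Nat.le_of_dvd (by norm_num) h1
      clear hD hHD hiso hinv hfull D
      interval_cases t <;> omega
    obtain ⟨τ, hτ, horth, hno⟩ := PAIRa f hf L hfixL D hD hiso hinv hfull
    rcases PAIRb f hf H hfix hirr D hD hHD τ hτ horth hno with hnd | ⟨hfp, hcompat⟩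
    · rcases hcases with ⟨rfl, rfl⟩ | ⟨rfl, rfl⟩
      · exact Or.inr (Or.inl ⟨D, hnd, hHD⟩)
      · exfalso
        have hev := EVEN f hf.bilinear hf.alternating (D 0) (hnd.nondegenerate 0)
        rw [hD.finrank_eq 0] at hev
        exact absurd hev (by decide)
    · rcases hcases with ⟨rfl, rfl⟩ | ⟨rfl, rfl⟩
      · have hts : ∀ i, IsTotallySingularFor f (D i) :=
          fun i => horth i i (fun h => hfp i h.symm)
        exact Or.inr (Or.inr (Or.inr (QTI hq f hf H hfix D hD hts hHD)))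
      · obtain ⟨s, E, hE, hHE⟩ := PLN (by norm_num) f hf H D hD hHD τ hfp hτ horth hcompat
        have hs : s = 2 := by
          have h5 := C2 E hE.decomp
          omega
        subst hs
        exact Or.inr (Or.inl ⟨E, hE, hHE⟩)
  · have hcard : 4 = d * k := by
      have := Fintype.card_congr e
      simpa using this
    by_cases hRa : ActsAbsolutelyIrreducibly (matrixSet R)
    · have hcases : (d = 1 ∧ k = 4) ∨ (d = 2 ∧ k = 2) ∨ (d = 4 ∧ k = 1) := by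
        have h1 : d ∣ 4 := Dvd.intro k hcard.symm
        have h3 : d ≤ 4 := Nat.le_of_dvd (by norm_num) h1
        clear hR hR1 hR2 hRa R e
        interval_cases d <;> omega
      rcases hcases with ⟨rfl, rfl⟩ | ⟨rfl, rfl⟩ | ⟨rfl, rfl⟩
      · exact absurd (B3s e P R L hR1) hns
      · obtain ⟨Q, hQ, hpol, hHQ⟩ := QT h2 f hf H L hfix hirr hLH hN e P R hRa hR1 hR2
        exact Or.inr (Or.inr (Or.inr ⟨Q, hQ, hpol, le_sim_of_fixes H Q hHQ⟩))
      · exact Or.inl (B3a e P R L hRa hR2)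
    · obtain ⟨r, K, hr, hK, hHK, hKc⟩ := coreB (by norm_num) H L hLH hN e P R hR hR1 hR2 hRa
      have hr2 : r = 2 := by
        have hdvd : r ∣ 4 := C3 (by norm_num) r K hK
        have h3 : r ∣ 2 ^ 2 := by simpa using hdvd
        exact (Nat.prime_dvd_prime_iff_eq hr Nat.prime_two).mp (hr.dvd_of_dvd_pow h3)
      subst hr2
      have hadj : IsAdjointClosedFor f K :=
        ADJ (by norm_num) f hf L hfixL (HOMP e P R L hR hR1 hR2)
          (fun Z hc hi r K₁ K₂ hK₁ hK₂ h1 h2 => UNIQ (by norm_num) Z hc hi r K₁ K₂ hK₁ hK₂ h1 h2)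
          2 K hK hKc
      by_cases hsa : IsSelfAdjointFor f K
      · exact Or.inr (Or.inr (Or.inl ⟨K, hK, hsa,
          SAK (by norm_num) h2 f hf H hfix hirr K hK hsa hHK, hHK⟩))
      · exact Or.inr (Or.inr (Or.inr (FLD2b hq f hf K hK hadj hsa H hfix hHK)))

/-- GENS4: the structure of a group of isometries of a symplectic form in dimension 4 over a
finite field of characteristic 2. -/
theorem genS4 (hq : ¬ Odd (Fintype.card F)) (f : (Fin 4 → F) → (Fin 4 → F) → F)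
    (hf : IsSymplecticForm f)
    (H : Subgroup (GL (Fin 4) F)) (hfix : FixesForm (matrixSet H) f) :
    (∃ W : Submodule F (Fin 4 → F), W ≠ ⊥ ∧ IsTotallySingularFor f W ∧
      H ≤ subspaceStabilizer W) ∨
    (∃ D : Fin 2 → Submodule F (Fin 4 → F), IsNondegenerateMDecomposition f 2 D ∧
      H ≤ decompositionStabilizer D) ∨
    (∃ K : Subalgebra F (Matrix (Fin 4) (Fin 4) F), IsFieldSubalgebra 2 K ∧
      IsSelfAdjointFor f K ∧ (∀ k ∈ K, ∀ v : Fin 4 → F, f (k *ᵥ v) v = 0) ∧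
      H ≤ subalgebraNormalizer K) ∨
    (∃ (F₀ : Subfield F) (r : ℕ) (P : GL (Fin 4) F) (ζ : F), r.Prime ∧
      Fintype.card F = Nat.card F₀ ^ r ∧ ζ ≠ 0 ∧ IsFormRationalStructure f F₀ ζ P ∧
      H ≤ subfieldSubgroup F₀ P) ∨
    (∃ Q : (Fin 4 → F) → F, IsNondegenerateQuadraticForm Q ∧
      (∀ u v, QuadraticMap.polar Q u v = f u v) ∧ H ≤ quadSimilarityGroup Q) ∨
    InSymplecticResidualClass H := by
  classical
  have h2 : (2 : F) = 0 := two_eq_zero_of_even hq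
  by_cases h1 : ActsIrreducibly (matrixSet H)
  · by_cases habs : ActsAbsolutelyIrreducibly (matrixSet H)
    · obtain ⟨L, hL⟩ := B4 (by norm_num) H habs
      have hfixL : FixesForm (matrixSet L) f := by
        rintro s ⟨g, hg, rfl⟩
        exact hfix _ ⟨g, hL.le hg, rfl⟩
      rcases cliff4 hq f hf H L hfix h1 hL.le hL.nrm hL.ns with hLa | hD | hK | hQ
      · rcases hL.min ⁅L, L⁆ (commutator_le_self L) hL.nrm.commutator with hc | hc
        · exfalso
          have hsym : SymT H L := ⟨hL, hLa, hc⟩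
          obtain ⟨r, hr, hx⟩ := SA H L hsym
          have hr0 := SB (by norm_num) H L hsym r hr hx
          have hp := SC H L hsym r hr hx
          have h4 := SH (by norm_num) L hLa r hr hr0 hp
          apply h4
          have h5 : ((4 : ℕ) : F) = 2 * 2 := by norm_num
          rw [h5, h2, zero_mul]
        · rcases B6 H L hL hc with ⟨hs, hna⟩ | ⟨k, Ps, hk, hnsP, hcomm, hsup, -, -⟩
          · by_cases hsubf : ∃ F₀ : Subfield F, F₀ ≠ ⊤ ∧ RealisableOver F₀ (matrixSet L)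
            · obtain ⟨F₀, hF₀, hreal⟩ := hsubf
              obtain ⟨F₁, r, τ, hr, hcard, hle, hfixτ⟩ := exists_subfield_aut F₀ hF₀
              obtain ⟨B, hB⟩ := hreal
              have hB₁ : ∀ s ∈ matrixSet L, ∀ i j,
                  (B.1 * s * (B⁻¹ : GL (Fin 4) F).1) i j ∈ F₁ :=
                fun s hs i j => hle (hB s hs i j)
              have hHle : H ≤ subfieldSubgroup F₁ B⁻¹ := by
                intro h hh
                have key := NL_core L hLa F₁ τ hfixτ B hB₁ h (fun x hx => hL.nrm h hh x hx)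
                unfold subfieldSubgroup
                refine ⟨B * h * B⁻¹, key, ?_⟩
                show B⁻¹ * (B * h * B⁻¹) * B⁻¹⁻¹ = h
                group
              obtain ⟨ζ, hζ, hrat⟩ := O8a (by norm_num) L hLa f hf.bilinear hf.nondegenerate
                hfixL F₁ τ hfixτ B hB₁
              exact Or.inr (Or.inr (Or.inr (Or.inl ⟨F₁, r, B⁻¹, ζ, hr, hcard, hζ, hrat, hHle⟩)))
            · by_cases hQ : ∃ Q₀ : (Fin 4 → F) → F, IsNondegenerateQuadraticForm Q₀ ∧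
                  FixesQuadForm (matrixSet L) Q₀
              · obtain ⟨Q₀, hQ₀, hLQ₀⟩ := hQ
                exact Or.inr (Or.inr (Or.inr (Or.inr (Or.inl
                  (SQ f hf (by norm_num) H L hL.le hL.nrm hLa hfix Q₀ hQ₀ hLQ₀).2))))
              · by_cases hU : ∃ (σ : F ≃+* F) (fu : (Fin 4 → F) → (Fin 4 → F) → F),
                    IsUnitaryForm σ fu ∧ FixesForm (matrixSet L) fu
                · obtain ⟨σ, fu, hfu, hfixu⟩ := hU
                  exact absurd (O7 (by norm_num) L hLa f hf.bilinear hf.nondegenerate hfixL σ fu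
                    hfu hfixu) hsubf
                · exact Or.inr (Or.inr (Or.inr (Or.inr (Or.inr
                    ⟨L, B7core H L hL.le hL.nrm hLa hc hs hna
                      (fun F₀ hF₀ hreal => hsubf ⟨F₀, hF₀, hreal⟩), hQ, hU⟩))))
          · obtain ⟨N, e, P, R, hNL, hNN, hRa, hR1, hR2⟩ := COMP L hLa k Ps hk hnsP hcomm hsup
            obtain ⟨Q, hQ, hpol, hLQ⟩ := QT h2 f hf L N hfixL hLa.1 hNL hNN e P R hRa hR1 hR2
            exact Or.inr (Or.inr (Or.inr (Or.inr (Or.inl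
              (SQ f hf (by norm_num) H L hL.le hL.nrm hLa hfix Q hQ hLQ).2))))
      · exact Or.inr (Or.inl hD)
      · exact Or.inr (Or.inr (Or.inl hK))
      · exact Or.inr (Or.inr (Or.inr (Or.inr (Or.inl hQ))))
    · have hHns := not_le_scalars (by norm_num) H h1
      have hNH : Nrm H H := fun h hh x hx => H.mul_mem (H.mul_mem hh hx) (H.inv_mem hh)
      rcases cliff4 hq f hf H H hfix h1 le_rfl hNH hHns with hLa | hD | hK | hQ
      · exact absurd hLa habs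
      · exact Or.inr (Or.inl hD)
      · exact Or.inr (Or.inr (Or.inl hK))
      · exact Or.inr (Or.inr (Or.inr (Or.inr (Or.inl hQ))))
  · rcases S1 f hf H hfix h1 with ⟨W, h0, hts, hle⟩ | ⟨W, h0, hnd, hdim, hle⟩
    · exact Or.inl ⟨W, h0, hts, hle⟩
    · exact Or.inr (Or.inl (PLANE f hf H hfix W h0 hnd hdim hle))

/-- The maximal subgroups of `Sp_4(F)`, `F` of characteristic 2. -/
theorem sp4_cases (heven : ¬ Odd (Fintype.card F))
    (H : Subgroup (GL (Fin 2 ⊕ Fin 2) F)) (hH : IsMaximalIn (Cfsg.spGL 2 F) H) :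
    (∃ W : Submodule F (Fin 2 ⊕ Fin 2 → F), W ≠ ⊥ ∧ IsTotallySingularFor (Cfsg.sympForm 2 F) W ∧
      H = subspaceStabilizer W ⊓ Cfsg.spGL 2 F) ∨
    (∃ D : Fin 2 → Submodule F (Fin 2 ⊕ Fin 2 → F),
      IsNondegenerateMDecomposition (Cfsg.sympForm 2 F) 2 D ∧
      H = decompositionStabilizer D ⊓ Cfsg.spGL 2 F) ∨
    (∃ K : Subalgebra F (Matrix (Fin 2 ⊕ Fin 2) (Fin 2 ⊕ Fin 2) F), IsFieldSubalgebra 2 K ∧
      IsSelfAdjointFor (Cfsg.sympForm 2 F) K ∧
      (∀ k ∈ K, ∀ v : (Fin 2 ⊕ Fin 2 → F), (Cfsg.sympForm 2 F) (Matrix.mulVec k v) v = 0) ∧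
      H = subalgebraNormalizer K ⊓ Cfsg.spGL 2 F) ∨
    (∃ (F₀ : Subfield F) (r : ℕ) (P : GL (Fin 2 ⊕ Fin 2) F) (ζ : F), r.Prime ∧
      Fintype.card F = Nat.card F₀ ^ r ∧ ζ ≠ 0 ∧
      IsFormRationalStructure (Cfsg.sympForm 2 F) F₀ ζ P ∧
      H = subfieldSubgroup F₀ P ⊓ Cfsg.spGL 2 F) ∨
    (∃ Q : (Fin 2 ⊕ Fin 2 → F) → F, IsNondegenerateQuadraticForm Q ∧
      (∀ u v : (Fin 2 ⊕ Fin 2 → F), QuadraticMap.polar Q u v = (Cfsg.sympForm 2 F) u v) ∧
      H = quadSimilarityGroup Q ⊓ Cfsg.spGL 2 F) ∨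
    InSymplecticResidualClass H := by
  classical
  have hf : IsSymplecticForm (Cfsg.sympForm 2 F) := Cfsg.Agent.Lib.Helper97.sympForm_symp 2
  let e : Fin 2 ⊕ Fin 2 ≃ Fin 4 := finSumFinEquiv
  have hf' := TS0a e (Cfsg.sympForm 2 F) hf
  have hHsp : FixesForm (matrixSet H) (Cfsg.sympForm 2 F) := by
    rintro s ⟨g, hg, rfl⟩ u v
    exact hH.1.le hg u v
  have hfix' := TS0b e (Cfsg.sympForm 2 F) H hHsp
  rcases genS4 heven (tf e (Cfsg.sympForm 2 F)) hf' (H.map (glReindex e).toMonoidHom) hfix' with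
    ⟨W', h0, hts, hle⟩ | ⟨D', hD', hle⟩ | ⟨K', hK', hsa, hkv, hle⟩ |
    ⟨F₀, r, P', ζ, hr, hcard, hζ, hrat, hle⟩ | ⟨Q', hQ', hpol, hle⟩ | ⟨P', hcore, hnoQ, hnoU⟩
  · left
    obtain ⟨t1, t2, -, t4, -⟩ := TS1 e (Cfsg.sympForm 2 F) H W'
    have hW0 : tW e W' ≠ ⊥ := t2 h0
    have hWts := t4 hts
    refine ⟨tW e W', hW0, hWts, eq_inf_of_max hH (t1 hle) ?_⟩
    intro hcon
    obtain ⟨t, ht1, ht2⟩ :=
      Cfsg.Agent.Lib.Helper97.exists_isometry_not_stab_ts hf (tW e W') hWts hW0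
    exact ht2 (hcon ht1)
  · right; left
    obtain ⟨t1, -, t3⟩ := TS2 e (Cfsg.sympForm 2 F) H D' (m := 2)
    have hD := t3 hD'
    refine ⟨_, hD, eq_inf_of_max hH (t1 hle) ?_⟩
    intro hcon
    have hB : Cfsg.Agent.Lib.Helper97.Blocks (Cfsg.sympForm 2 F) _ :=
      ⟨fun i a ha ha0 => (hD.nondegenerate i a ha ha0).1, fun i j hij => hD.orthogonal i j hij,
        hD.decomp.iSup_eq_top⟩
    have hne : ∀ i, (fun i => Cfsg.Agent.Lib.Helper75.SPPTS2.tW e (D' i)) i ≠ ⊥ := by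
      intro i hbot
      have h3 := hD.decomp.finrank_eq i
      have hbot' : Cfsg.Agent.Lib.Helper75.SPPTS2.tW e (D' i) = ⊥ := hbot
      rw [hbot', finrank_bot] at h3
      omega
    obtain ⟨s, hs1, hs2⟩ := hB.exists_isometry_not_decomp hf
      (i₀ := (0 : Fin 2)) (i₁ := (1 : Fin 2)) (by decide) hne
    exact hs2 (hcon hs1)
  · right; right; left
    obtain ⟨t1, t2, t3, -, t5⟩ := TS3 e (Cfsg.sympForm 2 F) H 2 K'
    exact ⟨tK e K', t2 hK', t3.mp hsa, t5 hkv,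
      eq_inf_of_max hH (t1 hle) (NS3 2 (by norm_num) 2 (by norm_num) (tK e K') (t2 hK'))⟩
  · right; right; right; left
    obtain ⟨t1, t2⟩ := TS5 e (Cfsg.sympForm 2 F) H F₀ ζ P'
    have hF₀ : F₀ ≠ ⊤ := by
      rintro rfl
      have h3 : Nat.card (⊤ : Subfield F) = Fintype.card F := by
        rw [← Nat.card_eq_fintype_card]
        exact Nat.card_congr Subfield.topEquiv.toEquiv
      rw [h3] at hcard
      have h4 : 1 < Fintype.card F := Fintype.one_lt_card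
      have h5 : Fintype.card F ^ 1 < Fintype.card F ^ r := Nat.pow_lt_pow_right h4 hr.one_lt
      rw [pow_one] at h5
      omega
    exact ⟨F₀, r, (glReindex e).symm P', ζ, hr, hcard, hζ, t2 hrat,
      eq_inf_of_max hH (t1 hle) (NS5 2 (by norm_num) F₀ hF₀ _)⟩
  · right; right; right; right; left
    obtain ⟨t1, t2, t3⟩ := TS9 e (Cfsg.sympForm 2 F) H Q'
    exact ⟨tQi e Q', t1 hQ', t2 hpol,
      eq_inf_of_max hH (t3 hle) (NS9 2 (by norm_num) (tQi e Q') (t1 hQ') (t2 hpol))⟩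
  · right; right; right; right; right
    refine ⟨P'.comap (glReindex e).toMonoidHom,
      Cfsg.Agent.Lib.Helper4.OMPTRa.TRa e H P' hcore, ?_, ?_⟩
    · intro hcon
      exact hnoQ (TRq e P' hcon)
    · intro hcon
      exact hnoU (Cfsg.Agent.Lib.Helper63.OMPTRb.TRb e P' hcon)

end Cfsg.Agent.Lib.Helper65.SP4C
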