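import Mathlib
import Cfsg.Agent.Lib.Helper93.SUPair

/-!
# Piece GC for S2283 (helper65): hyperbolic-line closure in the Hermitian unital

If the full root groups at `e` and `f` (a hyperbolic pair) lie in `M`, together with a regular
unipotent `heis e (a • W) b` at `e`, then every isotropic vector is a full transvection centre.
-/

set_option autoImplicit false
set_option linter.unusedSectionVars false
set_option linter.unusedVariables false

namespace Cfsg.Agent.Lib.Helper65.RU3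

open Matrix Cfsg.Agent.Lib.Helper7 Cfsg.Agent.Lib.Helper18 Cfsg.Agent.Lib.Helper93

variable {F : Type*} [Field F] [Fintype F] {q : ℕ}

theorem gc (hF : Fintype.card F = q ^ 2) {M : Subgroup (GL (Fin 3) F)}
    (hM : M ≤ Cfsg.GU 3 F q ⊓ Cfsg.Geo.specialLinear (Fin 3) F)
    {e W f : Fin 3 → F} (hee : Cfsg.hermForm 3 F q e e = 0) (hff : Cfsg.hermForm 3 F q f f = 0)
    (hef : Cfsg.hermForm 3 F q e f = 1) (hWW : Cfsg.hermForm 3 F q W W = 1)
    (hWe : Cfsg.hermForm 3 F q W e = 0) (hWf : Cfsg.hermForm 3 F q W f = 0)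
    (hcomp : ∀ v : Fin 3 → F, v = Cfsg.hermForm 3 F q v f • e + Cfsg.hermForm 3 F q v W • W +
      Cfsg.hermForm 3 F q v e • f)
    (he : Cen q M e) (hf : Cen q M f)
    {a b : F} (ha : a ≠ 0) (hab : b + b ^ q + a * a ^ q = 0)
    (hx : MIn M (heis q 3 e (a • W) b)) :
    ∀ v : Fin 3 → F, Cfsg.hermForm 3 F q v v = 0 → Cen q M v := by
  have hq0 := herm_q_ne_zero hF
  have hfe : Cfsg.hermForm 3 F q f e = 1 := by rw [hf_conj hF 3 e f, hef, one_pow]
  have heW : Cfsg.hermForm 3 F q e W = 0 := hf_eq_zero_symm hF 3 W e hWe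
  have hfW : Cfsg.hermForm 3 F q f W = 0 := hf_eq_zero_symm hF 3 W f hWf
  -- pairing formulas for the points `p(a', b') = f + a' W + b' e`
  have pair : ∀ a₁ b₁ a₂ b₂ : F,
      Cfsg.hermForm 3 F q (f + a₂ • W + b₂ • e) (f + a₁ • W + b₁ • e)
        = b₁ ^ q + a₂ * a₁ ^ q + b₂ := by
    intro a₁ b₁ a₂ b₂
    simp only [hf_add_left, hf_add_right hF, hf_smul_left, hf_smul_right, hff, hWf, hfW, hef, hfe,
      hWW, hWe, heW, hee, mul_zero, mul_one, add_zero, zero_add]
    ring
  have pe : ∀ a' b' : F, Cfsg.hermForm 3 F q (f + a' • W + b' • e) e = 1 := by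
    intro a' b'
    simp only [hf_add_left, hf_smul_left, hfe, hWe, hee, mul_zero, add_zero]
  have pW : ∀ a' b' : F, Cfsg.hermForm 3 F q (f + a' • W + b' • e) W = a' := by
    intro a' b'
    simp only [hf_add_left, hf_smul_left, hfW, hWW, heW, mul_zero, mul_one, add_zero, zero_add]
  -- (A) one admissible `b` suffices
  have stepA : ∀ a' b0 : F, Cen q M (f + a' • W + b0 • e) →
      ∀ b' : F, b' + b' ^ q + a' * a' ^ q = 0 → Cen q M (f + a' • W + b' • e) := by
    intro a' b0 h0 b' hb'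
    have hb0 : b0 + b0 ^ q + a' * a' ^ q = 0 := by
      have h1 := h0.1
      rw [pair] at h1
      linear_combination h1
    have hc : (b' - b0) + (b' - b0) ^ q = 0 := by
      rw [herm_sub_pow hF]
      linear_combination hb' - hb0
    have h1 := Cen.hyp hM he h0 (b' - b0) hc
    rw [pe, mul_one] at h1
    have e1 : f + a' • W + b0 • e + (b' - b0) • e = f + a' • W + b' • e := by module
    rwa [e1] at h1
  -- admissible `b` exist
  obtain ⟨l, hl⟩ := exists_trace_one hF
  have adm : ∀ a' : F, ∃ b' : F, b' + b' ^ q + a' * a' ^ q = 0 := by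
    intro a'
    refine ⟨-(a' * a' ^ q) * l, ?_⟩
    rw [mul_pow, herm_neg_pow hF, mul_pow, herm_pow_pow hF]
    linear_combination (-(a' * a' ^ q)) * hl
  -- (B) `0 ∈ L` and `L` is stable under adding `a`
  have L0 : ∀ b' : F, b' + b' ^ q + (0 : F) * (0 : F) ^ q = 0 →
      Cen q M (f + (0 : F) • W + b' • e) := by
    apply stepA 0 0
    have e1 : f + (0 : F) • W + (0 : F) • e = f := by module
    rw [e1]
    exact hf
  have stepB : ∀ a' : F,
      (∀ b', b' + b' ^ q + a' * a' ^ q = 0 → Cen q M (f + a' • W + b' • e)) →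
      ∀ b', b' + b' ^ q + (a' + a) * (a' + a) ^ q = 0 →
        Cen q M (f + (a' + a) • W + b' • e) := by
    intro a' hL
    obtain ⟨b0, hb0⟩ := adm a'
    have h1 := (hL b0 hb0).map hM hx
    rw [heis_mulVec, pe, hf_smul_right, pW] at h1
    have e1 : f + a' • W + b0 • e + (1 : F) • a • W + (b * 1 - a ^ q * a') • e
        = f + (a' + a) • W + (b0 + b - a ^ q * a') • e := by module
    rw [e1] at h1
    exact stepA _ _ h1
  -- (C) `L` is stable under `a1 + ξ (a2 - a1)` for `ξ` not fixed by Frobenius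
  have stepC : ∀ a1 a2 ξ : F, a1 ≠ a2 → ξ ^ q ≠ ξ →
      (∀ b', b' + b' ^ q + a1 * a1 ^ q = 0 → Cen q M (f + a1 • W + b' • e)) →
      (∀ b', b' + b' ^ q + a2 * a2 ^ q = 0 → Cen q M (f + a2 • W + b' • e)) →
      ∀ b', b' + b' ^ q + (a1 + ξ * (a2 - a1)) * (a1 + ξ * (a2 - a1)) ^ q = 0 →
        Cen q M (f + (a1 + ξ * (a2 - a1)) • W + b' • e) := by
    intro a1 a2 ξ hne hξ hL1 hL2
    obtain ⟨b10, hb10⟩ := adm a1
    obtain ⟨b2, hb2⟩ := adm a2
    have hξ0 : ξ ≠ 0 := by
      rintro rfl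
      exact hξ (zero_pow hq0)
    obtain ⟨θ, hθ⟩ : ∃ θ : F, θ = ξ⁻¹ - 1 := ⟨_, rfl⟩
    have hθq : θ ^ q = (ξ ^ q)⁻¹ - 1 := by rw [hθ, herm_sub_pow hF, inv_pow, one_pow]
    have hd : θ ^ q - θ ≠ 0 := by
      rw [hθq, hθ]
      intro h
      apply hξ
      have h2 : (ξ ^ q)⁻¹ = ξ⁻¹ := by linear_combination h
      exact inv_injective h2
    have hd' : θ - θ ^ q ≠ 0 := fun h => hd (by linear_combination -h)
    obtain ⟨hh0, hhh0⟩ : ∃ hh0 : F, hh0 = b10 ^ q + a2 * a1 ^ q + b2 := ⟨_, rfl⟩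
    obtain ⟨k, hk⟩ : ∃ k : F, k = (θ * hh0 ^ q + θ ^ q * hh0) / (θ ^ q - θ) := ⟨_, rfl⟩
    have hkd : k * (θ ^ q - θ) = θ * hh0 ^ q + θ ^ q * hh0 := by
      rw [hk]
      field_simp
    have hkq : k ^ q = -k := by
      rw [hk, div_pow, herm_sub_pow hF, herm_add_pow hF, mul_pow, mul_pow, herm_pow_pow hF,
        herm_pow_pow hF]
      field_simp
      ring
    obtain ⟨b1, hb1def⟩ : ∃ b1 : F, b1 = b10 + k := ⟨_, rfl⟩
    have hb1 : b1 + b1 ^ q + a1 * a1 ^ q = 0 := by
      rw [hb1def, herm_add_pow hF, hkq]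
      linear_combination hb10
    have hp1 := hL1 b1 hb1
    have hp2 := hL2 b2 hb2
    obtain ⟨hh, hhh⟩ : ∃ hh : F, hh = b1 ^ q + a2 * a1 ^ q + b2 := ⟨_, rfl⟩
    have hhe : hh = hh0 - k := by
      rw [hhh, hhh0, hb1def, herm_add_pow hF, hkq]
      ring
    have hhq : hh ^ q = hh0 ^ q + k := by
      rw [hhe, herm_sub_pow hF, hkq]
      ring
    have hhne : hh ≠ 0 := by
      intro h0
      have h1 : hh + hh ^ q = -((a1 - a2) * (a1 - a2) ^ q) := by
        rw [hhh, herm_add_pow hF, herm_add_pow hF, mul_pow, herm_pow_pow hF, herm_pow_pow hF,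
          herm_sub_pow hF]
        linear_combination hb1 + hb2
      rw [h0, zero_pow hq0, add_zero] at h1
      have h2 : (a1 - a2) * (a1 - a2) ^ q = 0 := by linear_combination h1
      rcases mul_eq_zero.mp h2 with h3 | h3
      · exact hne (sub_eq_zero.mp h3)
      · exact hne (sub_eq_zero.mp ((pow_eq_zero_iff hq0).mp h3))
    have hhqne : hh0 ^ q + k ≠ 0 := by
      rw [← hhq]
      exact pow_ne_zero q hhne
    have hc : θ / hh + (θ / hh) ^ q = 0 := by
      rw [div_pow, hhq]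
      rw [hhe] at hhne ⊢
      field_simp
      linear_combination -hkd
    have h1 := Cen.hyp hM hp1 hp2 (θ / hh) hc
    rw [pair, ← hhh, div_mul_cancel₀ θ hhne] at h1
    have h2 := h1.smul hF ξ
    have h3 : ξ * (1 + θ) = 1 := by
      rw [hθ]
      field_simp
      ring
    have h4 : ξ * (a2 + θ * a1) = a1 + ξ * (a2 - a1) := by linear_combination a1 * h3
    have e2 : ξ • (f + a2 • W + b2 • e + θ • (f + a1 • W + b1 • e))
        = f + (a1 + ξ * (a2 - a1)) • W + (ξ * (b2 + θ * b1)) • e := by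
      have e3 : ξ • (f + a2 • W + b2 • e + θ • (f + a1 • W + b1 • e))
          = (ξ * (1 + θ)) • f + (ξ * (a2 + θ * a1)) • W + (ξ * (b2 + θ * b1)) • e := by module
      rw [e3, h3, one_smul, h4]
    rw [e2] at h2
    exact stepA _ _ h2
  -- (D) `L` is everything
  have La : ∀ b', b' + b' ^ q + a * a ^ q = 0 → Cen q M (f + a • W + b' • e) := by
    have h1 := stepB 0 L0
    simpa only [zero_add] using h1
  obtain ⟨ξ1, hξ1⟩ := exists_not_fixed hF
  have hξ10 : ξ1 ≠ 0 := by
    rintro rfl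
    exact hξ1 (zero_pow hq0)
  have Lnf : ∀ ζ : F, ζ ^ q ≠ ζ → ∀ b', b' + b' ^ q + (ζ * a) * (ζ * a) ^ q = 0 →
      Cen q M (f + (ζ * a) • W + b' • e) := by
    intro ζ hζ
    have h1 := stepC 0 a ζ (Ne.symm ha) hζ L0 La
    simpa only [zero_add, sub_zero] using h1
  have Lall : ∀ a' b' : F, b' + b' ^ q + a' * a' ^ q = 0 → Cen q M (f + a' • W + b' • e) := by
    intro a'
    obtain ⟨ζ, rfl⟩ : ∃ ζ, a' = ζ * a := ⟨a' / a, by field_simp⟩
    by_cases hζ : ζ ^ q = ζ
    · by_cases hζ0 : ζ = 0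
      · subst hζ0
        simpa only [zero_mul] using L0
      · have hq1 : ξ1 ^ q ≠ 0 := pow_ne_zero q hξ10
        have hξ : (ζ / ξ1) ^ q ≠ ζ / ξ1 := by
          rw [div_pow, hζ]
          intro h
          apply hξ1
          rw [div_eq_div_iff hq1 hξ10] at h
          exact (mul_left_cancel₀ hζ0 h).symm
        have h1 := stepC 0 (ξ1 * a) (ζ / ξ1) (Ne.symm (mul_ne_zero hξ10 ha)) hξ L0 (Lnf ξ1 hξ1)
        have e3 : 0 + ζ / ξ1 * (ξ1 * a - 0) = ζ * a := by
          field_simp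
          ring
        rw [e3] at h1
        exact h1
    · exact Lnf ζ hζ
  -- (E) all isotropic vectors
  intro v hv
  obtain ⟨α, β, φ, hvdec⟩ : ∃ α β φ : F, v = α • e + β • W + φ • f := ⟨_, _, _, hcomp v⟩
  subst hvdec
  have hvv : α * φ ^ q + β * β ^ q + φ * α ^ q = 0 := by
    have h1 := hv
    simp only [hf_add_left, hf_add_right hF, hf_smul_left, hf_smul_right, hff, hWf, hfW, hef, hfe,
      hWW, hWe, heW, hee, mul_zero, mul_one, add_zero, zero_add] at h1
    linear_combination h1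
  by_cases hφ0 : φ = 0
  · subst hφ0
    rw [zero_pow hq0, mul_zero, zero_mul, add_zero, zero_add] at hvv
    have hβ : β = 0 := by
      rcases mul_eq_zero.mp hvv with h | h
      · exact h
      · exact (pow_eq_zero_iff hq0).mp h
    subst hβ
    have e1 : α • e + (0 : F) • W + (0 : F) • f = α • e := by module
    rw [e1]
    exact he.smul hF α
  · have hφq : φ ^ q ≠ 0 := pow_ne_zero q hφ0
    have hadm : α / φ + (α / φ) ^ q + β / φ * (β / φ) ^ q = 0 := by
      rw [div_pow, div_pow]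
      field_simp
      linear_combination hvv
    have h1 := (Lall (β / φ) (α / φ) hadm).smul hF φ
    have e5 : φ * (α / φ) = α := by field_simp
    have e6 : φ * (β / φ) = β := by field_simp
    have e7 : φ • (f + (β / φ) • W + (α / φ) • e)
        = (φ * (α / φ)) • e + (φ * (β / φ)) • W + φ • f := by module
    rw [e7, e5, e6] at h1
    exact h1

end Cfsg.Agent.Lib.Helper65.RU3
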