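import Mathlib
import Cfsg.Agent.Lib.Helper47.SLGen

set_option autoImplicit false

namespace Cfsg.Agent.Lib.Helper65.RegUnip

open Matrix

variable {ι : Type*} [Fintype ι] [DecidableEq ι] {F : Type*} [Field F]

theorem det_tvM (v ψ : ι → F) : det (1 + vecMulVec v ψ) = 1 + ψ ⬝ᵥ v := by
  rw [vecMulVec_eq Unit, det_one_add_replicateCol_mul_replicateRow]

/-- The element `1 + v ψᵀ` of `SL`. -/
def tvSL (v ψ : ι → F) (h : ψ ⬝ᵥ v = 0) : Matrix.SpecialLinearGroup ι F :=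
  ⟨1 + vecMulVec v ψ, by rw [det_tvM, h, add_zero]⟩

theorem tvSL_coe (v ψ : ι → F) (h : ψ ⬝ᵥ v = 0) :
    (tvSL v ψ h : Matrix ι ι F) = 1 + vecMulVec v ψ := rfl

theorem tvM_mul_neg (v ψ : ι → F) (h : ψ ⬝ᵥ v = 0) :
    (1 + vecMulVec v ψ) * (1 + vecMulVec v (-ψ)) = 1 := by
  rw [mul_add, mul_one, add_mul, one_mul, vecMulVec_mul_vecMulVec, h, zero_smul, vecMulVec_zero,
    vecMulVec_neg]
  abel

theorem tvSL_inv (v ψ : ι → F) (h : ψ ⬝ᵥ v = 0) :
    (tvSL v ψ h)⁻¹ = tvSL v (-ψ) (by rw [neg_dotProduct, h, neg_zero]) := by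
  apply inv_eq_of_mul_eq_one_right
  apply Subtype.ext
  rw [Matrix.SpecialLinearGroup.coe_mul, tvSL_coe, tvSL_coe, Matrix.SpecialLinearGroup.coe_one]
  exact tvM_mul_neg v ψ h

theorem tvM_mulVec (a b w : ι → F) : (1 + vecMulVec a b) *ᵥ w = w + (b ⬝ᵥ w) • a := by
  rw [add_mulVec, one_mulVec, vecMulVec_mulVec, op_smul_eq_smul]

theorem vecMul_tvM (a b w : ι → F) : w ᵥ* (1 + vecMulVec a b) = w + (w ⬝ᵥ a) • b := by
  rw [vecMul_add, vecMul_one, vecMul_vecMulVec]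

theorem sl_mul_inv' (g : Matrix.SpecialLinearGroup ι F) :
    (↑g : Matrix ι ι F) * (↑(g⁻¹) : Matrix ι ι F) = 1 := by
  rw [← Matrix.SpecialLinearGroup.coe_mul, mul_inv_cancel, Matrix.SpecialLinearGroup.coe_one]

theorem sl_inv_mul' (g : Matrix.SpecialLinearGroup ι F) :
    (↑(g⁻¹) : Matrix ι ι F) * (↑g : Matrix ι ι F) = 1 := by
  rw [← Matrix.SpecialLinearGroup.coe_mul, inv_mul_cancel, Matrix.SpecialLinearGroup.coe_one]

/-- `TvIn G v ψ`: the matrix `1 + v ψᵀ` lies in `G`. -/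
def TvIn (G : Subgroup (Matrix.SpecialLinearGroup ι F)) (v ψ : ι → F) : Prop :=
  ∃ t ∈ G, (t : Matrix ι ι F) = 1 + vecMulVec v ψ

variable {G : Subgroup (Matrix.SpecialLinearGroup ι F)} {v v' ψ ψ' : ι → F}

theorem TvIn.dot (h : TvIn G v ψ) : ψ ⬝ᵥ v = 0 := by
  obtain ⟨t, -, ht⟩ := h
  have h1 := t.2
  rw [ht, det_tvM] at h1
  linear_combination h1

theorem tvIn_iff (h : ψ ⬝ᵥ v = 0) : TvIn G v ψ ↔ tvSL v ψ h ∈ G := by
  constructor
  · rintro ⟨t, ht, e⟩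
    have h1 : t = tvSL v ψ h := Subtype.ext e
    exact h1 ▸ ht
  · intro h'
    exact ⟨_, h', rfl⟩

theorem tvIn_zero_right (G : Subgroup (Matrix.SpecialLinearGroup ι F)) (v : ι → F) :
    TvIn G v 0 := ⟨1, one_mem _, by simp⟩

theorem tvIn_zero_left (G : Subgroup (Matrix.SpecialLinearGroup ι F)) (ψ : ι → F) :
    TvIn G 0 ψ := ⟨1, one_mem _, by simp⟩

theorem TvIn.add_axis (h1 : TvIn G v ψ) (h2 : TvIn G v ψ') : TvIn G v (ψ + ψ') := by
  have hd := h1.dot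
  obtain ⟨t1, ht1, e1⟩ := h1
  obtain ⟨t2, ht2, e2⟩ := h2
  refine ⟨t1 * t2, mul_mem ht1 ht2, ?_⟩
  rw [Matrix.SpecialLinearGroup.coe_mul, e1, e2, add_mul, one_mul, mul_add, mul_one,
    vecMulVec_mul_vecMulVec, hd, zero_smul, vecMulVec_zero, vecMulVec_add]
  abel

theorem TvIn.add_centre (h1 : TvIn G v ψ) (h2 : TvIn G v' ψ) : TvIn G (v + v') ψ := by
  have hd := h2.dot
  obtain ⟨t1, ht1, e1⟩ := h1
  obtain ⟨t2, ht2, e2⟩ := h2
  refine ⟨t1 * t2, mul_mem ht1 ht2, ?_⟩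
  rw [Matrix.SpecialLinearGroup.coe_mul, e1, e2, add_mul, one_mul, mul_add, mul_one,
    vecMulVec_mul_vecMulVec, hd, zero_smul, vecMulVec_zero, add_vecMulVec]
  abel

theorem TvIn.neg_axis (h : TvIn G v ψ) : TvIn G v (-ψ) := by
  have hd := h.dot
  rw [tvIn_iff hd] at h
  rw [tvIn_iff (by rw [neg_dotProduct, hd, neg_zero]), ← tvSL_inv v ψ hd]
  exact inv_mem h

theorem TvIn.neg_centre (h : TvIn G v ψ) : TvIn G (-v) ψ := by
  obtain ⟨t, ht, e⟩ := h.neg_axis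
  exact ⟨t, ht, by rw [e, neg_vecMulVec, vecMulVec_neg]⟩

theorem tvIn_smul_comm (c : F) : TvIn G (c • v) ψ ↔ TvIn G v (c • ψ) := by
  unfold TvIn
  rw [smul_vecMulVec, vecMulVec_smul]

theorem TvIn.sub_centre (h1 : TvIn G v ψ) (h2 : TvIn G v' ψ) : TvIn G (v - v') ψ := by
  rw [sub_eq_add_neg]
  exact h1.add_centre h2.neg_centre

theorem TvIn.sub_axis (h1 : TvIn G v ψ) (h2 : TvIn G v ψ') : TvIn G v (ψ - ψ') := by
  rw [sub_eq_add_neg]
  exact h1.add_axis h2.neg_axis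

theorem TvIn.conj {g : Matrix.SpecialLinearGroup ι F} (hg : g ∈ G)
    (h : TvIn G v (ψ ᵥ* (↑g : Matrix ι ι F))) : TvIn G ((↑g : Matrix ι ι F) *ᵥ v) ψ := by
  obtain ⟨t, ht, e⟩ := h
  refine ⟨g * t * g⁻¹, mul_mem (mul_mem hg ht) (inv_mem hg), ?_⟩
  rw [Matrix.SpecialLinearGroup.coe_mul, Matrix.SpecialLinearGroup.coe_mul, e, mul_add, mul_one,
    add_mul, sl_mul_inv', mul_vecMulVec, vecMulVec_mul, vecMul_vecMul, sl_mul_inv', vecMul_one]

theorem TvIn.conj_inv {g : Matrix.SpecialLinearGroup ι F} (hg : g ∈ G)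
    (h : TvIn G ((↑g : Matrix ι ι F) *ᵥ v) ψ) : TvIn G v (ψ ᵥ* (↑g : Matrix ι ι F)) := by
  obtain ⟨t, ht, e⟩ := h
  refine ⟨g⁻¹ * t * g, mul_mem (mul_mem (inv_mem hg) ht) hg, ?_⟩
  rw [Matrix.SpecialLinearGroup.coe_mul, Matrix.SpecialLinearGroup.coe_mul, e, mul_add, mul_one,
    add_mul, sl_inv_mul', mul_vecMulVec, vecMulVec_mul, mulVec_mulVec, sl_inv_mul', one_mulVec]

/-- Commutator of two transvections: if `ψ(v') = 0` then `[T(v,ψ), T(v',ψ')] = T(v', -ψ'(v) ψ)`. -/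
theorem TvIn.comm (h1 : TvIn G v ψ) (h2 : TvIn G v' ψ') (h : ψ ⬝ᵥ v' = 0) :
    TvIn G v' ((-(ψ' ⬝ᵥ v)) • ψ) := by
  have hd := h1.dot
  obtain ⟨t1, ht1, e1⟩ := h1
  have h3 : TvIn G ((↑t1 : Matrix ι ι F) *ᵥ v') (ψ' - (ψ' ⬝ᵥ v) • ψ) := by
    apply TvIn.conj ht1
    rw [e1, vecMul_tvM, sub_dotProduct, smul_dotProduct, hd, smul_zero, sub_zero, sub_add_cancel]
    exact h2
  rw [e1, tvM_mulVec, h, zero_smul, add_zero] at h3
  have h4 := h3.sub_axis h2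
  rw [sub_sub_cancel_left, ← neg_smul] at h4
  exact h4

/-- The "full axes" of `G`: functionals `ψ` all of whose transvections lie in `G`. -/
def AxSet (G : Subgroup (Matrix.SpecialLinearGroup ι F)) : Set (ι → F) :=
  {ψ | ∀ v, ψ ⬝ᵥ v = 0 → TvIn G v ψ}

theorem axSet_smul (c : F) (hψ : ψ ∈ AxSet G) : c • ψ ∈ AxSet G := by
  intro w hw
  by_cases hc : c = 0
  · rw [hc, zero_smul]
    exact tvIn_zero_right G w
  · rw [smul_dotProduct, smul_eq_mul] at hw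
    have h1 : ψ ⬝ᵥ w = 0 := by
      rcases mul_eq_zero.mp hw with h | h
      · exact absurd h hc
      · exact h
    rw [← tvIn_smul_comm]
    apply hψ
    rw [dotProduct_smul, h1, smul_zero]

theorem axSet_add (hψ : ψ ∈ AxSet G) (hψ' : ψ' ∈ AxSet G) : ψ + ψ' ∈ AxSet G := by
  by_cases hcase : ∃ v₁, ψ' ⬝ᵥ v₁ = 0 ∧ ψ ⬝ᵥ v₁ ≠ 0
  · obtain ⟨v₀, h0, h1⟩ := hcase
    obtain ⟨v₁, hv₁, hv₁'⟩ : ∃ v₁ : ι → F, ψ' ⬝ᵥ v₁ = 0 ∧ ψ ⬝ᵥ v₁ = -1 := by
      refine ⟨(-(ψ ⬝ᵥ v₀)⁻¹) • v₀, ?_, ?_⟩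
      · rw [dotProduct_smul, h0, smul_zero]
      · rw [dotProduct_smul, smul_eq_mul]
        field_simp
    intro w hw
    rw [add_dotProduct] at hw
    have hA := hψ' v₁ hv₁
    obtain ⟨t1, ht1, e1⟩ := hA
    have hw2 : ψ ⬝ᵥ (w - (ψ' ⬝ᵥ w) • v₁) = 0 := by
      rw [dotProduct_sub, dotProduct_smul, hv₁', smul_eq_mul]
      linear_combination hw
    have hB := hψ _ hw2
    have hC : TvIn G ((↑t1 : Matrix ι ι F) *ᵥ (w - (ψ' ⬝ᵥ w) • v₁)) (ψ + ψ') := by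
      apply TvIn.conj ht1
      rw [e1, vecMul_tvM, add_dotProduct, hv₁, hv₁', add_zero, neg_one_smul, add_neg_cancel_right]
      exact hB
    rw [e1, tvM_mulVec, dotProduct_sub, dotProduct_smul, hv₁, smul_zero, sub_zero,
      sub_add_cancel] at hC
    exact hC
  · push Not at hcase
    -- `ψ` is a multiple of `ψ'`
    obtain ⟨c, hc⟩ : ∃ c : F, ψ = c • ψ' := by
      by_cases h0 : ψ' = 0
      · refine ⟨0, ?_⟩
        rw [zero_smul]
        funext i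
        have h1 := hcase (Pi.single i 1) (by rw [h0, zero_dotProduct])
        rw [dotProduct_single, mul_one] at h1
        exact h1
      · obtain ⟨i, hi⟩ : ∃ i, ψ' i ≠ 0 := by
          by_contra hne
          push Not at hne
          exact h0 (funext hne)
        refine ⟨ψ i / ψ' i, ?_⟩
        funext j
        have h1 := hcase (Pi.single j 1 - (ψ' j / ψ' i) • Pi.single i 1) (by
          rw [dotProduct_sub, dotProduct_smul, dotProduct_single, dotProduct_single, mul_one,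
            mul_one, smul_eq_mul]
          field_simp
          ring)
        rw [dotProduct_sub, dotProduct_smul, dotProduct_single, dotProduct_single, mul_one,
          mul_one, smul_eq_mul] at h1
        rw [Pi.smul_apply, smul_eq_mul]
        field_simp
        field_simp at h1
        linear_combination h1
    have h2 : ψ + ψ' = (c + 1) • ψ' := by rw [hc, add_smul, one_smul]
    rw [h2]
    exact axSet_smul _ hψ'

/-- The full axes form a subspace. -/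
def Ax (G : Subgroup (Matrix.SpecialLinearGroup ι F)) : Submodule F (ι → F) where
  carrier := AxSet G
  zero_mem' := fun w _ => tvIn_zero_right G w
  add_mem' := fun h1 h2 => axSet_add h1 h2
  smul_mem' := fun c _ h => axSet_smul c h

theorem mem_Ax : ψ ∈ Ax G ↔ ∀ v, ψ ⬝ᵥ v = 0 → TvIn G v ψ := Iff.rfl

theorem Ax_vecMul {g : Matrix.SpecialLinearGroup ι F} (hg : g ∈ G) (hψ : ψ ∈ Ax G) :
    ψ ᵥ* (↑g : Matrix ι ι F) ∈ Ax G := by
  intro w hw
  apply TvIn.conj_inv hg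
  apply hψ
  rw [dotProduct_mulVec]
  exact hw

omit [Fintype ι] in
theorem single_eq_vecMulVec' (i j : ι) (c : F) :
    Matrix.single i j c = vecMulVec (Pi.single i c) (Pi.single j (1 : F)) := by
  ext a b
  rw [Matrix.single_apply, Matrix.vecMulVec_apply, Pi.single_apply, Pi.single_apply]
  by_cases h1 : a = i
  · by_cases h2 : b = j
    · subst h1 h2
      simp
    · subst h1
      have h3 : ¬ j = b := fun h => h2 h.symm
      simp [h2, h3]
  · have h3 : ¬ i = a := fun h => h1 h.symm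
    simp [h1, h3]

theorem eq_top_of_Ax [Nontrivial ι] (h : Ax G = ⊤) : G = ⊤ := by
  apply Cfsg.Agent.Lib.Helper47.eq_top_of_transvection_mem
  intro i j hij c
  have h1 : (Pi.single j (1 : F) : ι → F) ∈ Ax G := by rw [h]; trivial
  have h2 := h1 (Pi.single i c) (by
    rw [single_dotProduct, one_mul, Pi.single_eq_of_ne hij.symm])
  obtain ⟨t, ht, e⟩ := h2
  have h3 : t = Matrix.SpecialLinearGroup.transvection hij c := by
    apply Subtype.ext
    rw [e, ← single_eq_vecMulVec']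
    rfl
  exact h3 ▸ ht

end Cfsg.Agent.Lib.Helper65.RegUnip
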