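import Mathlib
import Cfsg.Agent.Lib.Helper65.RegUnipA

set_option autoImplicit false

namespace Cfsg.Agent.Lib.Helper65.RegUnip

open Matrix

variable {F : Type*} [Field F] {n : ℕ}

/-- `ℕ`-indexed standard basis vectors of `Fin n → F` (zero when `k ≥ n`). -/
def bv (k : ℕ) : Fin n → F := fun i => if (i : ℕ) = k then 1 else 0

theorem bv_apply (k : ℕ) (i : Fin n) :
    (bv k : Fin n → F) i = if (i : ℕ) = k then 1 else 0 := rfl

theorem bv_eq_zero (k : ℕ) (hk : n ≤ k) : (bv k : Fin n → F) = 0 := by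
  funext i
  rw [bv_apply, if_neg (by have := i.2; omega)]
  rfl

theorem bv_dot (k : ℕ) (hk : k < n) (w : Fin n → F) : bv k ⬝ᵥ w = w ⟨k, hk⟩ := by
  unfold dotProduct
  rw [Finset.sum_eq_single ⟨k, hk⟩]
  · simp [bv]
  · intro b _ hb
    rw [bv_apply, if_neg (fun h => hb (Fin.ext h)), zero_mul]
  · intro h
    exact absurd (Finset.mem_univ _) h

theorem dot_bv (k : ℕ) (hk : k < n) (w : Fin n → F) : w ⬝ᵥ bv k = w ⟨k, hk⟩ := by
  rw [dotProduct_comm, bv_dot k hk]

theorem bv_dot_self (k : ℕ) (hk : k < n) : (bv k : Fin n → F) ⬝ᵥ bv k = 1 := by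
  rw [bv_dot k hk]
  simp [bv]

theorem bv_dot_ne (j k : ℕ) (h : j ≠ k) : (bv j : Fin n → F) ⬝ᵥ bv k = 0 := by
  unfold dotProduct
  apply Finset.sum_eq_zero
  intro i _
  rw [bv_apply, bv_apply]
  by_cases h1 : (i : ℕ) = j
  · rw [if_pos h1, if_neg (by omega), mul_zero]
  · rw [if_neg h1, zero_mul]

theorem eq_sum_bv (w : Fin n → F) : w = ∑ i : Fin n, w i • (bv (i : ℕ) : Fin n → F) := by
  funext j
  rw [Finset.sum_apply, Finset.sum_eq_single j]
  · simp [bv]
  · intro b _ hb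
    have h1 : ¬ ((j : ℕ) = (b : ℕ)) := fun h => hb (Fin.ext h).symm
    simp [bv, h1]
  · intro h
    exact absurd (Finset.mem_univ _) h

/-- The nilpotent shift matrix `∑ E_{i,i+1}`. -/
def Nm (n : ℕ) (F : Type*) [Field F] : Matrix (Fin n) (Fin n) F :=
  Matrix.of fun i j => if (j : ℕ) = (i : ℕ) + 1 then 1 else 0

/-- The regular unipotent Jordan block `1 + ∑ E_{i,i+1}`. -/
def Um (n : ℕ) (F : Type*) [Field F] : Matrix (Fin n) (Fin n) F := 1 + Nm n F

theorem Nm_apply (i j : Fin n) : Nm n F i j = if (j : ℕ) = (i : ℕ) + 1 then 1 else 0 := rfl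

theorem Nm_mulVec (w : Fin n → F) (i : Fin n) :
    (Nm n F *ᵥ w) i = if h : (i : ℕ) + 1 < n then w ⟨i + 1, h⟩ else 0 := by
  show ∑ j, Nm n F i j * w j = _
  by_cases h : (i : ℕ) + 1 < n
  · rw [dif_pos h, Finset.sum_eq_single ⟨i + 1, h⟩]
    · simp [Nm_apply]
    · intro b _ hb
      have h1 : ¬ ((b : ℕ) = (i : ℕ) + 1) := fun hh => hb (Fin.ext hh)
      rw [Nm_apply, if_neg h1, zero_mul]
    · intro h'
      exact absurd (Finset.mem_univ _) h'
  · rw [dif_neg h]
    apply Finset.sum_eq_zero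
    intro b _
    have h1 : ¬ ((b : ℕ) = (i : ℕ) + 1) := by have := b.2; omega
    rw [Nm_apply, if_neg h1, zero_mul]

theorem vecMul_Nm (w : Fin n → F) (j : Fin n) :
    (w ᵥ* Nm n F) j = if h : 0 < (j : ℕ) then w ⟨j - 1, by have := j.2; omega⟩ else 0 := by
  show ∑ i, w i * Nm n F i j = _
  by_cases h : 0 < (j : ℕ)
  · rw [dif_pos h, Finset.sum_eq_single ⟨j - 1, by have := j.2; omega⟩]
    · have h1 : (j : ℕ) = (j : ℕ) - 1 + 1 := by omega
      rw [Nm_apply, if_pos h1, mul_one]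
    · intro b _ hb
      have h1 : ¬ ((j : ℕ) = (b : ℕ) + 1) := fun hh => hb (Fin.ext (by simp; omega))
      rw [Nm_apply, if_neg h1, mul_zero]
    · intro h'
      exact absurd (Finset.mem_univ _) h'
  · rw [dif_neg h]
    apply Finset.sum_eq_zero
    intro b _
    have h1 : ¬ ((j : ℕ) = (b : ℕ) + 1) := by omega
    rw [Nm_apply, if_neg h1, mul_zero]

theorem Nm_mulVec_bv_succ (k : ℕ) (hk : k + 1 < n) :
    Nm n F *ᵥ (bv (k + 1) : Fin n → F) = bv k := by
  funext i
  rw [Nm_mulVec]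
  by_cases h : (i : ℕ) + 1 < n
  · rw [dif_pos h, bv_apply, bv_apply]
    by_cases h1 : (i : ℕ) = k
    · rw [if_pos h1, if_pos (by simp [h1])]
    · rw [if_neg h1, if_neg (by simp; omega)]
  · rw [dif_neg h, bv_apply, if_neg (by omega)]

theorem Nm_mulVec_bv_zero : Nm n F *ᵥ (bv 0 : Fin n → F) = 0 := by
  funext i
  rw [Nm_mulVec]
  by_cases h : (i : ℕ) + 1 < n
  · rw [dif_pos h, bv_apply, if_neg (by simp)]
    rfl
  · rw [dif_neg h]
    rfl

theorem bv_vecMul_Nm (k : ℕ) : (bv k : Fin n → F) ᵥ* Nm n F = bv (k + 1) := by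
  funext j
  rw [vecMul_Nm]
  by_cases h : 0 < (j : ℕ)
  · rw [dif_pos h, bv_apply, bv_apply]
    by_cases h1 : (j : ℕ) = k + 1
    · rw [if_pos h1, if_pos (by simp; omega)]
    · rw [if_neg h1, if_neg (by simp; omega)]
  · rw [dif_neg h, bv_apply, if_neg (by omega)]

theorem Um_mulVec (w : Fin n → F) : Um n F *ᵥ w = w + Nm n F *ᵥ w := by
  rw [Um, add_mulVec, one_mulVec]

theorem vecMul_Um (w : Fin n → F) : w ᵥ* Um n F = w + w ᵥ* Nm n F := by
  rw [Um, vecMul_add, vecMul_one]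

theorem det_Um : det (Um n F) = 1 := by
  rw [Matrix.det_of_isUpperTriangular]
  · apply Finset.prod_eq_one
    intro i _
    rw [Um, Matrix.add_apply, Matrix.one_apply_eq, Nm_apply, if_neg (by omega), add_zero]
  · intro i j hij
    have h1 : j < i := hij
    have h2 : (j : ℕ) < (i : ℕ) := h1
    rw [Um, Matrix.add_apply, Matrix.one_apply_ne (by intro h; rw [h] at h2; omega), Nm_apply,
      if_neg (by omega), add_zero]

/-- The regular unipotent element of `SL_n`. -/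
def US (n : ℕ) (F : Type*) [Field F] : Matrix.SpecialLinearGroup (Fin n) F := ⟨Um n F, det_Um⟩

theorem US_coe : (US n F : Matrix (Fin n) (Fin n) F) = Um n F := rfl

theorem Nm_pow (k : ℕ) :
    Nm n F ^ k = Matrix.of fun i j : Fin n => if (j : ℕ) = (i : ℕ) + k then (1 : F) else 0 := by
  induction k with
  | zero =>
    ext i j
    rw [pow_zero, Matrix.one_apply, Matrix.of_apply]
    by_cases h : i = j
    · rw [if_pos h, if_pos (by rw [h]; simp)]
    · rw [if_neg h, if_neg (fun hh => h (Fin.ext (by omega)))]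
  | succ k ih =>
    ext i j
    rw [pow_succ, ih, Matrix.mul_apply_eq_vecMul, vecMul_Nm, Matrix.of_apply]
    by_cases h : 0 < (j : ℕ)
    · rw [dif_pos h]
      show (if (j : ℕ) - 1 = (i : ℕ) + k then (1 : F) else 0) = _
      by_cases h1 : (j : ℕ) = (i : ℕ) + (k + 1)
      · rw [if_pos h1, if_pos (by omega)]
      · rw [if_neg h1, if_neg (by omega)]
    · rw [dif_neg h, if_neg (by omega)]

theorem Um_sub_one : Um n F - 1 = Nm n F := by
  rw [Um, add_sub_cancel_left]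

theorem isNilpotent_Um_sub_one : IsNilpotent (Um n F - 1) := by
  refine ⟨n, ?_⟩
  rw [Um_sub_one, Nm_pow]
  ext i j
  rw [Matrix.of_apply, if_neg (by have := j.2; omega)]
  rfl

theorem Um_sub_one_pow_ne_zero (hn : 0 < n) : (Um n F - 1) ^ (n - 1) ≠ 0 := by
  rw [Um_sub_one, Nm_pow]
  intro h
  have h1 := congrFun (congrFun h ⟨0, hn⟩) ⟨n - 1, by omega⟩
  rw [Matrix.of_apply, if_pos (by simp)] at h1
  exact one_ne_zero h1

end Cfsg.Agent.Lib.Helper65.RegUnip
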