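import Mathlib
import Cfsg.Agent.Lib.Helper65.RegUnipB

set_option autoImplicit false

namespace Cfsg.Agent.Lib.Helper65.RegUnip

open Matrix

variable {F : Type*} [Field F] {n : ℕ}

/-- The alternating row vector `((-1)^j)_j`. -/
def alt : Fin n → F := fun j => (-1) ^ (j : ℕ)

theorem alt_vecMul_Um : (alt : Fin n → F) ᵥ* Um n F = bv 0 := by
  funext j
  rw [vecMul_Um, Pi.add_apply, vecMul_Nm, bv_apply]
  by_cases h : 0 < (j : ℕ)
  · rw [dif_pos h, if_neg (by omega)]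
    show (-1 : F) ^ (j : ℕ) + (-1) ^ ((j : ℕ) - 1) = 0
    obtain ⟨k, hk⟩ : ∃ k, (j : ℕ) = k + 1 := ⟨(j : ℕ) - 1, by omega⟩
    rw [hk, Nat.add_sub_cancel, pow_succ]
    ring
  · rw [dif_neg h, if_pos (by omega)]
    have h0 : (j : ℕ) = 0 := by omega
    show (-1 : F) ^ (j : ℕ) + 0 = 1
    rw [h0, pow_zero, add_zero]

theorem TvIn.shift {G : Subgroup (Matrix.SpecialLinearGroup (Fin n) F)} (hu : US n F ∈ G)
    {v ψ : Fin n → F} (hψ : ψ ᵥ* Um n F = ψ) (h : TvIn G v ψ) : TvIn G (Nm n F *ᵥ v) ψ := by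
  have h1 : TvIn G ((↑(US n F) : Matrix (Fin n) (Fin n) F) *ᵥ v) ψ := by
    apply TvIn.conj hu
    rw [US_coe, hψ]
    exact h
  rw [US_coe, Um_mulVec] at h1
  have h2 := h1.sub_centre h
  rwa [add_sub_cancel_left] at h2

theorem TvIn.descend {G : Subgroup (Matrix.SpecialLinearGroup (Fin n) F)} (hu : US n F ∈ G)
    {ψ : Fin n → F} (hψ : ψ ᵥ* Um n F = ψ) (k : ℕ) (hk : k < n) (h : TvIn G (bv k) ψ) :
    ∀ j ≤ k, TvIn G (bv j) ψ := by
  have key : ∀ d j : ℕ, j + d = k → TvIn G (bv j) ψ := by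
    intro d
    induction d with
    | zero =>
      intro j hj
      have : j = k := by omega
      rw [this]
      exact h
    | succ d ih =>
      intro j hj
      have h1 := ih (j + 1) (by omega)
      have h2 := TvIn.shift hu hψ h1
      rwa [Nm_mulVec_bv_succ j (by omega)] at h2
  intro j hj
  exact key (k - j) j (by omega)

section conc

variable (F) (m : ℕ)

theorem dot0L : (bv 0 : Fin (m + 3) → F) ⬝ᵥ bv (m + 2) = 0 := bv_dot_ne _ _ (by omega)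
theorem dotL0 : (bv (m + 2) : Fin (m + 3) → F) ⬝ᵥ bv 0 = 0 := bv_dot_ne _ _ (by omega)
theorem dot00 : (bv 0 : Fin (m + 3) → F) ⬝ᵥ bv 0 = 1 := bv_dot_self _ (by omega)
theorem dotLL : (bv (m + 2) : Fin (m + 3) → F) ⬝ᵥ bv (m + 2) = 1 := bv_dot_self _ (by omega)

/-- `x_{1n}(1)` -/
def t1 : Matrix.SpecialLinearGroup (Fin (m + 3)) F := tvSL (bv 0) (bv (m + 2)) (dotL0 F m)

/-- `x_{n1}(-1)` -/
def t2 : Matrix.SpecialLinearGroup (Fin (m + 3)) F :=
  tvSL (bv (m + 2)) (-bv 0) (by rw [neg_dotProduct, dot0L, neg_zero])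

/-- The monomial element `e₁ ↦ -eₙ`, `eₙ ↦ e₁`. -/
def WS : Matrix.SpecialLinearGroup (Fin (m + 3)) F := t1 F m * t2 F m * t1 F m

theorem WS_mulVec (x : Fin (m + 3) → F) :
    (WS F m : Matrix (Fin (m + 3)) (Fin (m + 3)) F) *ᵥ x =
      x + (bv (m + 2) ⬝ᵥ x - bv 0 ⬝ᵥ x) • bv 0 - (bv 0 ⬝ᵥ x + bv (m + 2) ⬝ᵥ x) • bv (m + 2) := by
  simp only [WS, t1, t2, Matrix.SpecialLinearGroup.coe_mul, tvSL_coe, ← mulVec_mulVec, tvM_mulVec,
    dotProduct_add, dotProduct_smul, neg_dotProduct, dot0L, dotL0, dot00, dotLL, smul_eq_mul]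
  module

theorem WS_inv_mulVec (x : Fin (m + 3) → F) :
    (↑(WS F m)⁻¹ : Matrix (Fin (m + 3)) (Fin (m + 3)) F) *ᵥ x =
      x - (bv 0 ⬝ᵥ x + bv (m + 2) ⬝ᵥ x) • bv 0 + (bv 0 ⬝ᵥ x - bv (m + 2) ⬝ᵥ x) • bv (m + 2) := by
  simp only [WS, t1, t2, _root_.mul_inv_rev, tvSL_inv, Matrix.SpecialLinearGroup.coe_mul, tvSL_coe,
    ← mulVec_mulVec, tvM_mulVec, neg_neg,
    dotProduct_add, dotProduct_smul, neg_dotProduct, dot0L, dotL0, dot00, dotLL, smul_eq_mul]
  module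

theorem vecMul_WS (x : Fin (m + 3) → F) :
    x ᵥ* (WS F m : Matrix (Fin (m + 3)) (Fin (m + 3)) F) =
      x - (x ⬝ᵥ bv 0 + x ⬝ᵥ bv (m + 2)) • bv 0 + (x ⬝ᵥ bv 0 - x ⬝ᵥ bv (m + 2)) • bv (m + 2) := by
  simp only [WS, t1, t2, Matrix.SpecialLinearGroup.coe_mul, tvSL_coe, ← vecMul_vecMul, vecMul_tvM,
    add_dotProduct, smul_dotProduct, dotProduct_neg, neg_dotProduct, dot0L, dotL0, dot00, dotLL, smul_eq_mul]
  module

theorem vecMul_WS_inv (x : Fin (m + 3) → F) :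
    x ᵥ* (↑(WS F m)⁻¹ : Matrix (Fin (m + 3)) (Fin (m + 3)) F) =
      x + (x ⬝ᵥ bv (m + 2) - x ⬝ᵥ bv 0) • bv 0 - (x ⬝ᵥ bv 0 + x ⬝ᵥ bv (m + 2)) • bv (m + 2) := by
  simp only [WS, t1, t2, _root_.mul_inv_rev, tvSL_inv, Matrix.SpecialLinearGroup.coe_mul, tvSL_coe,
    ← vecMul_vecMul, vecMul_tvM, neg_neg,
    add_dotProduct, smul_dotProduct, dotProduct_neg, neg_dotProduct, dot0L, dotL0, dot00, dotLL, smul_eq_mul]
  module

/-- `x_{2n}(-ρ)` -/
def hS (ρ : F) : Matrix.SpecialLinearGroup (Fin (m + 3)) F :=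
  tvSL (bv 1) ((-ρ) • bv (m + 2))
    (by rw [smul_dotProduct, bv_dot_ne _ _ (by omega), smul_zero])

end conc

variable {m : ℕ}

theorem fix_smul_bvL (c : F) :
    (c • (bv (m + 2) : Fin (m + 3) → F)) ᵥ* Um (m + 3) F = c • bv (m + 2) := by
  rw [vecMul_Um, smul_vecMul, bv_vecMul_Nm, bv_eq_zero (m + 2 + 1) (by omega), smul_zero, add_zero]

theorem hS_dot (ρ : F) : (ρ • (bv (m + 2) : Fin (m + 3) → F)) ⬝ᵥ bv 0 = 0 := by
  rw [smul_dotProduct, dotL0, smul_zero]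

theorem hS_conj (ρ : F) :
    (US (m + 3) F)⁻¹ * (hS F m ρ * US (m + 3) F * (hS F m ρ)⁻¹) =
      tvSL (bv 0) (ρ • bv (m + 2)) (hS_dot ρ) := by
  rw [inv_mul_eq_iff_eq_mul, mul_inv_eq_iff_eq_mul]
  apply Subtype.ext
  simp only [Matrix.SpecialLinearGroup.coe_mul, US_coe, hS, tvSL_coe]
  have e1 : ((-ρ) • (bv (m + 2) : Fin (m + 3) → F)) ᵥ* Um (m + 3) F = (-ρ) • bv (m + 2) :=
    fix_smul_bvL _
  have e2 : Um (m + 3) F *ᵥ (bv 0 : Fin (m + 3) → F) = bv 0 := by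
    rw [Um_mulVec, Nm_mulVec_bv_zero, add_zero]
  have e3 : Um (m + 3) F *ᵥ (bv 1 : Fin (m + 3) → F) = bv 1 + bv 0 := by
    rw [Um_mulVec, Nm_mulVec_bv_succ 0 (by omega)]
  have e4 : (ρ • (bv (m + 2) : Fin (m + 3) → F)) ⬝ᵥ bv 1 = 0 := by
    rw [smul_dotProduct, bv_dot_ne _ _ (by omega), smul_zero]
  have eX : Um (m + 3) F * (1 + vecMulVec (bv 0) (ρ • (bv (m + 2) : Fin (m + 3) → F))) =
      Um (m + 3) F + vecMulVec (bv 0) (ρ • (bv (m + 2) : Fin (m + 3) → F)) := by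
    rw [mul_add, mul_one, mul_vecMulVec, e2]
  rw [add_mul, one_mul, vecMulVec_mul, e1, eX, mul_add, mul_one, add_mul, mul_vecMulVec, e3,
    vecMulVec_mul_vecMulVec, e4, zero_smul, vecMulVec_zero, add_zero,
    add_vecMulVec]
  simp only [vecMulVec_smul]
  module

/-- The core generation statement: `u`, `h u h⁻¹ = u · x_{1n}(ρ)` and `w u w⁻¹` generate `SL_n`
when every non-zero scalar is a positive power of `ρ`. -/
theorem eq_top_of_three (ρ : F) (hρ : ∀ x : F, x ≠ 0 → ∃ k : ℕ, 0 < k ∧ ρ ^ k = x)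
    (G : Subgroup (Matrix.SpecialLinearGroup (Fin (m + 3)) F)) (hu : US (m + 3) F ∈ G)
    (h2 : hS F m ρ * US (m + 3) F * (hS F m ρ)⁻¹ ∈ G)
    (h3 : WS F m * US (m + 3) F * (WS F m)⁻¹ ∈ G) : G = ⊤ := by
  have hρB : TvIn G (bv 0) (ρ • bv (m + 2)) := by
    rw [tvIn_iff (hS_dot ρ), ← hS_conj]
    exact mul_mem (inv_mem hu) h2
  have hlcoe : (↑(WS F m * US (m + 3) F * (WS F m)⁻¹) : Matrix (Fin (m + 3)) (Fin (m + 3)) F) =
      (↑(WS F m) : Matrix (Fin (m + 3)) (Fin (m + 3)) F) * Um (m + 3) F *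
        (↑((WS F m)⁻¹) : Matrix (Fin (m + 3)) (Fin (m + 3)) F) := by
    rw [Matrix.SpecialLinearGroup.coe_mul, Matrix.SpecialLinearGroup.coe_mul, US_coe]
  have d01 : (bv 0 : Fin (m + 3) → F) ⬝ᵥ bv (m + 1) = 0 := bv_dot_ne _ _ (by omega)
  have dL1 : (bv (m + 2) : Fin (m + 3) → F) ⬝ᵥ bv (m + 1) = 0 := bv_dot_ne _ _ (by omega)
  have d10 : (bv (m + 1) : Fin (m + 3) → F) ⬝ᵥ bv 0 = 0 := bv_dot_ne _ _ (by omega)
  have d1L : (bv (m + 1) : Fin (m + 3) → F) ⬝ᵥ bv (m + 2) = 0 := bv_dot_ne _ _ (by omega)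
  have dbL : (bv 1 : Fin (m + 3) → F) ⬝ᵥ bv (m + 2) = 0 := bv_dot_ne _ _ (by omega)
  have db0 : (bv 1 : Fin (m + 3) → F) ⬝ᵥ bv 0 = 0 := bv_dot_ne _ _ (by omega)
  have hWi0 : (↑(WS F m)⁻¹ : Matrix (Fin (m + 3)) (Fin (m + 3)) F) *ᵥ bv 0 = bv (m + 2) := by
    rw [WS_inv_mulVec, dot00, dotL0]
    module
  have hl0 : (↑(WS F m * US (m + 3) F * (WS F m)⁻¹) : Matrix (Fin (m + 3)) (Fin (m + 3)) F) *ᵥ
      bv 0 = bv 0 + bv (m + 1) := by
    rw [hlcoe, ← mulVec_mulVec, ← mulVec_mulVec, hWi0, Um_mulVec, Nm_mulVec_bv_succ (m + 1) (by omega),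
      WS_mulVec, dotProduct_add, dotProduct_add, dotLL, dot0L, d01, dL1]
    module
  have hrow0 : (bv 0 : Fin (m + 3) → F) ᵥ* (↑(WS F m)⁻¹ : Matrix (Fin (m + 3)) (Fin (m + 3)) F) =
      -bv (m + 2) := by
    rw [vecMul_WS_inv, dot00, dot0L]
    module
  -- conjugation of `x_{1n}(s)` by the third generator
  have hl_step : ∀ s : F, TvIn G (bv 0) (s • bv (m + 2)) →
      TvIn G (bv 0 + bv (m + 1))
        ((-s) • ((alt : Fin (m + 3) → F) ᵥ*
          (↑(WS F m)⁻¹ : Matrix (Fin (m + 3)) (Fin (m + 3)) F))) := by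
    intro s hs
    have key : TvIn G
        ((↑(WS F m * US (m + 3) F * (WS F m)⁻¹) : Matrix (Fin (m + 3)) (Fin (m + 3)) F) *ᵥ bv 0)
        ((-s) • ((alt : Fin (m + 3) → F) ᵥ*
          (↑(WS F m)⁻¹ : Matrix (Fin (m + 3)) (Fin (m + 3)) F))) := by
      apply TvIn.conj h3
      have e : ((-s) • ((alt : Fin (m + 3) → F) ᵥ*
          (↑(WS F m)⁻¹ : Matrix (Fin (m + 3)) (Fin (m + 3)) F))) ᵥ*
          (↑(WS F m * US (m + 3) F * (WS F m)⁻¹) : Matrix (Fin (m + 3)) (Fin (m + 3)) F) =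
          s • bv (m + 2) := by
        rw [hlcoe, smul_vecMul, ← vecMul_vecMul, ← vecMul_vecMul, vecMul_vecMul alt, sl_inv_mul',
          vecMul_one, alt_vecMul_Um, hrow0]
        module
      rw [e]
      exact hs
    rwa [hl0] at key
  have hmul : ∀ s s' : F, TvIn G (bv 0) (s • bv (m + 2)) → TvIn G (bv 0) (s' • bv (m + 2)) →
      TvIn G (bv 0 + bv (m + 1)) (((-1) ^ (m + 2) * s * s') • bv (m + 2)) := by
    intro s s' hs hs'
    have h1 := hl_step s hs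
    have hd : (s' • (bv (m + 2) : Fin (m + 3) → F)) ⬝ᵥ (bv 0 + bv (m + 1)) = 0 := by
      rw [smul_dotProduct, dotProduct_add, dotL0, dL1, add_zero, smul_zero]
    have h4 := TvIn.comm hs' h1 hd
    have e : ((-s) • ((alt : Fin (m + 3) → F) ᵥ*
        (↑(WS F m)⁻¹ : Matrix (Fin (m + 3)) (Fin (m + 3)) F))) ⬝ᵥ bv 0 = (-s) * (-1) ^ (m + 2) := by
      rw [smul_dotProduct, ← dotProduct_mulVec, hWi0, dot_bv (m + 2) (by omega), smul_eq_mul]
      rfl
    rw [e, smul_smul] at h4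
    have e2 : -(-s * (-1) ^ (m + 2)) * s' = (-1 : F) ^ (m + 2) * s * s' := by ring
    rw [e2] at h4
    exact h4
  have hdesc : ∀ c : F, TvIn G (bv 0 + bv (m + 1)) (c • bv (m + 2)) →
      TvIn G (bv 0) (c • bv (m + 2)) := by
    intro c hc
    have h1 := TvIn.shift hu (fix_smul_bvL c) hc
    rw [mulVec_add, Nm_mulVec_bv_zero, zero_add, Nm_mulVec_bv_succ m (by omega)] at h1
    exact TvIn.descend hu (fix_smul_bvL c) m (by omega) h1 0 (Nat.zero_le _)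
  have hB : ∀ s s' : F, TvIn G (bv 0) (s • bv (m + 2)) → TvIn G (bv 0) (s' • bv (m + 2)) →
      TvIn G (bv 0) ((s * s') • bv (m + 2)) := by
    intro s s' hs hs'
    have h1 := hdesc _ (hmul s s' hs hs')
    rcases neg_one_pow_eq_or F (m + 2) with h | h
    · rw [h, one_mul] at h1
      exact h1
    · rw [h] at h1
      have h5 := h1.neg_axis
      rw [← neg_smul] at h5
      have e : -(-1 * s * s') = s * s' := by ring
      rw [e] at h5
      exact h5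
  have hpow : ∀ k : ℕ, 0 < k → TvIn G (bv 0) ((ρ ^ k) • bv (m + 2)) := by
    intro k hk
    induction k with
    | zero => omega
    | succ k ih =>
      rcases Nat.eq_zero_or_pos k with h0 | h0
      · subst h0
        rw [zero_add, pow_one]
        exact hρB
      · rw [pow_succ]
        exact hB _ _ (ih h0) hρB
  have hall : ∀ c : F, TvIn G (bv 0) (c • bv (m + 2)) := by
    intro c
    by_cases hc : c = 0
    · rw [hc, zero_smul]
      exact tvIn_zero_right G _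
    · obtain ⟨k, hk, rfl⟩ := hρ c hc
      exact hpow k hk
  -- the whole last column
  have hcol : ∀ c : F, ∀ j ≤ m + 1, TvIn G (bv j) (c • bv (m + 2)) := by
    intro c
    have h1 := hmul c ((-1) ^ (m + 2)) (hall c) (hall _)
    have e : (-1 : F) ^ (m + 2) * c * (-1) ^ (m + 2) = c := by
      have h6 : ((-1 : F) ^ (m + 2)) * ((-1) ^ (m + 2)) = 1 := by
        rw [← mul_pow]
        simp
      linear_combination c * h6
    rw [e] at h1
    have h2' := h1.sub_centre (hall c)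
    rw [add_sub_cancel_left] at h2'
    exact TvIn.descend hu (fix_smul_bvL c) (m + 1) (by omega) h2'
  have hAxL : (bv (m + 2) : Fin (m + 3) → F) ∈ Ax G := by
    intro w hw
    rw [bv_dot (m + 2) (by omega)] at hw
    rw [eq_sum_bv w]
    apply Finset.sum_induction _ (fun x => TvIn G x (bv (m + 2)))
    · intro a b ha hb
      exact ha.add_centre hb
    · exact tvIn_zero_left G _
    · intro i _
      by_cases hi : (i : ℕ) = m + 2
      · have h7 : w i = 0 := by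
          rw [← hw]
          congr 1
          exact Fin.ext hi
        rw [h7, zero_smul]
        exact tvIn_zero_left G _
      · rw [tvIn_smul_comm]
        exact hcol (w i) i (by have := i.2; omega)
  have hrowL : (bv (m + 2) : Fin (m + 3) → F) ᵥ*
      (↑(WS F m * US (m + 3) F * (WS F m)⁻¹) : Matrix (Fin (m + 3)) (Fin (m + 3)) F) =
      bv (m + 2) - bv 1 := by
    rw [hlcoe, ← vecMul_vecMul, ← vecMul_vecMul, vecMul_WS, dotL0, dotLL]
    have e1 : (bv (m + 2) : Fin (m + 3) → F) - ((0 : F) + 1) • bv 0 + ((0 : F) - 1) • bv (m + 2) =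
        (-1 : F) • bv 0 := by module
    rw [e1, smul_vecMul, vecMul_Um, bv_vecMul_Nm, vecMul_WS_inv]
    simp only [smul_dotProduct, add_dotProduct, dot00, dot0L, db0, dbL, smul_eq_mul]
    module
  have hrow1 : (bv (m + 1) : Fin (m + 3) → F) ᵥ*
      (↑(WS F m * US (m + 3) F * (WS F m)⁻¹) : Matrix (Fin (m + 3)) (Fin (m + 3)) F) =
      bv (m + 1) + bv 0 := by
    rw [hlcoe, ← vecMul_vecMul, ← vecMul_vecMul, vecMul_WS, d10, d1L]
    have e1 : (bv (m + 1) : Fin (m + 3) → F) - ((0 : F) + 0) • bv 0 + ((0 : F) - 0) • bv (m + 2) =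
        bv (m + 1) := by module
    rw [e1, vecMul_Um, bv_vecMul_Nm, vecMul_WS_inv]
    simp only [add_dotProduct, d10, d1L, dotL0, dotLL]
    module
  have hAx1 : (bv 1 : Fin (m + 3) → F) ∈ Ax G := by
    have h1 := Ax_vecMul h3 hAxL
    rw [hrowL] at h1
    have h2' := (Ax G).sub_mem hAxL h1
    rwa [sub_sub_cancel] at h2'
  have hAxk : ∀ k : ℕ, 1 ≤ k → (bv k : Fin (m + 3) → F) ∈ Ax G := by
    intro k hk
    induction k with
    | zero => omega
    | succ k ih =>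
      rcases Nat.eq_zero_or_pos k with h0 | h0
      · subst h0
        exact hAx1
      · have h1 := Ax_vecMul hu (ih h0)
        rw [US_coe, vecMul_Um, bv_vecMul_Nm] at h1
        have h2' := (Ax G).sub_mem h1 (ih h0)
        rwa [add_sub_cancel_left] at h2'
  have hAx0 : (bv 0 : Fin (m + 3) → F) ∈ Ax G := by
    have h1 := Ax_vecMul h3 (hAxk (m + 1) (by omega))
    rw [hrow1] at h1
    have h2' := (Ax G).sub_mem h1 (hAxk (m + 1) (by omega))
    rwa [add_sub_cancel_left] at h2'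
  apply eq_top_of_Ax
  rw [eq_top_iff]
  intro ψ _
  rw [eq_sum_bv ψ]
  apply Submodule.sum_mem
  intro i _
  apply Submodule.smul_mem
  rcases Nat.eq_zero_or_pos (i : ℕ) with h | h
  · rw [h]
    exact hAx0
  · exact hAxk _ h

end Cfsg.Agent.Lib.Helper65.RegUnip
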