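import Mathlib
import Cfsg.Agent.Lib.Helper65.AffSL2

set_option autoImplicit false

namespace Cfsg.Agent.Lib.Helper65

universe u v

section semi2

variable {S : Type u} {A : Type v} [Group S] [AddCommGroup A] [DistribMulAction S A]

open SemidirectProduct in
/-- In `A ⋊ S` with `A` an elementary abelian `2`-group such that every element of `S` fixing a
nonzero element of `A` is a `2`-element of exponent `2 ^ n`, an element of order `p * q`
(distinct primes) projects to an element of order `p * q`. -/
theorem semi_orderOf_right_pow {p q : ℕ} (hp : p.Prime) (hq : q.Prime) (hpq : p ≠ q) (n : ℕ)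
    (h2 : ∀ a : A, a + a = 0)
    (hfix : ∀ (g : S) (a : A), a ≠ 0 → g • a = a → g ^ 2 ^ n = 1)
    (h : Multiplicative A ⋊[actHom S A] S) (ho : orderOf h = p * q) :
    orderOf h.right = p * q := by
  have hd : orderOf h.right ∣ p * q := by
    rw [← ho]
    exact orderOf_map_dvd (rightHom : Multiplicative A ⋊[actHom S A] S →* S) h
  by_cases hh : h ^ orderOf h.right = 1
  · apply Nat.dvd_antisymm hd
    rw [← ho]
    exact orderOf_dvd_of_pow_eq_one hh
  · exfalso
    set d := orderOf h.right with hd_def
    set w := (h ^ d).left with hw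
    have hr : (h ^ d).right = 1 := by
      have : (rightHom : Multiplicative A ⋊[actHom S A] S →* S) (h ^ d) = 1 := by
        rw [map_pow]
        exact pow_orderOf_eq_one h.right
      exact this
    have hinl : h ^ d = inl w := by
      ext
      · simp [hw]
      · simp [hr]
    have hw1 : w ≠ 1 := by
      intro hw1
      apply hh
      rw [hinl, hw1, map_one]
    have hcomm : h * inl w = inl w * h := by
      rw [← hinl, ← pow_succ', ← pow_succ]
    have hfixw : actHom S A h.right w = w := by
      have := congrArg SemidirectProduct.left hcomm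
      simp only [mul_left, left_inl, right_inl, map_one, MulAut.one_apply] at this
      rw [mul_comm w] at this
      exact mul_left_cancel this
    rw [actHom_apply] at hfixw
    have hfix' : h.right • Multiplicative.toAdd w = Multiplicative.toAdd w :=
      congrArg Multiplicative.toAdd hfixw
    have hw0 : Multiplicative.toAdd w ≠ 0 := by
      intro h0
      apply hw1
      exact Multiplicative.toAdd.injective h0
    have hg2 : h.right ^ 2 ^ n = 1 := hfix h.right _ hw0 hfix'
    have hd2 : d ∣ 2 ^ n := orderOf_dvd_of_pow_eq_one hg2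
    have hww : w * w = 1 := by
      apply Multiplicative.toAdd.injective
      exact h2 (Multiplicative.toAdd w)
    have h4 : h ^ (d * 2) = 1 := by
      rw [pow_mul, hinl, pow_two, ← map_mul, hww, map_one]
    have h5 : p * q ∣ d * 2 := by
      rw [← ho]
      exact orderOf_dvd_of_pow_eq_one h4
    have h6 : p * q ∣ 2 ^ (n + 1) := by
      rw [pow_succ]
      exact h5.trans (Nat.mul_dvd_mul_right hd2 2)
    have hp2 : p = 2 := by
      have : p ∣ 2 ^ (n + 1) := (Dvd.intro _ rfl).trans h6
      exact (Nat.prime_dvd_prime_iff_eq hp Nat.prime_two).mp (hp.dvd_of_dvd_pow this)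
    have hq2 : q = 2 := by
      have : q ∣ 2 ^ (n + 1) := (Dvd.intro_left _ rfl).trans h6
      exact (Nat.prime_dvd_prime_iff_eq hq Nat.prime_two).mp (hq.dvd_of_dvd_pow this)
    exact hpq (hp2.trans hq2.symm)

/-- A semidirect product `A ⋊ S` as in `semi_orderOf_right_pow` has the same prime graph as `S`
(given that `2` divides the order of `S`); a copy in `Type` is produced. -/
theorem semi_two_exists [Finite S] [Finite A] (n : ℕ) (h2 : ∀ a : A, a + a = 0)
    (hfix : ∀ (g : S) (a : A), a ≠ 0 → g • a = a → g ^ 2 ^ n = 1) (hS2 : 2 ∣ Nat.card S) :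
    ∃ (H : Type) (_ : Group H) (_ : Finite H), Nat.card H = Nat.card A * Nat.card S ∧
      (∀ p : ℕ, p.Prime → (p ∣ Nat.card S ↔ p ∣ Nat.card H)) ∧
      (∀ p q : ℕ, p.Prime → q.Prime → p ≠ q →
        ((∃ g : S, orderOf g = p * q) ↔ ∃ g : H, orderOf g = p * q)) := by
  classical
  have hcard : Nat.card (Multiplicative A ⋊[actHom S A] S) = Nat.card A * Nat.card S := by
    rw [SemidirectProduct.card, Nat.card_congr Multiplicative.toAdd]
  haveI : Finite (Multiplicative A ⋊[actHom S A] S) :=
    Finite.of_equiv _ SemidirectProduct.equivProd.symm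
  obtain ⟨H, iG, iF, ⟨e⟩⟩ := exists_type0_copy (Multiplicative A ⋊[actHom S A] S)
  have hAcard : ∃ j, Nat.card A = 2 ^ j := by
    haveI : Fact (Nat.Prime 2) := ⟨Nat.prime_two⟩
    have : IsPGroup 2 (Multiplicative A) := by
      intro x
      refine ⟨1, ?_⟩
      apply Multiplicative.toAdd.injective
      rw [pow_one, pow_two]
      exact h2 (Multiplicative.toAdd x)
    obtain ⟨j, hj⟩ := IsPGroup.iff_card.mp this
    exact ⟨j, by rw [← hj]; exact (Nat.card_congr Multiplicative.toAdd).symm⟩
  obtain ⟨j, hj⟩ := hAcard
  refine ⟨H, iG, iF, ?_, ?_, ?_⟩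
  · rw [Nat.card_congr e.toEquiv, hcard]
  · intro p hp
    rw [Nat.card_congr e.toEquiv, hcard]
    constructor
    · intro h
      exact dvd_mul_of_dvd_right h _
    · intro h
      rcases (Nat.Prime.dvd_mul hp).mp h with h | h
      · rw [hj] at h
        have h3 : p ∣ 2 := hp.dvd_of_dvd_pow h
        have h4 : p = 2 := (Nat.prime_dvd_prime_iff_eq hp Nat.prime_two).mp h3
        rw [h4]
        exact hS2
      · exact h
  · intro p q hp hq hpq
    constructor
    · rintro ⟨g, hg⟩
      refine ⟨e.symm (SemidirectProduct.inr g), ?_⟩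
      rw [MulEquiv.orderOf_eq, orderOf_injective
        (SemidirectProduct.inr : S →* Multiplicative A ⋊[actHom S A] S)
        SemidirectProduct.inr_injective g, hg]
    · rintro ⟨h, hh⟩
      refine ⟨(e h).right, semi_orderOf_right_pow hp hq hpq n h2 hfix (e h) ?_⟩
      rw [MulEquiv.orderOf_eq]
      exact hh

end semi2

end Cfsg.Agent.Lib.Helper65
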