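import Mathlib
import Cfsg.Agent.Lib.Helper93.Sl3Defs

/-!
# S2287 piece PSTEP1 (helper65)

`Q * YP` is closed under right multiplication by the generators, for the families
`y = 1` and `y = c * w` of coset representatives.
-/

set_option autoImplicit false

namespace Cfsg.Agent.Lib.Helper93.Sl3

variable {P : Type*} [Group P] {q : ℕ} {U T : Subgroup P} {t c : P}

theorem h65_U_le_Q (v : P) (hv : v ∈ U) : v ∈ Qsub U T t c :=
  Subgroup.subset_closure (Or.inl (Or.inl (Or.inl (Or.inl hv))))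

theorem h65_V_le_Q (w : P) (hw : w ∈ cj c U) : w ∈ Qsub U T t c :=
  Subgroup.subset_closure (Or.inl (Or.inl (Or.inl (Or.inr hw))))

theorem h65_T_le_Q (τ : P) (hτ : τ ∈ T) : τ ∈ Qsub U T t c :=
  Subgroup.subset_closure (Or.inl (Or.inr hτ))

theorem h65_t_mem_Q : t ∈ Qsub U T t c :=
  Subgroup.subset_closure (Or.inr rfl)

theorem h65_cjt_le_Q (x : P) (hx : x ∈ cj t U) : x ∈ Qsub U T t c := by
  obtain ⟨v, hv, rfl⟩ := mem_cj.mp hx
  exact Subgroup.mul_mem _ (Subgroup.mul_mem _ h65_t_mem_Q (h65_U_le_Q v hv))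
    (Subgroup.inv_mem _ h65_t_mem_Q)

/-- PSTEP1 -/
theorem p_step1 (D : BNData q U T t c) (N : NAct U T t c) :
    ∀ y ∈ ({1} ∪ {y | ∃ w ∈ cj c U, y = c * w} : Set P), ∀ s ∈ ((U : Set P) ∪ T ∪ {t, c}),
      ∃ a ∈ Qsub U T t c, ∃ y' ∈ YP U t c, y * s = a * y' := by
  have hc2 : c * c = c⁻¹ := by
    have h := D.c3
    rw [pow_succ, pow_two] at h
    exact eq_inv_of_mul_eq_one_left h
  intro y hy s hs
  rcases hy with hy | ⟨w, hw, hy⟩
  · have hy1 : y = 1 := hy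
    rw [hy1, one_mul]
    rcases hs with (hs | hs) | hs
    · exact ⟨s, h65_U_le_Q s hs, 1, Or.inl (Or.inl rfl), (mul_one s).symm⟩
    · exact ⟨s, h65_T_le_Q s hs, 1, Or.inl (Or.inl rfl), (mul_one s).symm⟩
    · rcases hs with hs | hs
      · have hst : s = t := hs
        rw [hst]
        exact ⟨t, h65_t_mem_Q, 1, Or.inl (Or.inl rfl), (mul_one t).symm⟩
      · have hsc : s = c := hs
        rw [hsc]
        exact ⟨1, Subgroup.one_mem _, c * 1, Or.inl (Or.inr ⟨1, Subgroup.one_mem _, rfl⟩),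
          by group⟩
  · rw [hy]
    rcases hs with (hs | hs) | hs
    · have hst := D.st s hs w hw
      have h1 : w * s * w⁻¹ * s⁻¹ ∈ cj (t * c) U := by
        have := Subgroup.inv_mem _ hst
        have e : (s * w * s⁻¹ * w⁻¹)⁻¹ = w * s * w⁻¹ * s⁻¹ := by group
        rwa [e] at this
      have h2 : c * (w * s * w⁻¹ * s⁻¹) * c⁻¹ ∈ cj t U := by
        rw [← N.cZ]; exact conj_mem_cj h1
      have h3 : c * s * c⁻¹ ∈ cj c U := conj_mem_cj hs
      exact ⟨c * (w * s * w⁻¹ * s⁻¹) * c⁻¹ * (c * s * c⁻¹),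
        Subgroup.mul_mem _ (h65_cjt_le_Q _ h2) (h65_V_le_Q _ h3), c * w,
        Or.inl (Or.inr ⟨w, hw, rfl⟩), by group⟩
    · have h1 : s⁻¹ * w * s ∈ cj c U := by
        have := conj_mem_cj (n := s⁻¹) hw
        rwa [N.TV _ (T.inv_mem hs), inv_inv] at this
      exact ⟨c * s * c⁻¹, h65_T_le_Q _ (D.Tc s hs), c * (s⁻¹ * w * s),
        Or.inl (Or.inr ⟨_, h1, rfl⟩), by group⟩
    · rcases hs with hs | hs
      · have hst : s = t := hs
        rw [hst]
        have h1 : t⁻¹ * w * t ∈ cj (t * c) U := by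
          have := conj_mem_cj (n := t⁻¹) hw
          rwa [N.tinvV, inv_inv] at this
        have h2 : c⁻¹ * t ^ 2 * c ∈ T := N.Tcinv _ D.t2
        have h3 : c * t = t * (c⁻¹ * t ^ 2 * c) * c⁻¹ := by
          rw [← N.ct3]; group
        refine ⟨t * (c⁻¹ * t ^ 2 * c), Subgroup.mul_mem _ h65_t_mem_Q (h65_T_le_Q _ h2),
          c⁻¹ * 1 * (t⁻¹ * w * t), Or.inr ⟨1, Subgroup.one_mem _, _, h1, rfl⟩, ?_⟩
        calc c * w * t = c * t * (t⁻¹ * w * t) := by group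
          _ = t * (c⁻¹ * t ^ 2 * c) * c⁻¹ * (t⁻¹ * w * t) := by rw [h3]
          _ = t * (c⁻¹ * t ^ 2 * c) * (c⁻¹ * 1 * (t⁻¹ * w * t)) := by group
      · have hsc : s = c := hs
        rw [hsc]
        have h1 : c⁻¹ * w * c ∈ U := by
          have := conj_mem_cj (n := c⁻¹) hw
          rwa [cj_inv_cj, inv_inv] at this
        refine ⟨1, Subgroup.one_mem _, c⁻¹ * (c⁻¹ * w * c) * 1,
          Or.inr ⟨_, h1, 1, Subgroup.one_mem _, rfl⟩, ?_⟩
        calc c * w * c = c * c * (c⁻¹ * w * c) := by group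
          _ = c⁻¹ * (c⁻¹ * w * c) := by rw [hc2]
          _ = 1 * (c⁻¹ * (c⁻¹ * w * c) * 1) := by group

end Cfsg.Agent.Lib.Helper93.Sl3
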