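import Mathlib
import Cfsg.Agent.Lib.Helper65.SpGUA

/-!
Overgroups of `GU_m(q)` inside `Sp_{2m}(q)`, part B: geometry. Singular vectors of a
non-degenerate quadratic form orthogonal to a small set and not orthogonal to one or two
further vectors; vectors of prescribed Hermitian norm orthogonal to two `K`-lines.
-/

set_option autoImplicit false
set_option linter.unusedSectionVars false
set_option linter.unusedVariables false
set_option linter.unusedSimpArgs false

namespace Cfsg.Agent.Lib.Helper65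

open Module QuadraticMap
open scoped Matrix
open Cfsg.Agent.Lib.Helper51 Cfsg.Agent.Lib.Helper52

section SpGUB

variable {ι : Type} [Fintype ι] [DecidableEq ι] {F : Type*} [Field F] [Fintype F]

/-- A singular vector orthogonal to the finite set `S` and not orthogonal to `b`, for `b`
outside the span of `S`. -/
theorem exists_singular_orth_polar_ne (Q : QuadraticForm F (ι → F))
    (hQ : (polarBilin Q).Nondegenerate) (S : Finset (ι → F)) (b : ι → F)
    (hb : b ∉ Submodule.span F (S : Set (ι → F))) (hS : 2 * S.card + 3 ≤ Fintype.card ι) :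
    ∃ z, Q z = 0 ∧ (∀ s ∈ S, polar ⇑Q s z = 0) ∧ polar ⇑Q b z ≠ 0 := by
  classical
  have h1 := finrank_orth_span_ge Q hQ S
  have h2 : finrank F (Submodule.span F (S : Set (ι → F))) ≤ S.card :=
    finrank_span_finset_le_card (R := F) S
  obtain ⟨u, huW, huS, hQu⟩ := exists_singular_mem_not_mem Q
    (Submodule.span F (S : Set (ι → F)))
    (LinearMap.BilinForm.orthogonal (polarBilin Q) (Submodule.span F (S : Set (ι → F))))
    (by omega)
  have huo : ∀ s ∈ S, polar ⇑Q s u = 0 := fun s hs =>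
    (mem_orth_span Q _ u).mp huW s (by exact_mod_cast hs)
  by_cases hbu : polar ⇑Q b u = 0
  swap
  · exact ⟨u, hQu, huo, hbu⟩
  obtain ⟨y, hyu, hyS⟩ := exists_polar_sep Q hQ _ u huS
  obtain ⟨y₀, hy₀b, hy₀S⟩ := exists_polar_sep Q hQ _ b hb
  have hyo : ∀ s ∈ S, polar ⇑Q s y = 0 := fun s hs => by
    rw [polar_comm]; exact hyS s (Submodule.subset_span (by exact_mod_cast hs))
  have hy₀o : ∀ s ∈ S, polar ⇑Q s y₀ = 0 := fun s hs => by
    rw [polar_comm]; exact hy₀S s (Submodule.subset_span (by exact_mod_cast hs))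
  -- the singular partner `u'` of `u`
  obtain ⟨u', hu'⟩ : ∃ u' : ι → F, u' = y - Q y • u := ⟨_, rfl⟩
  have hQu' : Q u' = 0 := by
    rw [hu', Q_sub_smul', hQu, polar_comm, hyu]; ring
  have huu : polar ⇑Q u u = 0 := by
    rw [Cfsg.Agent.Lib.Helper51.polar_self, hQu, mul_zero]
  have huu' : polar ⇑Q u u' = 1 := by
    rw [hu', polar_sub_right, polar_smul_right, huu, polar_comm, hyu]; simp
  have hu'o : ∀ s ∈ S, polar ⇑Q s u' = 0 := fun s hs => by
    rw [hu', polar_sub_right, polar_smul_right, hyo s hs, huo s hs]; simp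
  by_cases hbu' : polar ⇑Q b u' = 0
  swap
  · exact ⟨u', hQu', hu'o, hbu'⟩
  have hby₀ : polar ⇑Q b y₀ = 1 := by rw [polar_comm]; exact hy₀b
  obtain ⟨p, hp⟩ : ∃ p : F, p = polar ⇑Q y₀ u := ⟨_, rfl⟩
  obtain ⟨p', hp'⟩ : ∃ p' : F, p' = polar ⇑Q y₀ u' := ⟨_, rfl⟩
  refine ⟨(1 : F) • y₀ + (p * p' - Q y₀ - p') • u + (1 - p) • u', ?_, ?_, ?_⟩
  · rw [Q_three, hQu, hQu', huu', ← hp, ← hp']
    ring
  · intro s hs
    rw [polar_add_right, polar_add_right, polar_smul_right, polar_smul_right, polar_smul_right,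
      hy₀o s hs, huo s hs, hu'o s hs]
    simp
  · rw [polar_add_right, polar_add_right, polar_smul_right, polar_smul_right, polar_smul_right,
      hby₀, hbu, hbu']
    simp

/-- A singular vector not orthogonal to either of two orthogonal non-zero vectors. -/
theorem exists_singular_two_ne (Q : QuadraticForm F (ι → F))
    (hQ : (polarBilin Q).Nondegenerate) (hn : 5 ≤ Fintype.card ι) (b₁ b₂ : ι → F)
    (h₁ : b₁ ≠ 0) (h₂ : b₂ ≠ 0) (h : polar ⇑Q b₁ b₂ = 0) :
    ∃ z, Q z = 0 ∧ polar ⇑Q b₁ z ≠ 0 ∧ polar ⇑Q b₂ z ≠ 0 := by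
  classical
  obtain ⟨y₁, hQ₁, -, hy₁⟩ := exists_singular_orth_polar_ne Q hQ ∅ b₁
    (by simpa using h₁) (by simp; omega)
  by_cases hc : polar ⇑Q b₂ y₁ = 0
  swap
  · exact ⟨y₁, hQ₁, hy₁, hc⟩
  have hb₂ : b₂ ∉ Submodule.span F (({y₁} : Finset (ι → F)) : Set (ι → F)) := by
    intro hmem
    rw [Finset.coe_singleton] at hmem
    obtain ⟨c, rfl⟩ := Submodule.mem_span_singleton.mp hmem
    rw [polar_smul_right] at h
    rcases mul_eq_zero.mp h with h0 | h0
    · apply h₂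
      have : c = 0 := h0
      rw [this, zero_smul]
    · exact hy₁ h0
  obtain ⟨y₂, hQ₂, hy₂o, hy₂⟩ := exists_singular_orth_polar_ne Q hQ {y₁} b₂ hb₂
    (by simp; omega)
  have h12 : polar ⇑Q y₁ y₂ = 0 := hy₂o y₁ (by simp)
  by_cases hc2 : polar ⇑Q b₁ y₂ = 0
  swap
  · exact ⟨y₂, hQ₂, hc2, hy₂⟩
  refine ⟨y₁ + y₂, ?_, ?_, ?_⟩
  · rw [QuadraticMap.map_add (⇑Q) y₁ y₂, hQ₁, hQ₂, h12]; simp
  · rw [polar_add_right, hc2, add_zero]; exact hy₁
  · rw [polar_add_right, hc, zero_add]; exact hy₂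

/-- A non-singular vector orthogonal to a small finite set. -/
theorem exists_nonsingular_orth_finset (Q : QuadraticForm F (ι → F))
    (hQ : (polarBilin Q).Nondegenerate) (S : Finset (ι → F))
    (hS : 2 * S.card < Fintype.card ι) :
    ∃ w, Q w ≠ 0 ∧ ∀ s ∈ S, polar ⇑Q s w = 0 := by
  classical
  by_contra hcon
  push Not at hcon
  have hP : ∀ x ∈ LinearMap.BilinForm.orthogonal (polarBilin Q)
      (Submodule.span F (S : Set (ι → F))), Q x = 0 := by
    intro x hx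
    by_contra hne
    obtain ⟨s, hs, hpol⟩ := hcon x hne
    exact hpol ((mem_orth_span Q _ x).mp hx s (by exact_mod_cast hs))
  have h1 := two_mul_finrank_le_of_ts Q hQ _ hP
  have h2 := finrank_orth_span_ge Q hQ S
  omega

namespace SUData

variable {f : (ι → F) → (ι → F) → F} {θ : Matrix ι ι F} {d : F}
variable (sd : SUData f θ d)
include sd

/-- The norm form `s² - d t²` is non-zero off the origin. -/
theorem norm_ne {r₁ r₂ : F} (h : r₁ ≠ 0 ∨ r₂ ≠ 0) : r₁ * r₁ - d * (r₂ * r₂) ≠ 0 := by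
  intro h0
  by_cases h2 : r₂ = 0
  · rw [h2] at h0
    have : r₁ * r₁ = 0 := by linear_combination h0
    rcases h with h | h
    · exact h (mul_self_eq_zero.mp this)
    · exact h h2
  · apply sd.irr (r₁ / r₂)
    field_simp
    linear_combination h0

/-- The norm form `s² - d t²` represents every non-zero scalar. -/
theorem exists_norm {t : F} (ht : t ≠ 0) : ∃ s r : F, s * s - d * (r * r) = t := by
  obtain ⟨s, r, h⟩ := exists_sq_add_sq sd.two (t⁻¹) (-(d * t⁻¹)) (inv_ne_zero ht)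
    (neg_ne_zero.mpr (mul_ne_zero sd.d_ne (inv_ne_zero ht)))
  refine ⟨s, r, ?_⟩
  field_simp at h
  linear_combination h

/-- A vector `K`-orthogonal to `x₁` and `x₂` with prescribed norm. -/
theorem exists_orth_value (hn : 9 ≤ Fintype.card ι) (x₁ x₂ : ι → F) (t : F) :
    ∃ w : ι → F, f w x₁ = 0 ∧ f w (θ *ᵥ x₁) = 0 ∧ f w x₂ = 0 ∧ f w (θ *ᵥ x₂) = 0 ∧
      f w (θ *ᵥ w) = t := by
  classical
  have hf := sd.symp
  have hb := hf.bilinear
  by_cases ht : t = 0
  · refine ⟨0, ?_, ?_, ?_, ?_, ?_⟩ <;>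
      simp [Cfsg.Agent.Lib.Helper97.form_zero_left hb, ht]
  obtain ⟨e, hQe, heS⟩ := exists_nonsingular_orth_finset sd.qf sd.qf_nondeg
    {x₁, θ *ᵥ x₁, x₂, θ *ᵥ x₂}
    (by have := Finset.card_le_four (a := x₁) (b := θ *ᵥ x₁) (c := x₂) (d := θ *ᵥ x₂); omega)
  rw [sd.qf_apply] at hQe
  have key : ∀ x : ι → F, polar ⇑sd.qf x e = 0 → polar ⇑sd.qf (θ *ᵥ x) e = 0 →
      f e x = 0 ∧ f e (θ *ᵥ x) = 0 := by
    intro x h1 h2
    have a1 : f x (θ *ᵥ e) = 0 := sd.f_theta_eq_zero_of_polar h1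
    have a2 : f (θ *ᵥ x) (θ *ᵥ e) = 0 := sd.f_theta_eq_zero_of_polar h2
    rw [sd.f_tt] at a2
    have a3 : f x e = 0 := by
      rcases mul_eq_zero.mp (neg_eq_zero.mp a2) with h | h
      · exact absurd h sd.d_ne
      · exact h
    constructor
    · rw [hf.skew, a3, neg_zero]
    · rw [sd.adj', hf.skew, a1, neg_zero, neg_zero]
  obtain ⟨k1, k2⟩ := key x₁ (heS _ (by simp)) (heS _ (by simp))
  obtain ⟨k3, k4⟩ := key x₂ (heS _ (by simp)) (heS _ (by simp))
  obtain ⟨s, r, hsr⟩ := sd.exists_norm (t := t / f e (θ *ᵥ e)) (div_ne_zero ht hQe)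
  have hte : f (θ *ᵥ e) e = - f e (θ *ᵥ e) := sd.f_self_theta' e
  have hx : ∀ x : ι → F, f e x = 0 → f e (θ *ᵥ x) = 0 →
      f (s • e + r • (θ *ᵥ e)) x = 0 ∧ f (s • e + r • (θ *ᵥ e)) (θ *ᵥ x) = 0 := by
    intro x h1 h2
    constructor
    · rw [hb.add_left, hb.smul_left, hb.smul_left, h1, sd.adj, h2]; ring
    · rw [hb.add_left, hb.smul_left, hb.smul_left, h2, sd.f_tt, h1]; ring
  refine ⟨s • e + r • (θ *ᵥ e), (hx x₁ k1 k2).1, (hx x₁ k1 k2).2, (hx x₂ k3 k4).1,
    (hx x₂ k3 k4).2, ?_⟩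
  rw [Matrix.mulVec_add, Matrix.mulVec_smul, Matrix.mulVec_smul, sd.sq]
  simp only [hb.add_left, hb.add_right, hb.smul_left, hb.smul_right, sd.f_tt, hf.alternating,
    hte]
  have h3 : t = (t / f e (θ *ᵥ e)) * f e (θ *ᵥ e) := by field_simp
  rw [h3, ← hsr]
  ring

end SUData

end SpGUB

end Cfsg.Agent.Lib.Helper65
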