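import Mathlib
import Cfsg.Agent.Lib.Helper65.SpGUB

/-!
Overgroups of `GU_m(q)` inside `Sp_{2m}(q)`, part C: an invertible matrix mapping every
non-degenerate `K`-line to a `K`-line is `K`-semilinear (`g θ = (α + β θ) g`); so an element
outside the normaliser of `K` moves some non-degenerate `K`-line off the `K`-lines.
-/

set_option autoImplicit false
set_option linter.unusedSectionVars false
set_option linter.unusedVariables false
set_option linter.unusedSimpArgs false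

namespace Cfsg.Agent.Lib.Helper65

open Module QuadraticMap
open scoped Matrix
open Cfsg.Agent.Lib.Helper51 Cfsg.Agent.Lib.Helper97

section SpGUC

variable {ι : Type} [Fintype ι] [DecidableEq ι] {F : Type*} [Field F] [Fintype F]
variable {f : (ι → F) → (ι → F) → F} {θ : Matrix ι ι F} {d : F}

local notation "mt(" g ")" => ((g : Matrix.GeneralLinearGroup ι F) : Matrix ι ι F)

namespace SUData

variable (sd : SUData f θ d)
include sd

/-- An invertible matrix mapping every `K`-line to a `K`-line is `K`-semilinear. -/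
theorem exists_coeff_all (hn : 3 ≤ Fintype.card ι) (g : Matrix.GeneralLinearGroup ι F)
    (hall : ∀ x : ι → F, mt(g) *ᵥ (θ *ᵥ x) ∈ KS θ (mt(g) *ᵥ x)) :
    ∃ α β : F, ∀ x : ι → F,
      mt(g) *ᵥ (θ *ᵥ x) = α • mt(g) *ᵥ x + β • θ *ᵥ (mt(g) *ᵥ x) := by
  classical
  have kd := sd.gu
  have hinj : ∀ u : ι → F, mt(g) *ᵥ u = 0 → u = 0 := by
    intro u h
    apply gl_mulVec_injective g
    rw [h, Matrix.mulVec_zero]
  have pw : ∀ (u u' : ι → F) (α β α' β' : F), u ≠ 0 →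
      mt(g) *ᵥ u' ∉ KS θ (mt(g) *ᵥ u) →
      mt(g) *ᵥ (θ *ᵥ u) = α • mt(g) *ᵥ u + β • θ *ᵥ (mt(g) *ᵥ u) →
      mt(g) *ᵥ (θ *ᵥ u') = α' • mt(g) *ᵥ u' + β' • θ *ᵥ (mt(g) *ᵥ u') → α = α' ∧ β = β' := by
    intro u u' α β α' β' hu0 hnot e e'
    have hgu0 : mt(g) *ᵥ u ≠ 0 := fun h => hu0 (hinj u h)
    have hgu'0 : mt(g) *ᵥ u' ≠ 0 := by
      intro h; apply hnot; rw [h]; exact Submodule.zero_mem _
    obtain ⟨α'', β'', e''⟩ := mem_KS.mp (hall (u + u'))
    rw [Matrix.mulVec_add, Matrix.mulVec_add, Matrix.mulVec_add, Matrix.mulVec_add, e, e'] at e''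
    generalize mt(g) *ᵥ u = x at *
    generalize mt(g) *ᵥ u' = x' at *
    have ht : (α'' - α) • x + (β'' - β) • θ *ᵥ x = (α' - α'') • x' + (β' - β'') • θ *ᵥ x' := by
      linear_combination (norm := module) e''
    by_cases ht0 : (α'' - α) • x + (β'' - β) • θ *ᵥ x = 0
    · have c1 := kd.coeff_zero hgu0 ht0
      rw [ht0] at ht
      have c2 := kd.coeff_zero hgu'0 ht.symm
      constructor
      · linear_combination -c1.1 - c2.1
      · linear_combination -c1.2 - c2.2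
    · exfalso
      apply hnot
      have h1 : (α'' - α) • x + (β'' - β) • θ *ᵥ x ∈ KS θ x := mem_KS.mpr ⟨_, _, rfl⟩
      have h2 : (α'' - α) • x + (β'' - β) • θ *ᵥ x ∈ KS θ x' := by
        rw [ht]; exact mem_KS.mpr ⟨_, _, rfl⟩
      exact KS_le (kd.thStab_KS x) h1 (kd.mem_KS_symm h2 ht0)
  -- a non-zero vector
  have hne : ∃ u₀ : ι → F, u₀ ≠ 0 := by
    have hpos : 0 < Fintype.card ι := by omega
    obtain ⟨i⟩ := Fintype.card_pos_iff.mp hpos
    refine ⟨Pi.single i 1, fun h => ?_⟩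
    have := congrFun h i
    simp at this
  obtain ⟨u₀, hu₀0⟩ := hne
  obtain ⟨α₀, β₀, e₀⟩ := mem_KS.mp (hall u₀)
  refine ⟨α₀, β₀, ?_⟩
  -- a vector whose image lies outside a given `K`-line
  have hout : ∀ y : ι → F, ∃ u₁ : ι → F, mt(g) *ᵥ u₁ ∉ KS θ y := by
    intro y
    have hlt : KS θ y ≠ ⊤ := by
      intro htop
      have h1 := finrank_KS_le (θ := θ) y
      rw [htop, finrank_top, Module.finrank_fintype_fun_eq_card] at h1
      omega
    obtain ⟨z, -, hz⟩ := SetLike.exists_of_lt (lt_top_iff_ne_top.mpr hlt)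
    refine ⟨mt((g⁻¹ : Matrix.GeneralLinearGroup ι F)) *ᵥ z, ?_⟩
    rw [gl_mulVec_inv]
    exact hz
  intro u
  by_cases hu0 : u = 0
  · subst hu0; simp
  obtain ⟨α, β, e⟩ := mem_KS.mp (hall u)
  by_cases hmem : mt(g) *ᵥ u ∈ KS θ (mt(g) *ᵥ u₀)
  · obtain ⟨u₁, hu₁⟩ := hout (mt(g) *ᵥ u₀)
    obtain ⟨α₁, β₁, e₁⟩ := mem_KS.mp (hall u₁)
    have p1 := pw u₀ u₁ α₀ β₀ α₁ β₁ hu₀0 hu₁ e₀.symm e₁.symm
    have hu₁' : mt(g) *ᵥ u₁ ∉ KS θ (mt(g) *ᵥ u) := by
      intro h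
      exact hu₁ (KS_le (kd.thStab_KS _) hmem h)
    have p2 := pw u u₁ α β α₁ β₁ hu0 hu₁' e.symm e₁.symm
    rw [← e, p2.1, p2.2, ← p1.1, ← p1.2]
  · have p := pw u₀ u α₀ β₀ α β hu₀0 hmem e₀.symm e.symm
    rw [← e, ← p.1, ← p.2]

/-- An invertible matrix which is not `K`-semilinear maps some non-degenerate `K`-line to a
plane which is not stable under `θ`. -/
theorem exists_moved (hn : 9 ≤ Fintype.card ι) (g : Matrix.GeneralLinearGroup ι F)
    (hg : ¬ ∃ α β : F, ∀ x : ι → F,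
      mt(g) *ᵥ (θ *ᵥ x) = α • mt(g) *ᵥ x + β • θ *ᵥ (mt(g) *ᵥ x)) :
    ∃ e : ι → F, f e (θ *ᵥ e) ≠ 0 ∧ ∀ α β : F,
      θ *ᵥ (mt(g) *ᵥ e) ≠ α • mt(g) *ᵥ e + β • mt(g) *ᵥ (θ *ᵥ e) := by
  classical
  have kd := sd.gu
  have hf := sd.symp
  have hb := hf.bilinear
  by_contra hcon
  push Not at hcon
  apply hg
  have hinj : ∀ u : ι → F, mt(g) *ᵥ u = 0 → u = 0 := by
    intro u h
    apply gl_mulVec_injective g
    rw [h, Matrix.mulVec_zero]
  -- step 1: every `K`-line is mapped to a `θ`-stable plane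
  have step1 : ∀ x : ι → F, ∃ α β : F,
      θ *ᵥ (mt(g) *ᵥ x) = α • mt(g) *ᵥ x + β • mt(g) *ᵥ (θ *ᵥ x) := by
    intro x
    by_cases hx : f x (θ *ᵥ x) = 0
    swap
    · exact hcon x hx
    obtain ⟨e, he1, he2, -, -, hee⟩ := sd.exists_orth_value hn x x 1
    obtain ⟨e', he'1, he'2, he'3, he'4, he'e'⟩ := sd.exists_orth_value hn x e 1
    have hxe : f (x + e) (θ *ᵥ (x + e)) ≠ 0 := by
      rw [Matrix.mulVec_add, hb.add_left, hb.add_right, hb.add_right, hx, hee, he2,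
        sd.adj', hf.skew, he2]
      simp
    have hxe' : f (x + e') (θ *ᵥ (x + e')) ≠ 0 := by
      rw [Matrix.mulVec_add, hb.add_left, hb.add_right, hb.add_right, hx, he'e', he'2,
        sd.adj', hf.skew, he'2]
      simp
    obtain ⟨α, β, h1⟩ := hcon (x + e) hxe
    obtain ⟨α₁, β₁, h2⟩ := hcon e (by rw [hee]; exact one_ne_zero)
    obtain ⟨α', β', h1'⟩ := hcon (x + e') hxe'
    obtain ⟨α₁', β₁', h2'⟩ := hcon e' (by rw [he'e']; exact one_ne_zero)
    have e1 : θ *ᵥ (mt(g) *ᵥ x) = mt(g) *ᵥ (α • x + β • (θ *ᵥ x) + (α - α₁) • e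
        + (β - β₁) • (θ *ᵥ e)) := by
      have : θ *ᵥ (mt(g) *ᵥ x) = θ *ᵥ (mt(g) *ᵥ (x + e)) - θ *ᵥ (mt(g) *ᵥ e) := by
        rw [Matrix.mulVec_add, Matrix.mulVec_add, add_sub_cancel_right]
      rw [this, h1, h2]
      simp only [Matrix.mulVec_add, Matrix.mulVec_smul]
      module
    have e2 : θ *ᵥ (mt(g) *ᵥ x) = mt(g) *ᵥ (α' • x + β' • (θ *ᵥ x) + (α' - α₁') • e'
        + (β' - β₁') • (θ *ᵥ e')) := by
      have : θ *ᵥ (mt(g) *ᵥ x) = θ *ᵥ (mt(g) *ᵥ (x + e')) - θ *ᵥ (mt(g) *ᵥ e') := by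
        rw [Matrix.mulVec_add, Matrix.mulVec_add, add_sub_cancel_right]
      rw [this, h1', h2']
      simp only [Matrix.mulVec_add, Matrix.mulVec_smul]
      module
    have e3 := gl_mulVec_injective g (e1.symm.trans e2)
    -- apply `f(·, θ e)` and `f(·, e)`
    have hxe1 : f x e = 0 := by rw [hf.skew, he1, neg_zero]
    have hxte : f x (θ *ᵥ e) = 0 := by rw [sd.adj', hf.skew, he2, neg_zero, neg_zero]
    have htxe : f (θ *ᵥ x) e = 0 := by rw [hf.skew, he2, neg_zero]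
    have htxte : f (θ *ᵥ x) (θ *ᵥ e) = 0 := by rw [sd.f_tt, hxe1]; simp
    have he'te : f (θ *ᵥ e') e = 0 := by rw [sd.adj, he'4, neg_zero]
    have hte'te : f (θ *ᵥ e') (θ *ᵥ e) = 0 := by rw [sd.f_tt, he'3]; simp
    have hte_e : f (θ *ᵥ e) e = -1 := by rw [sd.f_self_theta', hee]
    have c1 := congrArg (fun v => f v (θ *ᵥ e)) e3
    have c2 := congrArg (fun v => f v e) e3
    simp only [hb.add_left, hb.smul_left, hxte, htxte, hee, sd.f_tt, hf.alternating, he'4,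
      hte'te, he'3] at c1
    simp only [hb.add_left, hb.smul_left, hxe1, htxe, hte_e, hf.alternating, he'3, he'te] at c2
    have hA : α - α₁ = 0 := by linear_combination c1
    have hB : β - β₁ = 0 := by linear_combination -c2
    refine ⟨α, β, ?_⟩
    rw [e1, hA, hB]
    simp only [Matrix.mulVec_add, Matrix.mulVec_smul]
    module
  -- step 2: every `K`-line is mapped into a `K`-line
  have step2 : ∀ x : ι → F, mt(g) *ᵥ (θ *ᵥ x) ∈ KS θ (mt(g) *ᵥ x) := by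
    intro x
    by_cases hx0 : x = 0
    · subst hx0
      simp only [Matrix.mulVec_zero]
      exact Submodule.zero_mem _
    obtain ⟨α, β, h⟩ := step1 x
    have hgx0 : mt(g) *ᵥ x ≠ 0 := fun h0 => hx0 (hinj x h0)
    have hβ : β ≠ 0 := by
      rintro rfl
      rw [zero_smul, add_zero] at h
      exact kd.theta_ne_smul hgx0 α h
    refine mem_KS.mpr ⟨-(β⁻¹ * α), β⁻¹, ?_⟩
    rw [h, smul_add, smul_smul, smul_smul, inv_mul_cancel₀ hβ, one_smul]
    module
  exact sd.exists_coeff_all (by omega) g step2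

end SUData

end SpGUC

end Cfsg.Agent.Lib.Helper65
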