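import Mathlib
import Cfsg.Agent.Lib.Helper65.SpGUC

/-!
Overgroups of `GU_m(q)` inside `Sp_{2m}(q)`, part D: a subgroup `M` containing the unitary
group and an isometry `g` moving a non-degenerate `K`-line off the `K`-lines contains all the
symplectic transvections with centre `g e`. The conjugate by `g` of the involution `-1` on the
`K`-line of `e`, commutated with unitary transvections, gives short root elements, and two of
these commutate to a transvection.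
-/

set_option autoImplicit false
set_option linter.unusedSectionVars false
set_option linter.unusedVariables false
set_option linter.unusedSimpArgs false

namespace Cfsg.Agent.Lib.Helper65

open Module QuadraticMap
open scoped Matrix
open Cfsg.Agent.Lib.Helper51 Cfsg.Agent.Lib.Helper97

section SpGUD

variable {ι : Type} [Fintype ι] [DecidableEq ι] {F : Type*} [Field F]
variable {f : (ι → F) → (ι → F) → F} {θ : Matrix ι ι F} {d : F}

local notation "mt(" g ")" => ((g : Matrix.GeneralLinearGroup ι F) : Matrix ι ι F)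

/-- Four short root maps with the same first vector `e₁` compose to a transvection. -/
theorem short_calc2 (hf : Cfsg.Geo.IsSymplecticForm f) {e₁ y₁ y₂ : ι → F}
    (h1 : f e₁ y₁ = 0) (h2 : f e₁ y₂ = 0) (γ : F) (x v₁ v₂ v₃ v₄ : ι → F)
    (hv₁ : v₁ = sm f ((-1 : F) • e₁) y₂ x) (hv₂ : v₂ = sm f ((-γ) • e₁) y₁ v₁)
    (hv₃ : v₃ = sm f ((1 : F) • e₁) y₂ v₂) (hv₄ : v₄ = sm f (γ • e₁) y₁ v₃) :
    v₄ = x + (-(2 * γ * f y₁ y₂) * f x e₁) • e₁ := by
  have hb := hf.bilinear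
  have h1s : f y₁ e₁ = 0 := by rw [hf.skew, h1, neg_zero]
  have h2s : f y₂ e₁ = 0 := by rw [hf.skew, h2, neg_zero]
  have h21 : f y₂ y₁ = - f y₁ y₂ := hf.skew _ _
  have a1 : f v₁ e₁ = f x e₁ := by
    rw [hv₁, sm_apply]
    simp only [hb.add_left, hb.smul_left, hb.smul_right, hf.alternating, h2s]
    ring
  have a2 : f v₁ y₁ = f x y₁ + f x e₁ * f y₁ y₂ := by
    rw [hv₁, sm_apply]
    simp only [hb.add_left, hb.smul_left, hb.smul_right, h1, h21]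
    ring
  have a3 : f v₁ y₂ = f x y₂ := by
    rw [hv₁, sm_apply]
    simp only [hb.add_left, hb.smul_left, hb.smul_right, h2, hf.alternating]
    ring
  have b1 : f v₂ e₁ = f x e₁ := by
    rw [hv₂, sm_apply]
    simp only [hb.add_left, hb.smul_left, hb.smul_right, hf.alternating, h1s, a1]
    ring
  have b2 : f v₂ y₂ = f x y₂ - γ * f x e₁ * f y₁ y₂ := by
    rw [hv₂, sm_apply]
    simp only [hb.add_left, hb.smul_left, hb.smul_right, h2, a1, a2, a3]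
    ring
  have b3 : f v₂ y₁ = f x y₁ + f x e₁ * f y₁ y₂ := by
    rw [hv₂, sm_apply]
    simp only [hb.add_left, hb.smul_left, hb.smul_right, h1, hf.alternating, a1, a2]
    ring
  have c1 : f v₃ e₁ = f x e₁ := by
    rw [hv₃, sm_apply]
    simp only [hb.add_left, hb.smul_left, hb.smul_right, hf.alternating, h2s, b1]
    ring
  have c2 : f v₃ y₁ = f x y₁ := by
    rw [hv₃, sm_apply]
    simp only [hb.add_left, hb.smul_left, hb.smul_right, h1, h21, b1, b2, b3]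
    ring
  rw [hv₄, sm_apply]
  simp only [hb.smul_right, c1, c2]
  rw [hv₃, sm_apply]
  simp only [hb.smul_right, b1, b2]
  rw [hv₂, sm_apply]
  simp only [hb.smul_right, a1, a2]
  rw [hv₁, sm_apply]
  simp only [hb.smul_right]
  module

/-- Two families of short root elements with the same first vector `e₁` and non-orthogonal
second vectors generate the transvections with centre `e₁`. -/
theorem InS_of_short (hf : Cfsg.Geo.IsSymplecticForm f) (h2 : (2 : F) ≠ 0)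
    (M : Subgroup (Matrix.GeneralLinearGroup ι F)) {e₁ y₁ y₂ : ι → F}
    (h1 : f e₁ y₁ = 0) (h2' : f e₁ y₂ = 0) (hω : f y₁ y₂ ≠ 0)
    (hs₁ : ∀ c : F, Act M (sm f (c • e₁) y₁)) (hs₂ : ∀ c : F, Act M (sm f (c • e₁) y₂)) :
    InS f M e₁ := by
  have hb := hf.bilinear
  apply InS_of_Act hf
  intro c
  obtain ⟨γ, hγ⟩ : ∃ γ : F, γ = -c / (2 * f y₁ y₂) := ⟨_, rfl⟩
  have hγ' : -(2 * γ * f y₁ y₂) = c := by rw [hγ]; field_simp
  have h4 := (hs₁ γ).comp ((hs₂ 1).comp ((hs₁ (-γ)).comp (hs₂ (-1))))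
  refine h4.congr (fun x => ?_)
  have h5 := short_calc2 hf h1 h2' γ x _ _ _ _ rfl rfl rfl rfl
  rw [hγ'] at h5
  exact h5

namespace SUData

variable (sd : SUData f θ d)
include sd

/-- The conjugate by an isometry `g ∈ M` of the involution `-1` on the `K`-line of `e`. -/
theorem act_zconj (M : Subgroup (Matrix.GeneralLinearGroup ι F))
    (hKU : ∀ k : Matrix.GeneralLinearGroup ι F, IsKU f θ k → k ∈ M)
    {g : Matrix.GeneralLinearGroup ι F} (hgM : g ∈ M)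
    (hgf : ∀ x y : ι → F, f (mt(g) *ᵥ x) (mt(g) *ᵥ y) = f x y)
    {e : ι → F} (he : f e (θ *ᵥ e) ≠ 0) :
    Act M (fun x => x - (2 / f e (θ *ᵥ e)) •
      (f x (mt(g) *ᵥ (θ *ᵥ e)) • (mt(g) *ᵥ e) - f x (mt(g) *ᵥ e) • (mt(g) *ᵥ (θ *ᵥ e)))) := by
  obtain ⟨k, hk, hkx⟩ := sd.exists_zmap he
  have h1 : Act M (fun x => mt(k) *ᵥ x) := ⟨k, hKU k hk, fun x => rfl⟩
  have h2 := Act.conj hgM h1
  refine h2.congr (fun x => ?_)
  have hinv : ∀ y : ι → F,
      f (mt((g⁻¹ : Matrix.GeneralLinearGroup ι F)) *ᵥ x) y = f x (mt(g) *ᵥ y) := by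
    intro y
    have := hgf (mt((g⁻¹ : Matrix.GeneralLinearGroup ι F)) *ᵥ x) y
    rw [gl_mulVec_inv] at this
    exact this.symm
  show mt(g) *ᵥ (mt(k) *ᵥ (mt((g⁻¹ : Matrix.GeneralLinearGroup ι F)) *ᵥ x)) = _
  rw [hkx, hinv, hinv]
  simp only [Matrix.mulVec_sub, Matrix.mulVec_smul, gl_mulVec_inv]

/-- The pointwise computation behind `act_short`. -/
theorem short_calc {e₁ e₂ a : ι → F} {c₀ : F} (hc₀ : c₀ * f e₁ e₂ = 2)
    (ha : f a (θ *ᵥ a) = 0) (h1 : f a e₁ = 0) (h2 : f (θ *ᵥ a) e₁ = 0) (h3 : f a e₂ = 0)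
    (c : F) (x u₁ u₂ u₃ u₄ : ι → F)
    (hu₁ : u₁ = x + (-(2 * c)) • (f x (θ *ᵥ a) • (θ *ᵥ a) - (d * f x a) • a))
    (hu₂ : u₂ = u₁ - c₀ • (f u₁ e₂ • e₁ - f u₁ e₁ • e₂))
    (hu₃ : u₃ = u₂ + (2 * c) • (f u₂ (θ *ᵥ a) • (θ *ᵥ a) - (d * f u₂ a) • a))
    (hu₄ : u₄ = u₃ - c₀ • (f u₃ e₂ • e₁ - f u₃ e₁ • e₂)) :
    u₄ = sm f ((-(c * c₀ * f (θ *ᵥ a) e₂)) • e₁)
      ((2 : F) • (θ *ᵥ a) - (c₀ * f (θ *ᵥ a) e₂) • e₁) x := by
  have hf := sd.symp
  have hb := hf.bilinear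
  have ha' : f (θ *ᵥ a) a = 0 := by rw [sd.f_self_theta', ha, neg_zero]
  have h1' : f e₁ a = 0 := by rw [hf.skew, h1, neg_zero]
  have h2' : f e₁ (θ *ᵥ a) = 0 := by rw [hf.skew, h2, neg_zero]
  have h3' : f e₂ a = 0 := by rw [hf.skew, h3, neg_zero]
  have h4' : f e₂ (θ *ᵥ a) = - f (θ *ᵥ a) e₂ := hf.skew _ _
  have h21 : f e₂ e₁ = - f e₁ e₂ := hf.skew _ _
  generalize hφ : f (θ *ᵥ a) e₂ = φ at *
  generalize hε : f e₁ e₂ = ε at *
  have e11 : f u₁ e₁ = f x e₁ := by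
    rw [hu₁]
    simp only [hb.add_left, hb.smul_left, form_sub_left hb, h1, h2]
    ring
  have e12 : f u₁ e₂ = f x e₂ - 2 * c * f x (θ *ᵥ a) * φ := by
    rw [hu₁]
    simp only [hb.add_left, hb.smul_left, form_sub_left hb, h3, hφ]
    ring
  have e1a : f u₁ a = f x a := by
    rw [hu₁]
    simp only [hb.add_left, hb.smul_left, form_sub_left hb, ha', hf.alternating]
    ring
  have e1t : f u₁ (θ *ᵥ a) = f x (θ *ᵥ a) := by
    rw [hu₁]
    simp only [hb.add_left, hb.smul_left, form_sub_left hb, ha, hf.alternating]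
    ring
  have e2a : f u₂ a = f x a := by
    rw [hu₂]
    simp only [form_sub_left hb, hb.smul_left, h1', h3', e1a]
    ring
  have e2t : f u₂ (θ *ᵥ a) = f x (θ *ᵥ a) - c₀ * f x e₁ * φ := by
    rw [hu₂]
    simp only [form_sub_left hb, hb.smul_left, h2', h4', e1t, e11, e12]
    ring
  have e21 : f u₂ e₁ = - f x e₁ := by
    rw [hu₂]
    simp only [form_sub_left hb, hb.smul_left, hf.alternating, h21, e11, e12]
    linear_combination (- f x e₁) * hc₀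
  have e22 : f u₂ e₂ = -(f x e₂ - 2 * c * f x (θ *ᵥ a) * φ) := by
    rw [hu₂]
    simp only [form_sub_left hb, hb.smul_left, hf.alternating, hε, e11, e12]
    linear_combination (-(f x e₂ - 2 * c * f x (θ *ᵥ a) * φ)) * hc₀
  have e31 : f u₃ e₁ = - f x e₁ := by
    rw [hu₃]
    simp only [hb.add_left, hb.smul_left, form_sub_left hb, h1, h2, e21]
    ring
  have e32 : f u₃ e₂ = -(f x e₂ - 2 * c * f x (θ *ᵥ a) * φ)
      + 2 * c * (f x (θ *ᵥ a) - c₀ * f x e₁ * φ) * φ := by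
    rw [hu₃]
    simp only [hb.add_left, hb.smul_left, form_sub_left hb, h3, hφ, e22, e2t, e2a]
    ring
  rw [hu₄, sm_apply, e31, e32, hu₃, e2t, e2a, hu₂, e12, e11, hu₁]
  simp only [form_sub_right hb, hb.smul_right]
  module

/-- The short root elements obtained from the conjugated involution and the unitary
transvections with centre `a`. -/
theorem act_short (M : Subgroup (Matrix.GeneralLinearGroup ι F))
    (hKU : ∀ k : Matrix.GeneralLinearGroup ι F, IsKU f θ k → k ∈ M)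
    {e₁ e₂ a : ι → F} {c₀ : F} (hc₀ : c₀ * f e₁ e₂ = 2)
    (hZ : Act M (fun x => x - c₀ • (f x e₂ • e₁ - f x e₁ • e₂)))
    (ha : f a (θ *ᵥ a) = 0) (h1 : f a e₁ = 0) (h2 : f (θ *ᵥ a) e₁ = 0) (h3 : f a e₂ = 0)
    (c : F) :
    Act M (sm f ((-(c * c₀ * f (θ *ᵥ a) e₂)) • e₁)
      ((2 : F) • (θ *ᵥ a) - (c₀ * f (θ *ᵥ a) e₂) • e₁)) := by
  have hT : ∀ c' : F,
      Act M (fun x => x + c' • (f x (θ *ᵥ a) • (θ *ᵥ a) - (d * f x a) • a)) := by
    intro c'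
    obtain ⟨k, hk, hkx⟩ := sd.exists_tau ha c'
    exact ⟨k, hKU k hk, hkx⟩
  have h4 := hZ.comp ((hT (2 * c)).comp (hZ.comp (hT (-(2 * c)))))
  refine h4.congr (fun x => ?_)
  exact sd.short_calc hc₀ ha h1 h2 h3 c x _ _ _ _ rfl rfl rfl rfl

/-- `polar (θ x) y = 0` gives `f y x = 0`. -/
theorem f_of_polar_theta {x y : ι → F} (h : polar ⇑sd.qf (θ *ᵥ x) y = 0) : f y x = 0 := by
  apply sd.f_eq_zero_of_polar
  rw [polar_comm]
  exact h

/-- `polar x y = 0` gives `f (θ y) x = 0`. -/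
theorem f_theta_of_polar {x y : ι → F} (h : polar ⇑sd.qf x y = 0) : f (θ *ᵥ y) x = 0 := by
  rw [sd.symp.skew, sd.f_theta_eq_zero_of_polar h, neg_zero]

/-- `polar x y ≠ 0` gives `f (θ y) x ≠ 0`. -/
theorem f_theta_ne_of_polar {x y : ι → F} (h : polar ⇑sd.qf x y ≠ 0) : f (θ *ᵥ y) x ≠ 0 := by
  intro h0
  apply h
  rw [sd.polar_qf, sd.symp.skew, h0]
  ring

set_option maxHeartbeats 1600000 in
/-- A subgroup containing the unitary group and the involution `x ↦ x - c₀ (f(x, e₂) e₁ -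
f(x, e₁) e₂)` of a hyperbolic pair `e₁, e₂` whose plane is not `θ`-stable contains the
transvections with centre `e₁`. -/
theorem inS_of_pair [Fintype F] (hn : 14 ≤ Fintype.card ι)
    (M : Subgroup (Matrix.GeneralLinearGroup ι F))
    (hKU : ∀ k : Matrix.GeneralLinearGroup ι F, IsKU f θ k → k ∈ M)
    {e₁ e₂ : ι → F} {c₀ : F} (hc₀ : c₀ * f e₁ e₂ = 2)
    (hZ : Act M (fun x => x - c₀ • (f x e₂ • e₁ - f x e₁ • e₂)))
    (hmv : ∀ α β : F, θ *ᵥ e₁ ≠ α • e₁ + β • e₂) : InS f M e₁ := by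
  classical
  have hf := sd.symp
  have hb := hf.bilinear
  have hc₀ne : c₀ ≠ 0 := by
    rintro rfl
    rw [zero_mul] at hc₀
    exact sd.two hc₀.symm
  have hε0 : f e₁ e₂ ≠ 0 := by
    intro h
    rw [h, mul_zero] at hc₀
    exact sd.two hc₀.symm
  -- independence
  have hind : e₂ ∉ Submodule.span F
      ((({θ *ᵥ e₁, θ *ᵥ e₂, e₁} : Finset (ι → F))) : Set (ι → F)) := by
    intro hmem
    rw [Finset.coe_insert, Finset.coe_insert, Finset.coe_singleton] at hmem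
    obtain ⟨α, β, γ, h⟩ := Submodule.mem_span_triple.mp hmem
    have hθ := congrArg (fun v => θ *ᵥ v) h
    simp only [Matrix.mulVec_add, Matrix.mulVec_smul, sd.sq] at hθ
    have key : (1 - d * (β * β)) • e₂ = (α + β * γ) • (θ *ᵥ e₁) + (α * β * d + γ) • e₁ := by
      rw [← hθ] at h
      linear_combination (norm := module) (-1 : F) • h
    by_cases hc : α + β * γ = 0
    · rw [hc, zero_smul, zero_add] at key
      have k2 := congrArg (fun v => f e₁ v) key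
      simp only [hb.smul_right, hf.alternating, mul_zero] at k2
      have k3 : 1 - d * (β * β) = 0 := (mul_eq_zero.mp k2).resolve_right hε0
      have hβ : β ≠ 0 := by
        rintro rfl
        simp at k3
      apply sd.irr (β⁻¹)
      field_simp
      linear_combination k3
    · apply hmv (-(α * β * d + γ) / (α + β * γ)) ((1 - d * (β * β)) / (α + β * γ))
      have h5 : (α + β * γ) • (θ *ᵥ e₁) = (1 - d * (β * β)) • e₂ - (α * β * d + γ) • e₁ := by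
        rw [key]; abel
      calc θ *ᵥ e₁ = (α + β * γ)⁻¹ • ((α + β * γ) • (θ *ᵥ e₁)) := by
            rw [smul_smul, inv_mul_cancel₀ hc, one_smul]
        _ = _ := by rw [h5]; module
  -- the first isotropic vector
  obtain ⟨d₀, hQd₀, hd₀S, hd₀e₂⟩ := exists_singular_orth_polar_ne sd.qf sd.qf_nondeg
    {θ *ᵥ e₁, θ *ᵥ e₂, e₁} e₂ hind
    (by have := Finset.card_le_three (a := θ *ᵥ e₁) (b := θ *ᵥ e₂) (c := e₁); omega)
  obtain ⟨w, hwS, hwA, hQw⟩ := exists_singular_orth_not_mem (Q := sd.qf) sd.qf_nondeg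
    {e₁, e₂, θ *ᵥ e₁, θ *ᵥ e₂, d₀}
    (Submodule.span F ((({e₁, e₂, θ *ᵥ e₁, θ *ᵥ e₂, d₀} : Finset (ι → F))) : Set (ι → F)))
    (by
      have h1 := Finset.card_le_five (a := e₁) (b := e₂) (c := θ *ᵥ e₁) (d := θ *ᵥ e₂) (e := d₀)
      have h2 : finrank F (Submodule.span F
          ((({e₁, e₂, θ *ᵥ e₁, θ *ᵥ e₂, d₀} : Finset (ι → F))) : Set (ι → F)))
          ≤ ({e₁, e₂, θ *ᵥ e₁, θ *ᵥ e₂, d₀} : Finset (ι → F)).card :=
        finrank_span_finset_le_card (R := F) _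
      omega)
  obtain ⟨a₁, ha₁⟩ : ∃ a₁ : ι → F, a₁ = d₀ + w := ⟨_, rfl⟩
  have hQa₁ : sd.qf a₁ = 0 := by
    rw [ha₁, QuadraticMap.map_add (⇑sd.qf) d₀ w, hQd₀, hQw, hwS d₀ (by simp)]
    simp
  have hpa : ∀ s : ι → F, polar ⇑sd.qf s d₀ = 0 → polar ⇑sd.qf s w = 0 →
      polar ⇑sd.qf s a₁ = 0 := by
    intro s h1 h2
    rw [ha₁, polar_add_right, h1, h2, add_zero]
  have hp1 : polar ⇑sd.qf (θ *ᵥ e₁) a₁ = 0 := hpa _ (hd₀S _ (by simp)) (hwS _ (by simp))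
  have hp2 : polar ⇑sd.qf (θ *ᵥ e₂) a₁ = 0 := hpa _ (hd₀S _ (by simp)) (hwS _ (by simp))
  have hp3 : polar ⇑sd.qf e₁ a₁ = 0 := hpa _ (hd₀S _ (by simp)) (hwS _ (by simp))
  have hp4 : polar ⇑sd.qf e₂ a₁ ≠ 0 := by
    rw [ha₁, polar_add_right, hwS e₂ (by simp), add_zero]
    exact hd₀e₂
  have ha₁S : a₁ ∉ Submodule.span F
      ((({e₁, e₂, θ *ᵥ e₁, θ *ᵥ e₂} : Finset (ι → F))) : Set (ι → F)) := by
    intro hmem
    apply hwA
    have hle : Submodule.span F ((({e₁, e₂, θ *ᵥ e₁, θ *ᵥ e₂} : Finset (ι → F))) : Set (ι → F))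
        ≤ Submodule.span F
          ((({e₁, e₂, θ *ᵥ e₁, θ *ᵥ e₂, d₀} : Finset (ι → F))) : Set (ι → F)) := by
      apply Submodule.span_mono
      intro v hv
      have hv' : v ∈ ({e₁, e₂, θ *ᵥ e₁, θ *ᵥ e₂} : Finset (ι → F)) := by exact_mod_cast hv
      have hv'' : v ∈ ({e₁, e₂, θ *ᵥ e₁, θ *ᵥ e₂, d₀} : Finset (ι → F)) := by
        simp only [Finset.mem_insert, Finset.mem_singleton] at hv' ⊢
        rcases hv' with h | h | h | h
        · exact Or.inl h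
        · exact Or.inr (Or.inl h)
        · exact Or.inr (Or.inr (Or.inl h))
        · exact Or.inr (Or.inr (Or.inr (Or.inl h)))
      exact_mod_cast hv''
    have hd₀mem : d₀ ∈ Submodule.span F
        ((({e₁, e₂, θ *ᵥ e₁, θ *ᵥ e₂, d₀} : Finset (ι → F))) : Set (ι → F)) :=
      Submodule.subset_span (by simp)
    have hw : w = a₁ - d₀ := by rw [ha₁]; abel
    rw [hw]
    exact Submodule.sub_mem _ (hle hmem) hd₀mem
  obtain ⟨b, hQb, hbS, hba₁⟩ := exists_singular_orth_polar_ne sd.qf sd.qf_nondeg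
    {e₁, e₂, θ *ᵥ e₁, θ *ᵥ e₂} a₁ ha₁S
    (by have := Finset.card_le_four (a := e₁) (b := e₂) (c := θ *ᵥ e₁) (d := θ *ᵥ e₂); omega)
  -- facts in terms of `f`
  have A1 : f a₁ (θ *ᵥ a₁) = 0 := by rw [← sd.qf_apply]; exact hQa₁
  have A2 : f a₁ e₁ = 0 := sd.f_of_polar_theta hp1
  have A3 : f (θ *ᵥ a₁) e₁ = 0 := sd.f_theta_of_polar hp3
  have A4 : f a₁ e₂ = 0 := sd.f_of_polar_theta hp2
  have A5 : f (θ *ᵥ a₁) e₂ ≠ 0 := sd.f_theta_ne_of_polar hp4
  have B1 : f b (θ *ᵥ b) = 0 := by rw [← sd.qf_apply]; exact hQb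
  have B2 : f b e₁ = 0 := sd.f_of_polar_theta (hbS _ (by simp))
  have B3 : f (θ *ᵥ b) e₁ = 0 := sd.f_theta_of_polar (hbS _ (by simp))
  have B4 : f b e₂ = 0 := sd.f_of_polar_theta (hbS _ (by simp))
  have B5 : f (θ *ᵥ b) e₂ = 0 := sd.f_theta_of_polar (hbS _ (by simp))
  have B6 : f a₁ (θ *ᵥ b) ≠ 0 := by
    intro h0
    apply hba₁
    rw [sd.polar_qf, h0, mul_zero]
  -- the second isotropic vector
  obtain ⟨k, hk, hkx⟩ := sd.exists_tau B1 1
  obtain ⟨a₂, ha₂⟩ : ∃ a₂ : ι → F,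
      a₂ = a₁ + (1 : F) • (f a₁ (θ *ᵥ b) • (θ *ᵥ b) - (d * f a₁ b) • b) := ⟨_, rfl⟩
  have hka : mt(k) *ᵥ a₁ = a₂ := by rw [ha₂, hkx]
  have C1 : f a₂ (θ *ᵥ a₂) = 0 := by
    rw [← hka]
    have : θ *ᵥ (mt(k) *ᵥ a₁) = mt(k) *ᵥ (θ *ᵥ a₁) := by
      rw [Matrix.mulVec_mulVec, Matrix.mulVec_mulVec, hk.1]
    rw [this, hk.2]
    exact A1
  have hθa₂ : θ *ᵥ a₂ = θ *ᵥ a₁
      + (1 : F) • ((f a₁ (θ *ᵥ b) * d) • b - (d * f a₁ b) • (θ *ᵥ b)) := by
    rw [ha₂]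
    simp only [Matrix.mulVec_add, Matrix.mulVec_smul, Matrix.mulVec_sub, sd.sq]
    module
  have C2 : f a₂ e₁ = 0 := by
    rw [ha₂]
    simp only [hb.add_left, hb.smul_left, form_sub_left hb, A2, B2, B3]
    ring
  have C3 : f (θ *ᵥ a₂) e₁ = 0 := by
    rw [hθa₂]
    simp only [hb.add_left, hb.smul_left, form_sub_left hb, A3, B2, B3]
    ring
  have C4 : f a₂ e₂ = 0 := by
    rw [ha₂]
    simp only [hb.add_left, hb.smul_left, form_sub_left hb, A4, B4, B5]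
    ring
  have C5 : f (θ *ᵥ a₂) e₂ = f (θ *ᵥ a₁) e₂ := by
    rw [hθa₂]
    simp only [hb.add_left, hb.smul_left, form_sub_left hb, B4, B5]
    ring
  have C6 : f a₁ a₂ = f a₁ (θ *ᵥ b) * f a₁ (θ *ᵥ b) - d * (f a₁ b * f a₁ b) := by
    rw [ha₂]
    simp only [hb.add_right, hb.smul_right, form_sub_right hb, hf.alternating]
    ring
  have C6' : f a₁ a₂ ≠ 0 := by
    rw [C6]
    exact sd.norm_ne (Or.inl B6)
  have C5' : f (θ *ᵥ a₂) e₂ ≠ 0 := by rw [C5]; exact A5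
  -- the short root elements
  have hs : ∀ a : ι → F, f a (θ *ᵥ a) = 0 → f a e₁ = 0 → f (θ *ᵥ a) e₁ = 0 → f a e₂ = 0 →
      f (θ *ᵥ a) e₂ ≠ 0 → ∀ c' : F,
      Act M (sm f (c' • e₁) ((2 : F) • (θ *ᵥ a) - (c₀ * f (θ *ᵥ a) e₂) • e₁)) := by
    intro a h1 h2 h3 h4 h5 c'
    have h6 := sd.act_short M hKU hc₀ hZ h1 h2 h3 h4 (-c' / (c₀ * f (θ *ᵥ a) e₂))
    have h7 : -(-c' / (c₀ * f (θ *ᵥ a) e₂) * c₀ * f (θ *ᵥ a) e₂) = c' := by
      field_simp
    rwa [h7] at h6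
  have A3' : f e₁ (θ *ᵥ a₁) = 0 := by rw [hf.skew, A3, neg_zero]
  have C3' : f e₁ (θ *ᵥ a₂) = 0 := by rw [hf.skew, C3, neg_zero]
  refine InS_of_short hf sd.two M
    (y₁ := (2 : F) • (θ *ᵥ a₁) - (c₀ * f (θ *ᵥ a₁) e₂) • e₁)
    (y₂ := (2 : F) • (θ *ᵥ a₂) - (c₀ * f (θ *ᵥ a₂) e₂) • e₁) ?_ ?_ ?_
    (hs a₁ A1 A2 A3 A4 A5) (hs a₂ C1 C2 C3 C4 C5')
  · simp only [form_sub_right hb, hb.smul_right, hf.alternating, A3']
    ring
  · simp only [form_sub_right hb, hb.smul_right, hf.alternating, C3']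
    ring
  · have e : f ((2 : F) • (θ *ᵥ a₁) - (c₀ * f (θ *ᵥ a₁) e₂) • e₁)
        ((2 : F) • (θ *ᵥ a₂) - (c₀ * f (θ *ᵥ a₂) e₂) • e₁) = -(4 * d * f a₁ a₂) := by
      simp only [form_sub_left hb, form_sub_right hb, hb.smul_left, hb.smul_right, sd.f_tt,
        hf.alternating, A3, C3']
      ring
    rw [e]
    have h4 : (4 : F) ≠ 0 := by
      have : (4 : F) = 2 * 2 := by norm_num
      rw [this]
      exact mul_ne_zero sd.two sd.two
    exact neg_ne_zero.mpr (mul_ne_zero (mul_ne_zero h4 sd.d_ne) C6')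

/-- A subgroup `M` containing the unitary group and an isometry `g` which moves the
non-degenerate `K`-line of `e` to a plane which is not `θ`-stable contains the transvections
with centre `g e`. -/
theorem inS_of_moved [Fintype F] (hn : 14 ≤ Fintype.card ι)
    (M : Subgroup (Matrix.GeneralLinearGroup ι F))
    (hKU : ∀ k : Matrix.GeneralLinearGroup ι F, IsKU f θ k → k ∈ M)
    {g : Matrix.GeneralLinearGroup ι F} (hgM : g ∈ M)
    (hgf : ∀ x y : ι → F, f (mt(g) *ᵥ x) (mt(g) *ᵥ y) = f x y)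
    {e : ι → F} (he : f e (θ *ᵥ e) ≠ 0)
    (hmv : ∀ α β : F, θ *ᵥ (mt(g) *ᵥ e) ≠ α • mt(g) *ᵥ e + β • mt(g) *ᵥ (θ *ᵥ e)) :
    InS f M (mt(g) *ᵥ e) := by
  have hZ := sd.act_zconj M hKU hgM hgf he
  have hε : f (mt(g) *ᵥ e) (mt(g) *ᵥ (θ *ᵥ e)) = f e (θ *ᵥ e) := hgf _ _
  have hc₀ : (2 / f e (θ *ᵥ e)) * f (mt(g) *ᵥ e) (mt(g) *ᵥ (θ *ᵥ e)) = 2 := by
    rw [hε]
    exact div_mul_cancel₀ _ he
  exact sd.inS_of_pair hn M hKU hc₀ hZ hmv

end SUData

end SpGUD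

end Cfsg.Agent.Lib.Helper65
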