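import Mathlib
import Cfsg.Agent.Lib.Helper65.SpGUD

/-!
Overgroups of `GU_m(q)` inside `Sp_{2m}(q)`, part E: propagation. If a subgroup `M` containing
the unitary group contains all the symplectic transvections with one non-zero centre, then every
vector is the centre of transvections of `M`.
-/

set_option autoImplicit false
set_option linter.unusedSectionVars false
set_option linter.unusedVariables false
set_option linter.unusedSimpArgs false

namespace Cfsg.Agent.Lib.Helper65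

open Module QuadraticMap
open scoped Matrix
open Cfsg.Agent.Lib.Helper51 Cfsg.Agent.Lib.Helper97

section SpGUE

variable {ι : Type} [Fintype ι] [DecidableEq ι] {F : Type*} [Field F] [Fintype F]
variable {f : (ι → F) → (ι → F) → F} {θ : Matrix ι ι F} {d : F}

local notation "mt(" g ")" => ((g : Matrix.GeneralLinearGroup ι F) : Matrix ι ι F)

namespace SUData

variable (sd : SUData f θ d)
include sd

/-- The `K`-multiples of an isotropic vector are isotropic. -/
theorem isotropic_comb {x : ι → F} (hx : f x (θ *ᵥ x) = 0) (α β : F) :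
    f (α • x + β • (θ *ᵥ x)) (θ *ᵥ (α • x + β • (θ *ᵥ x))) = 0 := by
  have hf := sd.symp
  have hb := hf.bilinear
  simp only [Matrix.mulVec_add, Matrix.mulVec_smul, sd.sq, hb.add_left, hb.add_right,
    hb.smul_left, hb.smul_right, sd.f_tt, hf.alternating, hx, sd.f_self_theta' x]
  ring

/-- The image of a centre under a unitary transvection, minus the centre. -/
theorem inS_tau (M : Subgroup (Matrix.GeneralLinearGroup ι F))
    (hKU : ∀ k : Matrix.GeneralLinearGroup ι F, IsKU f θ k → k ∈ M)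
    {x b : ι → F} (hx : InS f M x) (hb : f b (θ *ᵥ b) = 0) :
    InS f M (f x (θ *ᵥ b) • (θ *ᵥ b) - (d * f x b) • b) := by
  have hf := sd.symp
  have hbl := hf.bilinear
  by_cases h0 : f x (θ *ᵥ b) = 0 ∧ f x b = 0
  · rw [h0.1, h0.2]
    have : (0 : F) • (θ *ᵥ b) - (d * 0) • b = 0 := by simp
    rw [this]
    exact InS_zero hf M
  obtain ⟨k, hk, hkx⟩ := sd.exists_tau hb 1
  have h1 : InS f M (mt(k) *ᵥ x) := InS_conj hf (hKU k hk) hk.2 hx
  have hne : f x (θ *ᵥ b) * f x (θ *ᵥ b) - d * (f x b * f x b) ≠ 0 := by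
    apply sd.norm_ne
    by_contra hcon
    push Not at hcon
    exact h0 hcon
  have h2 : f (mt(k) *ᵥ x) x ≠ 0 := by
    rw [hkx]
    have hs1 : f (θ *ᵥ b) x = - f x (θ *ᵥ b) := hf.skew _ _
    have hs2 : f b x = - f x b := hf.skew _ _
    simp only [hbl.add_left, hbl.smul_left, form_sub_left hbl, hf.alternating, hs1, hs2]
    intro h
    apply hne
    linear_combination -h
  have h3 := InS_sub hf hx h1 h2
  have e : mt(k) *ᵥ x - x = f x (θ *ᵥ b) • (θ *ᵥ b) - (d * f x b) • b := by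
    rw [hkx]; module
  rwa [e] at h3

/-- From a centre `v` to an isotropic vector `y` when `-d` times the norm of the Hermitian
product of `v` and `y` is a non-zero square. -/
theorem inS_of_square (M : Subgroup (Matrix.GeneralLinearGroup ι F))
    (hKU : ∀ k : Matrix.GeneralLinearGroup ι F, IsKU f θ k → k ∈ M)
    {v y : ι → F} (hv : InS f M v) (hy : f y (θ *ᵥ y) = 0) {ρ : F} (hρ : ρ ≠ 0)
    (h : -d * (f v (θ *ᵥ y) * f v (θ *ᵥ y) - d * (f v y * f v y)) = ρ * ρ) : InS f M y := by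
  have hf := sd.symp
  have h1 := sd.inS_tau M hKU hv hy
  generalize f v (θ *ᵥ y) = r₁ at *
  generalize f v y = r₂ at *
  obtain ⟨k, hk, hkx⟩ := sd.exists_scal (s := d * r₂ / ρ) (t := r₁ / ρ)
    (by field_simp; linear_combination h)
  have h2 := InS_conj hf (hKU k hk) hk.2 h1
  have c1 : (d * r₂ / ρ) * (-(d * r₂)) + (r₁ / ρ) * (r₁ * d) = -ρ := by
    field_simp
    linear_combination -h
  have e : mt(k) *ᵥ (r₁ • (θ *ᵥ y) - (d * r₂) • y) = (-ρ) • y := by
    rw [hkx]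
    simp only [Matrix.mulVec_sub, Matrix.mulVec_smul, sd.sq]
    rw [← c1]
    module
  rw [e] at h2
  have h3 := InS_smul hf h2 (-ρ)⁻¹
  rwa [smul_smul, inv_mul_cancel₀ (neg_ne_zero.mpr hρ), one_smul] at h3

/-- From an isotropic centre `v` to an isotropic vector `y` with `f(v, θ y) ≠ 0`. -/
theorem inS_of_ne (hn : 9 ≤ Fintype.card ι) (M : Subgroup (Matrix.GeneralLinearGroup ι F))
    (hKU : ∀ k : Matrix.GeneralLinearGroup ι F, IsKU f θ k → k ∈ M)
    {v y : ι → F} (hv : InS f M v) (hv0 : f v (θ *ᵥ v) = 0) (hy : f y (θ *ᵥ y) = 0)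
    (h : f v (θ *ᵥ y) ≠ 0) : InS f M y := by
  have hf := sd.symp
  have hb := hf.bilinear
  obtain ⟨w, hw1, hw2, hw3, hw4, hw5⟩ := sd.exists_orth_value hn v y (-(2 * f v (θ *ᵥ y)))
  have hvw : f v w = 0 := by rw [hf.skew, hw1, neg_zero]
  have hvtw : f v (θ *ᵥ w) = 0 := by rw [sd.adj', hf.skew, hw2, neg_zero, neg_zero]
  have hytw : f y (θ *ᵥ w) = 0 := by rw [sd.adj', hf.skew, hw4, neg_zero, neg_zero]
  have hytv : f y (θ *ᵥ v) = f v (θ *ᵥ y) := by rw [sd.adj', hf.skew, neg_neg]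
  obtain ⟨y₀, hy₀⟩ : ∃ y₀ : ι → F, y₀ = v + y + w := ⟨_, rfl⟩
  have q0 : f y₀ (θ *ᵥ y₀) = 0 := by
    rw [hy₀]
    simp only [Matrix.mulVec_add, hb.add_left, hb.add_right, hv0, hy, hw2, hw4, hw5, hvtw, hytw,
      hytv]
    ring
  have e1 : f v y₀ = f v y := by
    rw [hy₀]; simp only [hb.add_right, hf.alternating, hvw]; ring
  have e2 : f v (θ *ᵥ y₀) = f v (θ *ᵥ y) := by
    rw [hy₀]; simp only [Matrix.mulVec_add, hb.add_right, hv0, hvtw]; ring
  have e3 : f y₀ y = f v y := by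
    rw [hy₀]; simp only [hb.add_left, hf.alternating, hw3]; ring
  have e4 : f y₀ (θ *ᵥ y) = f v (θ *ᵥ y) := by
    rw [hy₀]; simp only [hb.add_left, hy, hw4]; ring
  generalize hr₁ : f v (θ *ᵥ y) = r₁ at *
  generalize hr₂ : f v y = r₂ at *
  have hN : r₁ * r₁ - d * (r₂ * r₂) ≠ 0 := sd.norm_ne (Or.inl h)
  obtain ⟨y', hy'⟩ : ∃ y' : ι → F, y' = (d * r₂) • y₀ + (-r₁) • (θ *ᵥ y₀) := ⟨_, rfl⟩
  have q' : f y' (θ *ᵥ y') = 0 := by rw [hy']; exact sd.isotropic_comb q0 _ _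
  have g1 : f v y' = -(r₁ * r₁ - d * (r₂ * r₂)) := by
    rw [hy']; simp only [hb.add_right, hb.smul_right, e1, e2]; ring
  have g2 : f v (θ *ᵥ y') = 0 := by
    rw [hy']
    simp only [Matrix.mulVec_add, Matrix.mulVec_smul, sd.sq, hb.add_right, hb.smul_right, e1, e2]
    ring
  have hρ : d * (r₁ * r₁ - d * (r₂ * r₂)) ≠ 0 := mul_ne_zero sd.d_ne hN
  have I1 : InS f M y' := sd.inS_of_square M hKU hv q' hρ (by rw [g1, g2]; ring)
  have g3 : f y' y = r₁ * r₁ + d * (r₂ * r₂) := by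
    rw [hy']; simp only [hb.add_left, hb.smul_left, sd.adj y₀ y, e3, e4]; ring
  have g4 : f y' (θ *ᵥ y) = 2 * d * r₁ * r₂ := by
    rw [hy']; simp only [hb.add_left, hb.smul_left, sd.f_tt, e3, e4]; ring
  exact sd.inS_of_square M hKU I1 hy hρ (by rw [g3, g4]; ring)

/-- From an isotropic non-zero centre to every isotropic vector. -/
theorem inS_isotropic (hn : 9 ≤ Fintype.card ι) (M : Subgroup (Matrix.GeneralLinearGroup ι F))
    (hKU : ∀ k : Matrix.GeneralLinearGroup ι F, IsKU f θ k → k ∈ M)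
    {v y : ι → F} (hv : InS f M v) (hv0 : f v (θ *ᵥ v) = 0) (hvne : v ≠ 0)
    (hy : f y (θ *ᵥ y) = 0) : InS f M y := by
  classical
  have hf := sd.symp
  by_cases hy0 : y = 0
  · rw [hy0]; exact InS_zero hf M
  by_cases h : f v (θ *ᵥ y) = 0
  swap
  · exact sd.inS_of_ne hn M hKU hv hv0 hy h
  have hpol : polar ⇑sd.qf v y = 0 := by rw [sd.polar_qf, h, mul_zero]
  obtain ⟨z, hQz, hz1, hz2⟩ := exists_singular_two_ne sd.qf sd.qf_nondeg (by omega) v y hvne hy0
    hpol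
  have hz : f z (θ *ᵥ z) = 0 := by rw [← sd.qf_apply]; exact hQz
  have h1 : f v (θ *ᵥ z) ≠ 0 := by
    intro h0; apply hz1; rw [sd.polar_qf, h0, mul_zero]
  have h2 : f z (θ *ᵥ y) ≠ 0 := by
    intro h0; apply hz2; rw [polar_comm, sd.polar_qf, h0, mul_zero]
  have I1 := sd.inS_of_ne hn M hKU hv hv0 hz h1
  exact sd.inS_of_ne hn M hKU I1 hz hy h2

/-- From a non-zero centre to an isotropic non-zero centre. -/
theorem exists_isotropic_inS (hn : 3 ≤ Fintype.card ι)
    (M : Subgroup (Matrix.GeneralLinearGroup ι F))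
    (hKU : ∀ k : Matrix.GeneralLinearGroup ι F, IsKU f θ k → k ∈ M)
    {x : ι → F} (hx : InS f M x) (hx0 : x ≠ 0) :
    ∃ v : ι → F, v ≠ 0 ∧ f v (θ *ᵥ v) = 0 ∧ InS f M v := by
  classical
  have hf := sd.symp
  have hbl := hf.bilinear
  obtain ⟨b, hQb, -, hb2⟩ := exists_singular_orth_polar_ne sd.qf sd.qf_nondeg ∅ x
    (by simpa using hx0) (by simp; omega)
  have hb0 : f b (θ *ᵥ b) = 0 := by rw [← sd.qf_apply]; exact hQb
  have hr : f x (θ *ᵥ b) ≠ 0 := by
    intro h0; apply hb2; rw [sd.polar_qf, h0, mul_zero]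
  have h1 := sd.inS_tau M hKU hx hb0
  refine ⟨f x (θ *ᵥ b) • (θ *ᵥ b) - (d * f x b) • b, ?_, ?_, h1⟩
  · intro h0
    have h2 := congrArg (fun u => f x u) h0
    have hz : f x 0 = 0 := by
      have := hbl.smul_right 0 x 0
      rwa [zero_smul, zero_mul] at this
    simp only [form_sub_right hbl, hbl.smul_right, hz] at h2
    apply sd.norm_ne (Or.inl hr) (r₂ := f x b)
    linear_combination h2
  · have h3 := sd.isotropic_comb hb0 (-(d * f x b)) (f x (θ *ᵥ b))
    have e : f x (θ *ᵥ b) • (θ *ᵥ b) - (d * f x b) • b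
        = (-(d * f x b)) • b + f x (θ *ᵥ b) • (θ *ᵥ b) := by module
    rw [e]
    exact h3

/-- If `M` contains the unitary group and the transvections with one non-zero centre, then every
vector is the centre of transvections of `M`. -/
theorem all_inS (hn : 9 ≤ Fintype.card ι) (M : Subgroup (Matrix.GeneralLinearGroup ι F))
    (hKU : ∀ k : Matrix.GeneralLinearGroup ι F, IsKU f θ k → k ∈ M)
    {x₀ : ι → F} (hx₀ : InS f M x₀) (hx₀0 : x₀ ≠ 0) : ∀ x : ι → F, InS f M x := by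
  classical
  have hf := sd.symp
  have hbl := hf.bilinear
  obtain ⟨v, hv0, hvq, hv⟩ := sd.exists_isotropic_inS (by omega) M hKU hx₀ hx₀0
  have hiso : ∀ y : ι → F, f y (θ *ᵥ y) = 0 → InS f M y :=
    fun y hy => sd.inS_isotropic hn M hKU hv hvq hv0 hy
  intro x
  by_cases hq : f x (θ *ᵥ x) = 0
  · exact hiso x hq
  have hx0 : x ≠ 0 := by
    rintro rfl
    apply hq
    exact form_zero_left hbl _
  obtain ⟨b, hQb, -, hb2⟩ := exists_singular_orth_polar_ne sd.qf sd.qf_nondeg ∅ x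
    (by simpa using hx0) (by simp; omega)
  have hb0 : f b (θ *ᵥ b) = 0 := by rw [← sd.qf_apply]; exact hQb
  have hr : f x (θ *ᵥ b) ≠ 0 := by
    intro h0; apply hb2; rw [sd.polar_qf, h0, mul_zero]
  obtain ⟨x₂, hx₂q, hx₂1, hx₂2⟩ : ∃ x₂ : ι → F,
      f x₂ (θ *ᵥ x₂) = 0 ∧ f x x₂ ≠ 0 ∧ f x (θ *ᵥ x₂) ≠ 0 := by
    by_cases hxb : f x b = 0
    · refine ⟨(1 : F) • b + (1 : F) • (θ *ᵥ b), sd.isotropic_comb hb0 1 1, ?_, ?_⟩
      · simp only [hbl.add_right, hbl.smul_right, hxb]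
        simpa using hr
      · simp only [Matrix.mulVec_add, Matrix.mulVec_smul, sd.sq, hbl.add_right, hbl.smul_right,
          hxb]
        simpa using hr
    · exact ⟨b, hb0, hxb, hr⟩
  obtain ⟨s, hs⟩ : ∃ s : F, s = f x (θ *ᵥ x) / (2 * f x (θ *ᵥ x₂)) := ⟨_, rfl⟩
  have hs0 : s ≠ 0 := by
    rw [hs]; exact div_ne_zero hq (mul_ne_zero sd.two hx₂2)
  have hs' : 2 * s * f x (θ *ᵥ x₂) = f x (θ *ᵥ x) := by
    have h2 := sd.two
    rw [hs]; field_simp
  obtain ⟨x₁, hx₁⟩ : ∃ x₁ : ι → F, x₁ = x - s • x₂ := ⟨_, rfl⟩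
  have hx₁q : f x₁ (θ *ᵥ x₁) = 0 := by
    rw [hx₁]
    have h1 : f x₂ (θ *ᵥ x) = f x (θ *ᵥ x₂) := by rw [sd.adj', hf.skew, neg_neg]
    simp only [Matrix.mulVec_sub, Matrix.mulVec_smul, form_sub_left hbl, form_sub_right hbl,
      hbl.smul_left, hbl.smul_right, hx₂q, h1]
    linear_combination -hs'
  have I1 : InS f M x₁ := hiso x₁ hx₁q
  have I2 : InS f M (s • x₂) := InS_smul hf (hiso x₂ hx₂q) s
  have h3 : f x₁ (s • x₂) ≠ 0 := by
    rw [hx₁]
    simp only [form_sub_left hbl, hbl.smul_left, hbl.smul_right, hf.alternating]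
    intro h0
    apply hx₂1
    have : s * f x x₂ = 0 := by linear_combination h0
    exact (mul_eq_zero.mp this).resolve_left hs0
  have h4 := InS_add hf I2 I1 h3
  have e : x₁ + s • x₂ = x := by rw [hx₁]; abel
  rwa [e] at h4

end SUData

end SpGUE

end Cfsg.Agent.Lib.Helper65
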