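import Mathlib

/-!
# A norm identity for Frobenius-like actions

`R` a finite subgroup, `c` an element normalising `R` such that the non-trivial powers of `c`
act fixed-point-freely on `R` and such that every element `x c x⁻¹ v` (`x ∈ R`, `v ∈ M`) has
`n`-th power `1`.  Then `R` acts trivially on every abelian section `M / K` of order prime
to `|R|`.
-/

set_option autoImplicit false

namespace Cfsg.Agent.Lib.Helper65

open Finset

section

variable {G : Type*} [Group G]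

/-- If `g ^ n = 1` and `(g v) ^ n = 1`, the "norm" `∏ g^j v g^{-j}` is trivial, after applying
any map `ψ` that is multiplicative on a `g`-invariant subgroup containing `v`. -/
theorem prod_conj_eq_one {V : Type*} [CommGroup V] (M : Subgroup G) (ψ : G → V)
    (hψ1 : ψ 1 = 1) (hψ : ∀ a ∈ M, ∀ b ∈ M, ψ (a * b) = ψ a * ψ b)
    (g v : G) (hv : v ∈ M) (hg : ∀ a ∈ M, g * a * g⁻¹ ∈ M) (n : ℕ)
    (hgn : g ^ n = 1) (hgv : (g * v) ^ n = 1) :
    ∏ j ∈ range n, ψ (g ^ (j + 1) * v * (g ^ (j + 1))⁻¹) = 1 := by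
  have hmem : ∀ k : ℕ, g ^ k * v * (g ^ k)⁻¹ ∈ M := by
    intro k
    induction k with
    | zero => simpa using hv
    | succ k ihk =>
      have h1 := hg _ ihk
      have e : g ^ (k + 1) * v * (g ^ (k + 1))⁻¹ = g * (g ^ k * v * (g ^ k)⁻¹) * g⁻¹ := by
        rw [pow_succ']; group
      rw [e]; exact h1
  have key : ∀ m : ℕ, ∃ w ∈ M, (g * v) ^ m = w * g ^ m ∧
      ψ w = ∏ j ∈ range m, ψ (g ^ (j + 1) * v * (g ^ (j + 1))⁻¹) := by
    intro m
    induction m with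
    | zero => exact ⟨1, M.one_mem, by simp, by simp [hψ1]⟩
    | succ m ih =>
      obtain ⟨w, hw, h1, h2⟩ := ih
      refine ⟨w * (g ^ (m + 1) * v * (g ^ (m + 1))⁻¹), M.mul_mem hw (hmem _), ?_, ?_⟩
      · rw [pow_succ, h1]
        group
      · rw [hψ _ hw _ (hmem _), h2, prod_range_succ]
  obtain ⟨w, hw, h1, h2⟩ := key n
  rw [hgn, hgv, mul_one] at h1
  rw [← h2, ← h1, hψ1]

/-- The key identity: `∏_{f ∈ R} ψ(f v f⁻¹) = ψ(v)^{|R|}`. -/
theorem prod_conj_eq_pow {V : Type*} [CommGroup V] (R M : Subgroup G) [Fintype R]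
    (c : G) (n : ℕ) (hn : 0 < n)
    (ψ : G → V) (hψ1 : ψ 1 = 1) (hψ : ∀ a ∈ M, ∀ b ∈ M, ψ (a * b) = ψ a * ψ b)
    (hRM : ∀ x ∈ R, ∀ v ∈ M, x * v * x⁻¹ ∈ M)
    (hcM : ∀ v ∈ M, c * v * c⁻¹ ∈ M)
    (hcR : ∀ x ∈ R, c * x * c⁻¹ ∈ R)
    (hS1 : ∀ x ∈ R, ∀ v ∈ M, (x * c * x⁻¹ * v) ^ n = 1)
    (hS4 : ∀ x ∈ R, ∀ j : ℕ, 0 < j → j < n → x * c ^ j = c ^ j * x → x = 1)
    (v : G) (hv : v ∈ M) :
    ∏ f : R, ψ ((f : G) * v * (f : G)⁻¹) = ψ v ^ Fintype.card R := by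
  classical
  have hcn : c ^ n = 1 := by
    have := hS1 1 R.one_mem 1 M.one_mem
    simpa using this
  -- powers of `c` normalise `R`
  have hcRk : ∀ k : ℕ, ∀ x ∈ R, c ^ k * x * (c ^ k)⁻¹ ∈ R := by
    intro k
    induction k with
    | zero => intro x hx; simpa using hx
    | succ k ih =>
      intro x hx
      have h1 := hcR _ (ih x hx)
      have e : c ^ (k + 1) * x * (c ^ (k + 1))⁻¹ = c * (c ^ k * x * (c ^ k)⁻¹) * c⁻¹ := by
        rw [pow_succ']; group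
      rw [e]; exact h1
  set u : G → V := fun g => ψ (g * v * g⁻¹) with hu
  -- E1
  have hE1 : ∀ x : R, ∏ j ∈ range n, u ((x : G) * c ^ (j + 1) * (x : G)⁻¹) = 1 := by
    intro x
    have hg : ∀ a ∈ M, ((x : G) * c * (x : G)⁻¹) * a * ((x : G) * c * (x : G)⁻¹)⁻¹ ∈ M := by
      intro a ha
      have h1 : (x : G)⁻¹ * a * ((x : G)⁻¹)⁻¹ ∈ M := hRM _ (R.inv_mem x.2) a ha
      have h2 := hRM _ x.2 _ (hcM _ h1)
      have e : ((x : G) * c * (x : G)⁻¹) * a * ((x : G) * c * (x : G)⁻¹)⁻¹ =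
          (x : G) * (c * ((x : G)⁻¹ * a * ((x : G)⁻¹)⁻¹) * c⁻¹) * (x : G)⁻¹ := by group
      rw [e]; exact h2
    have hgn : ((x : G) * c * (x : G)⁻¹) ^ n = 1 := by
      have := hS1 x x.2 1 M.one_mem
      simpa using this
    have := prod_conj_eq_one M ψ hψ1 hψ ((x : G) * c * (x : G)⁻¹) v hv hg n hgn (hS1 x x.2 v hv)
    simpa only [conj_pow] using this
  -- E3
  have hE3 : ∀ f : R, ∏ j ∈ range n, u ((f : G) * c ^ (j + 1)) = 1 := by
    intro f
    have hψ' : ∀ a ∈ M, ∀ b ∈ M, ψ ((f : G) * (a * b) * (f : G)⁻¹) =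
        ψ ((f : G) * a * (f : G)⁻¹) * ψ ((f : G) * b * (f : G)⁻¹) := by
      intro a ha b hb
      rw [← hψ _ (hRM _ f.2 a ha) _ (hRM _ f.2 b hb)]
      congr 1
      group
    have hcv : (c * v) ^ n = 1 := by
      have := hS1 1 R.one_mem v hv
      simpa using this
    have := prod_conj_eq_one M (fun y => ψ ((f : G) * y * (f : G)⁻¹)) (by simpa using hψ1) hψ'
      c v hv hcM n hcn hcv
    rw [← this]
    refine prod_congr rfl (fun j _ => ?_)
    show ψ _ = ψ _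
    congr 1
    group
  -- E2
  have hE2 : ∀ j : ℕ, j + 1 < n → ∏ x : R, u ((x : G) * c ^ (j + 1) * (x : G)⁻¹) =
      ∏ f : R, u ((f : G) * c ^ (j + 1)) := by
    intro j hj
    let β : R → R := fun x => ⟨(x : G) * c ^ (j + 1) * (x : G)⁻¹ * (c ^ (j + 1))⁻¹, by
      have h1 := hcRk (j + 1) _ (R.inv_mem x.2)
      have e : (x : G) * c ^ (j + 1) * (x : G)⁻¹ * (c ^ (j + 1))⁻¹ =
          (x : G) * (c ^ (j + 1) * (x : G)⁻¹ * (c ^ (j + 1))⁻¹) := by group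
      rw [e]; exact R.mul_mem x.2 h1⟩
    have hβ : Function.Injective β := by
      intro x y hxy
      have h1 : (x : G) * c ^ (j + 1) * (x : G)⁻¹ * (c ^ (j + 1))⁻¹ =
          (y : G) * c ^ (j + 1) * (y : G)⁻¹ * (c ^ (j + 1))⁻¹ := congrArg Subtype.val hxy
      have h2 : (x : G) * c ^ (j + 1) * (x : G)⁻¹ = (y : G) * c ^ (j + 1) * (y : G)⁻¹ :=
        mul_right_cancel h1
      have h3 : ((y : G)⁻¹ * (x : G)) * c ^ (j + 1) = c ^ (j + 1) * ((y : G)⁻¹ * (x : G)) := by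
        calc ((y : G)⁻¹ * (x : G)) * c ^ (j + 1)
            = (y : G)⁻¹ * ((x : G) * c ^ (j + 1) * (x : G)⁻¹) * (x : G) := by group
          _ = (y : G)⁻¹ * ((y : G) * c ^ (j + 1) * (y : G)⁻¹) * (x : G) := by rw [h2]
          _ = c ^ (j + 1) * ((y : G)⁻¹ * (x : G)) := by group
      have h4 := hS4 _ (R.mul_mem (R.inv_mem y.2) x.2) (j + 1) (Nat.succ_pos j) hj h3
      apply Subtype.ext
      calc (x : G) = (y : G) * ((y : G)⁻¹ * (x : G)) := by group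
        _ = (y : G) := by rw [h4, mul_one]
    have hβb : Function.Bijective β := Finite.injective_iff_bijective.1 hβ
    refine Fintype.prod_bijective β hβb _ _ (fun x => ?_)
    show u _ = u _
    congr 1
    show _ = (x : G) * c ^ (j + 1) * (x : G)⁻¹ * (c ^ (j + 1))⁻¹ * c ^ (j + 1)
    group
  -- assemble
  obtain ⟨m, rfl⟩ : ∃ m, n = m + 1 := ⟨n - 1, by omega⟩
  have hA : ∏ x : R, ∏ j ∈ range (m + 1), u ((x : G) * c ^ (j + 1) * (x : G)⁻¹) = 1 :=
    prod_eq_one (fun x _ => hE1 x)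
  have hB : ∏ f : R, ∏ j ∈ range (m + 1), u ((f : G) * c ^ (j + 1)) = 1 :=
    prod_eq_one (fun f _ => hE3 f)
  rw [prod_comm, prod_range_succ] at hA hB
  have hX : ∏ j ∈ range m, ∏ x : R, u ((x : G) * c ^ (j + 1) * (x : G)⁻¹) =
      ∏ j ∈ range m, ∏ f : R, u ((f : G) * c ^ (j + 1)) :=
    prod_congr rfl (fun j hj => hE2 j (by have := mem_range.1 hj; omega))
  rw [hX] at hA
  have hlastA : ∏ x : R, u ((x : G) * c ^ (m + 1) * (x : G)⁻¹) = ψ v ^ Fintype.card R := by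
    rw [hcn]
    simp [hu]
  have hlastB : ∏ f : R, u ((f : G) * c ^ (m + 1)) = ∏ f : R, ψ ((f : G) * v * (f : G)⁻¹) := by
    rw [hcn]
    simp [hu]
  rw [hlastA] at hA
  rw [hlastB] at hB
  exact (mul_left_cancel (hB.trans hA.symm))

end

end Cfsg.Agent.Lib.Helper65
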