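import Mathlib
import Cfsg.Agent.Lib.Helper65.SplitNorm

/-!
# Frobenius-like actions are trivial on solvable invariant subgroups

Continuation of `SplitNorm`: under the hypotheses there, `R` centralises every solvable
subgroup `M` (of order prime to `|R|`) that is normalised by `R` and `c`.
-/

set_option autoImplicit false

namespace Cfsg.Agent.Lib.Helper65

open Finset

section

variable {G : Type*} [Group G]

theorem pow_conj_eq_pow {V : Type*} [CommGroup V] (R M : Subgroup G) [Fintype R]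
    (c : G) (n : ℕ) (hn : 0 < n)
    (ψ : G → V) (hψ1 : ψ 1 = 1) (hψ : ∀ a ∈ M, ∀ b ∈ M, ψ (a * b) = ψ a * ψ b)
    (hRM : ∀ x ∈ R, ∀ v ∈ M, x * v * x⁻¹ ∈ M)
    (hcM : ∀ v ∈ M, c * v * c⁻¹ ∈ M)
    (hcR : ∀ x ∈ R, c * x * c⁻¹ ∈ R)
    (hS1 : ∀ x ∈ R, ∀ v ∈ M, (x * c * x⁻¹ * v) ^ n = 1)
    (hS4 : ∀ x ∈ R, ∀ j : ℕ, 0 < j → j < n → x * c ^ j = c ^ j * x → x = 1)
    (x₀ : G) (hx₀ : x₀ ∈ R) (v : G) (hv : v ∈ M) :
    ψ (x₀ * v * x₀⁻¹) ^ Fintype.card R = ψ v ^ Fintype.card R := by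
  have h1 := prod_conj_eq_pow R M c n hn ψ hψ1 hψ hRM hcM hcR hS1 hS4 (x₀ * v * x₀⁻¹)
    (hRM x₀ hx₀ v hv)
  have h2 := prod_conj_eq_pow R M c n hn ψ hψ1 hψ hRM hcM hcR hS1 hS4 v hv
  rw [← h1, ← h2]
  refine Fintype.prod_equiv (Equiv.mulRight (⟨x₀, hx₀⟩ : R)) _ _ (fun f => ?_)
  show ψ _ = ψ _
  congr 1
  show _ = ((f : G) * x₀) * v * ((f : G) * x₀)⁻¹
  group

/-- A commutative group structure from a commutativity proof. -/
@[reducible] def commGroupOfComm (V : Type*) [inst : Group V] (h : ∀ a b : V, a * b = b * a) :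
    CommGroup V :=
  { inst with mul_comm := h }

/-- `R` acts trivially on the abelian section `M / K`. -/
theorem abelian_mod (R M K : Subgroup G) [Finite R] [Finite M] (c : G) (n : ℕ) (hn : 0 < n)
    (hab : ∀ a ∈ M, ∀ b ∈ M, a * b * a⁻¹ * b⁻¹ ∈ K)
    (hRM : ∀ x ∈ R, ∀ v ∈ M, x * v * x⁻¹ ∈ M)
    (hcM : ∀ v ∈ M, c * v * c⁻¹ ∈ M)
    (hcR : ∀ x ∈ R, c * x * c⁻¹ ∈ R)
    (hS1 : ∀ x ∈ R, ∀ v ∈ M, (x * c * x⁻¹ * v) ^ n = 1)
    (hS4 : ∀ x ∈ R, ∀ j : ℕ, 0 < j → j < n → x * c ^ j = c ^ j * x → x = 1)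
    (hcop : Nat.Coprime (Nat.card R) (Nat.card M)) :
    ∀ x ∈ R, ∀ v ∈ M, x * v * x⁻¹ * v⁻¹ ∈ K := by
  classical
  have hKn : (K.subgroupOf M).Normal := by
    refine ⟨fun k hk a => ?_⟩
    rw [Subgroup.mem_subgroupOf] at hk ⊢
    have h1 := hab a a.2 k k.2
    have e : ((a * k * a⁻¹ : M) : G) = ((a : G) * k * (a : G)⁻¹ * (k : G)⁻¹) * k := by
      push_cast; group
    rw [e]; exact K.mul_mem h1 hk
  let _ : Fintype R := Fintype.ofFinite R
  have hVcomm : ∀ a b : M ⧸ K.subgroupOf M, a * b = b * a := by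
    intro a b
    obtain ⟨a, rfl⟩ := QuotientGroup.mk_surjective a
    obtain ⟨b, rfl⟩ := QuotientGroup.mk_surjective b
    rw [← QuotientGroup.mk_mul, ← QuotientGroup.mk_mul, QuotientGroup.eq, Subgroup.mem_subgroupOf]
    have h1 := hab (b : G)⁻¹ (M.inv_mem b.2) (a : G)⁻¹ (M.inv_mem a.2)
    have e : (((a * b)⁻¹ * (b * a) : M) : G) =
        (b : G)⁻¹ * (a : G)⁻¹ * ((b : G)⁻¹)⁻¹ * ((a : G)⁻¹)⁻¹ := by
      push_cast; group
    rw [e]; exact h1
  let inst : CommGroup (M ⧸ K.subgroupOf M) := commGroupOfComm _ hVcomm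
  let ψ : G → M ⧸ K.subgroupOf M := fun g => if h : g ∈ M then QuotientGroup.mk ⟨g, h⟩ else 1
  have hψ1 : ψ 1 = 1 := by
    simp only [ψ, dif_pos M.one_mem]
    rfl
  have hψ : ∀ a ∈ M, ∀ b ∈ M, ψ (a * b) = ψ a * ψ b := by
    intro a ha b hb
    simp only [ψ, dif_pos ha, dif_pos hb, dif_pos (M.mul_mem ha hb)]
    rfl
  intro x hx v hv
  have h1 := pow_conj_eq_pow R M c n hn ψ hψ1 hψ hRM hcM hcR hS1 hS4 x hx v hv
  have hv' := hRM x hx v hv
  have h2 : (ψ (x * v * x⁻¹) / ψ v) ^ Fintype.card R = 1 := by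
    rw [div_pow, h1, div_self']
  have h3 : (ψ (x * v * x⁻¹) / ψ v) ^ Nat.card M = 1 := by
    have hd : Nat.card (M ⧸ K.subgroupOf M) ∣ Nat.card M := Subgroup.card_quotient_dvd_card _
    obtain ⟨k, hk⟩ := hd
    rw [hk, pow_mul, pow_card_eq_one', one_pow]
  have h4 : ψ (x * v * x⁻¹) / ψ v = 1 := by
    have ho1 := orderOf_dvd_of_pow_eq_one h2
    have ho2 := orderOf_dvd_of_pow_eq_one h3
    rw [← Nat.card_eq_fintype_card] at ho1
    have h5 := Nat.dvd_gcd ho1 ho2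
    rw [Nat.Coprime.gcd_eq_one hcop] at h5
    exact orderOf_eq_one_iff.1 (Nat.dvd_one.1 h5)
  simp only [ψ, dif_pos hv, dif_pos hv'] at h4
  have h6 : (QuotientGroup.mk ((⟨x * v * x⁻¹, hv'⟩ : M) / ⟨v, hv⟩) : M ⧸ K.subgroupOf M) = 1 := h4
  have h7 := (QuotientGroup.eq_one_iff _).1 h6
  rw [Subgroup.mem_subgroupOf] at h7
  simpa [div_eq_mul_inv] using h7

/-- Coprime stability: if `x` centralises `a = [x, v]` then `x` centralises `v`. -/
theorem commute_of_stability (x a v : G) (N k : ℕ) (hxa : x * a = a * x)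
    (hxv : x * v * x⁻¹ = a * v) (hxk : x ^ k = 1) (haN : a ^ N = 1) (hcop : Nat.Coprime k N) :
    x * v = v * x := by
  have hxaj : ∀ j : ℕ, x * a ^ j = a ^ j * x := by
    intro j
    exact ((Commute.pow_right (show Commute x a from hxa) j)).eq
  have key : ∀ j : ℕ, x ^ j * v * (x ^ j)⁻¹ = a ^ j * v := by
    intro j
    induction j with
    | zero => simp
    | succ j ih =>
      calc x ^ (j + 1) * v * (x ^ (j + 1))⁻¹ = x * (x ^ j * v * (x ^ j)⁻¹) * x⁻¹ := by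
            rw [pow_succ']; group
        _ = x * (a ^ j * v) * x⁻¹ := by rw [ih]
        _ = (x * a ^ j) * (v * x⁻¹) := by group
        _ = (a ^ j * x) * (v * x⁻¹) := by rw [hxaj j]
        _ = a ^ j * (x * v * x⁻¹) := by group
        _ = a ^ j * (a * v) := by rw [hxv]
        _ = a ^ (j + 1) * v := by rw [pow_succ]; group
  have h1 := key k
  rw [hxk] at h1
  have h2 : a ^ k = 1 := by
    have h3 : v = a ^ k * v := by simpa using h1
    exact (mul_eq_right.1 h3.symm)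
  have h4 : a = 1 := by
    have ho1 := orderOf_dvd_of_pow_eq_one h2
    have ho2 := orderOf_dvd_of_pow_eq_one haN
    have h5 := Nat.dvd_gcd ho1 ho2
    rw [Nat.Coprime.gcd_eq_one hcop] at h5
    exact orderOf_eq_one_iff.1 (Nat.dvd_one.1 h5)
  rw [h4, one_mul] at hxv
  calc x * v = x * v * x⁻¹ * x := by group
    _ = v * x := by rw [hxv]

/-- `R` centralises every solvable subgroup `M ≤ N₀` normalised by `R` and `c`. -/
theorem centralizes_of_solvable (R N₀ : Subgroup G) [Finite R] [Finite N₀] (c : G) (n : ℕ)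
    (hn : 0 < n)
    (hcR : ∀ x ∈ R, c * x * c⁻¹ ∈ R)
    (hS1 : ∀ x ∈ R, ∀ v ∈ N₀, (x * c * x⁻¹ * v) ^ n = 1)
    (hS4 : ∀ x ∈ R, ∀ j : ℕ, 0 < j → j < n → x * c ^ j = c ^ j * x → x = 1)
    (hcop : Nat.Coprime (Nat.card R) (Nat.card N₀)) :
    ∀ (k : ℕ) (M : Subgroup G), Nat.card M = k → M ≤ N₀ → Group.IsSolvable M →
      (∀ x ∈ R, ∀ v ∈ M, x * v * x⁻¹ ∈ M) → (∀ v ∈ M, c * v * c⁻¹ ∈ M) →
      ∀ x ∈ R, ∀ v ∈ M, x * v = v * x := by
  intro k
  induction k using Nat.strong_induction_on with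
  | _ k ih =>
    intro M hk hMN hsol hRM hcM x hx v hv
    have : Finite M := Finite.of_injective (Subgroup.inclusion hMN) (Subgroup.inclusion_injective hMN)
    by_cases hbot : M = ⊥
    · rw [hbot, Subgroup.mem_bot] at hv
      rw [hv, mul_one, one_mul]
    -- the commutator subgroup
    have hKlt : ⁅M, M⁆ < M := by
      have : Nontrivial M := (Subgroup.nontrivial_iff_ne_bot M).2 hbot
      have h1 := Group.IsSolvable.commutator_lt_top_of_nontrivial M
      have h2 : ⁅M, M⁆ = (commutator M).map M.subtype := by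
        rw [commutator_def, Subgroup.map_commutator, ← MonoidHom.range_eq_map, Subgroup.range_subtype]
      rw [h2]
      have h3 : (commutator M).map M.subtype < (⊤ : Subgroup M).map M.subtype :=
        (Subgroup.map_subtype_lt_map_subtype).2 h1
      rwa [← MonoidHom.range_eq_map, Subgroup.range_subtype] at h3
    have hKM : ⁅M, M⁆ ≤ M := hKlt.le
    have hKcard : Nat.card (⁅M, M⁆ : Subgroup G) < k := by
      by_contra hle
      push Not at hle
      rw [← hk] at hle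
      exact hKlt.ne (Subgroup.eq_of_le_of_card_ge hKM hle)
    have hKsol : Group.IsSolvable (⁅M, M⁆ : Subgroup G) :=
      Group.isSolvable_of_isSolvable_injective (Subgroup.inclusion_injective hKM)
    -- invariance of the commutator subgroup under conjugation
    have hinv : ∀ g : G, (∀ v ∈ M, g * v * g⁻¹ ∈ M) → ∀ v ∈ (⁅M, M⁆ : Subgroup G),
        g * v * g⁻¹ ∈ (⁅M, M⁆ : Subgroup G) := by
      intro g hg v hv
      have h1 : M.map (MulAut.conj g).toMonoidHom ≤ M := by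
        rintro _ ⟨a, ha, rfl⟩
        exact hg a ha
      have h2 : (⁅M, M⁆ : Subgroup G).map (MulAut.conj g).toMonoidHom ≤ ⁅M, M⁆ := by
        rw [Subgroup.map_commutator]
        exact Subgroup.commutator_mono h1 h1
      exact h2 ⟨v, hv, rfl⟩
    have hRK : ∀ x ∈ R, ∀ v ∈ (⁅M, M⁆ : Subgroup G), x * v * x⁻¹ ∈ (⁅M, M⁆ : Subgroup G) :=
      fun x hx => hinv x (hRM x hx)
    have hcK : ∀ v ∈ (⁅M, M⁆ : Subgroup G), c * v * c⁻¹ ∈ (⁅M, M⁆ : Subgroup G) := hinv c hcM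
    have hcent := ih _ hKcard ⁅M, M⁆ rfl (hKM.trans hMN) hKsol hRK hcK
    have hab : ∀ a ∈ M, ∀ b ∈ M, a * b * a⁻¹ * b⁻¹ ∈ (⁅M, M⁆ : Subgroup G) := by
      intro a ha b hb
      have := Subgroup.commutator_mem_commutator ha hb
      rwa [commutatorElement_def] at this
    have hcopM : Nat.Coprime (Nat.card R) (Nat.card M) :=
      Nat.Coprime.coprime_dvd_right (Subgroup.card_dvd_of_le hMN) hcop
    have hmod := abelian_mod R M ⁅M, M⁆ c n hn hab hRM hcM hcR
      (fun x hx v hv => hS1 x hx v (hMN hv)) hS4 hcopM x hx v hv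
    -- stability
    have hxa := hcent x hx _ hmod
    refine commute_of_stability x (x * v * x⁻¹ * v⁻¹) v (Nat.card N₀) (orderOf x) hxa (by group)
      (pow_orderOf_eq_one x) ?_ ?_
    · have hmem : x * v * x⁻¹ * v⁻¹ ∈ N₀ := hMN (hKM hmod)
      have h1 := pow_card_eq_one' (G := N₀) (x := ⟨_, hmem⟩)
      exact congrArg Subtype.val h1
    · exact Nat.Coprime.coprime_dvd_left (Subgroup.orderOf_dvd_natCard R hx) hcop

end

end Cfsg.Agent.Lib.Helper65
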