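import Mathlib

/-!
# Sylow conjugacy inside a subgroup, invariant Sylow subgroups, element orders in extensions
-/

set_option autoImplicit false

namespace Cfsg.Agent.Lib.Helper65

open scoped Pointwise

section

variable {G : Type*} [Group G]

/-- Two subgroups of `K` whose order is the full `r`-part of `|K|` are conjugate under `K`. -/
theorem sylow_conj_in (K R₁ R₂ : Subgroup G) [Finite K] (r : ℕ) [Fact r.Prime]
    (h1 : R₁ ≤ K) (h2 : R₂ ≤ K) (hc1 : Nat.card R₁ = r ^ (Nat.card K).factorization r)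
    (hc2 : Nat.card R₂ = r ^ (Nat.card K).factorization r) :
    ∃ k ∈ K, ∀ x, x ∈ R₂ ↔ k⁻¹ * x * k ∈ R₁ := by
  have e1 : Nat.card (R₁.subgroupOf K) = r ^ (Nat.card K).factorization r := by
    rw [← hc1]; exact Nat.card_congr (Subgroup.subgroupOfEquivOfLe h1).toEquiv
  have e2 : Nat.card (R₂.subgroupOf K) = r ^ (Nat.card K).factorization r := by
    rw [← hc2]; exact Nat.card_congr (Subgroup.subgroupOfEquivOfLe h2).toEquiv
  let S₁ : Sylow r K := Sylow.ofCard (R₁.subgroupOf K) e1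
  let S₂ : Sylow r K := Sylow.ofCard (R₂.subgroupOf K) e2
  obtain ⟨k, hk⟩ := MulAction.exists_smul_eq K S₁ S₂
  refine ⟨k, k.2, fun x => ?_⟩
  have key : ∀ z : K, z ∈ S₂ ↔ k⁻¹ * z * k ∈ S₁ := by
    intro z
    rw [← hk]
    show z ∈ MulAut.conj k • (S₁ : Subgroup K) ↔ _
    rw [Subgroup.mem_pointwise_smul_iff_inv_smul_mem]
    have e : (MulAut.conj k)⁻¹ • z = k⁻¹ * z * k := by simp [MulAut.smul_def]
    rw [e]
    exact Iff.rfl
  constructor
  · intro hx
    have := (key ⟨x, h2 hx⟩).1 (by show (⟨x, h2 hx⟩ : K) ∈ R₂.subgroupOf K; exact hx)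
    exact this
  · intro hx
    have hxK : x ∈ K := by
      have h3 : (k : G)⁻¹ * x * (k : G) ∈ K := h1 hx
      have e : x = (k : G) * ((k : G)⁻¹ * x * (k : G)) * (k : G)⁻¹ := by group
      rw [e]; exact K.mul_mem (K.mul_mem k.2 h3) (K.inv_mem k.2)
    have := (key ⟨x, hxK⟩).2 (by show (k⁻¹ * ⟨x, hxK⟩ * k : K) ∈ R₁.subgroupOf K; exact hx)
    exact this

/-- If the image of `x` in `G ⧸ N` has order `n` but `x ^ n ≠ 1`, then `G` has an element of
order `p * n` for some prime `p` dividing `|N|`. -/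
theorem exists_orderOf_eq_prime_mul [Finite G] (N : Subgroup G) [N.Normal] (n : ℕ) (hn : 0 < n)
    (x : G) (hx : orderOf (QuotientGroup.mk' N x) = n) (hxn : x ^ n ≠ 1) :
    ∃ p : ℕ, p.Prime ∧ p ∣ Nat.card N ∧ ∃ g : G, orderOf g = p * n := by
  have hk0 : 0 < orderOf x := orderOf_pos x
  have hdvd : n ∣ orderOf x := hx ▸ orderOf_map_dvd (QuotientGroup.mk' N) x
  obtain ⟨m, hm⟩ := hdvd
  have hm1 : m ≠ 1 := by
    rintro rfl
    apply hxn
    have := pow_orderOf_eq_one x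
    rwa [hm, mul_one] at this
  have hmem : x ^ n ∈ N := by
    rw [← QuotientGroup.eq_one_iff, QuotientGroup.mk_pow]
    have := pow_orderOf_eq_one (QuotientGroup.mk' N x)
    rwa [hx] at this
  have hord : orderOf (x ^ n) = m := by
    rw [orderOf_pow' x hn.ne', hm, Nat.gcd_mul_right_left, Nat.mul_div_cancel_left m hn]
  have hmN : m ∣ Nat.card N := by
    rw [← hord]
    have := orderOf_dvd_natCard (⟨x ^ n, hmem⟩ : N)
    rwa [Subgroup.orderOf_mk] at this
  obtain ⟨p, hp, hpm⟩ := Nat.exists_prime_and_dvd hm1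
  obtain ⟨m', hm'⟩ := hpm
  have hm'0 : 0 < m' := by
    rcases Nat.eq_zero_or_pos m' with h | h
    · rw [h, mul_zero] at hm'
      rw [hm', mul_zero] at hm
      omega
    · exact h
  refine ⟨p, hp, (Dvd.intro m' hm'.symm).trans hmN, x ^ m', ?_⟩
  rw [orderOf_pow' x hm'0.ne', hm, hm']
  have e : n * (p * m') = (p * n) * m' := by ring
  rw [e, Nat.gcd_mul_left_left, Nat.mul_div_cancel _ hm'0]

/-- Let `N ≤ F` be normal subgroups of the finite group `G`, `R ≤ F` a subgroup whose order is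
the full `r`-part of `|F|`, where `r ∤ |N|`.  For every prime `p` and every `h₀ : G` there are a
Sylow `p`-subgroup `P` of `N` and an element `c ∈ h₀ F` such that `R` and `c` normalise `P` and
`c` normalises `R`. -/
theorem exists_invariant_sylow [Finite G] (N F R : Subgroup G) [N.Normal] [hFn : F.Normal]
    (hNF : N ≤ F) (r : ℕ) [Fact r.Prime] (hrN : ¬ r ∣ Nat.card N) (hRF : R ≤ F)
    (hRcard : Nat.card R = r ^ (Nat.card F).factorization r) (h₀ : G) (p : ℕ) [Fact p.Prime] :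
    ∃ (P₀ : Sylow p N) (c : G),
      (∀ x ∈ R, ∀ v ∈ (P₀ : Subgroup N).map N.subtype,
        x * v * x⁻¹ ∈ (P₀ : Subgroup N).map N.subtype) ∧
      (∀ v ∈ (P₀ : Subgroup N).map N.subtype, c * v * c⁻¹ ∈ (P₀ : Subgroup N).map N.subtype) ∧
      (∀ x ∈ R, c * x * c⁻¹ ∈ R) ∧ h₀⁻¹ * c ∈ F := by
  classical
  have hRp : IsPGroup r R := IsPGroup.of_card hRcard
  let act : MulAction R (Sylow p N) :=
    MulAction.compHom (Sylow p N) ((MulAut.conjNormal (H := N)).comp R.subtype)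
  have hnd : ¬ r ∣ Nat.card (Sylow p N) := by
    obtain ⟨P₁⟩ : Nonempty (Sylow p N) := inferInstance
    intro h
    exact hrN (h.trans ((Sylow.card_dvd_index P₁).trans (Subgroup.index_dvd_card _)))
  obtain ⟨P₀, hP₀⟩ := hRp.nonempty_fixed_point_of_prime_not_dvd_card (Sylow p N) hnd
  have hfix : ∀ x ∈ R, ∀ v ∈ (P₀ : Subgroup N).map N.subtype,
      x * v * x⁻¹ ∈ (P₀ : Subgroup N).map N.subtype := by
    intro x hx v hv
    obtain ⟨w, hw, rfl⟩ := hv
    have h1 : (⟨x, hx⟩ : R) • P₀ = P₀ := hP₀ ⟨x, hx⟩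
    have h2 : (MulAut.conjNormal (H := N) x) • w ∈
        (MulAut.conjNormal (H := N) x) • (P₀ : Subgroup N) :=
      Subgroup.smul_mem_pointwise_smul w _ _ hw
    have h3 : (MulAut.conjNormal (H := N) x) • (P₀ : Subgroup N) = (P₀ : Subgroup N) :=
      congrArg (fun Q : Sylow p N => (Q : Subgroup N)) h1
    rw [h3] at h2
    refine ⟨_, h2, ?_⟩
    simp [MulAut.smul_def]
  have hfr : Subgroup.normalizer (((P₀ : Subgroup N).map N.subtype : Subgroup G) : Set G) ⊔ N = ⊤ :=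
    Sylow.normalizer_sup_eq_top P₀
  have hh : h₀ ∈ ((Subgroup.normalizer (((P₀ : Subgroup N).map N.subtype : Subgroup G) : Set G) ⊔ N
      : Subgroup G) : Set G) := by
    rw [hfr]; exact Set.mem_univ _
  rw [Subgroup.mul_normal] at hh
  obtain ⟨g₁, hg₁, y, hy, hgy⟩ := hh
  have hRnorm : ∀ x ∈ R,
      x ∈ Subgroup.normalizer (((P₀ : Subgroup N).map N.subtype : Subgroup G) : Set G) := by
    intro x hx
    rw [Subgroup.mem_set_normalizer_iff]
    intro v
    constructor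
    · exact hfix x hx v
    · intro hv
      have h1 := hfix x⁻¹ (R.inv_mem hx) _ hv
      have e : x⁻¹ * (x * v * x⁻¹) * x⁻¹⁻¹ = v := by group
      rwa [e] at h1
  have hRF₁ : R ≤ F ⊓ Subgroup.normalizer (((P₀ : Subgroup N).map N.subtype : Subgroup G) : Set G) :=
    fun x hx => ⟨hRF hx, hRnorm x hx⟩
  have hR₂F₁ : R.map (MulAut.conj g₁).toMonoidHom ≤
      F ⊓ Subgroup.normalizer (((P₀ : Subgroup N).map N.subtype : Subgroup G) : Set G) := by
    rintro _ ⟨x, hx, rfl⟩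
    refine ⟨?_, ?_⟩
    · exact hFn.conj_mem x (hRF hx) g₁
    · exact Subgroup.mul_mem _ (Subgroup.mul_mem _ hg₁ (hRnorm x hx)) (Subgroup.inv_mem _ hg₁)
  have hR₂card : Nat.card (R.map (MulAut.conj g₁).toMonoidHom) = Nat.card R :=
    Subgroup.card_map_of_injective (MulAut.conj g₁).injective
  have hfac : (Nat.card (F ⊓ Subgroup.normalizer
      (((P₀ : Subgroup N).map N.subtype : Subgroup G) : Set G) : Subgroup G)).factorization r =
      (Nat.card F).factorization r := by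
    have h1 : Nat.card (F ⊓ Subgroup.normalizer
        (((P₀ : Subgroup N).map N.subtype : Subgroup G) : Set G) : Subgroup G) ∣ Nat.card F :=
      Subgroup.card_dvd_of_le inf_le_left
    have h2 := Subgroup.card_dvd_of_le hRF₁
    rw [hRcard] at h2
    have hr : r.Prime := Fact.out
    apply le_antisymm
    · exact (Nat.factorization_le_iff_dvd Nat.card_pos.ne' Nat.card_pos.ne').2 h1 r
    · exact (hr.pow_dvd_iff_le_factorization Nat.card_pos.ne').1 h2
  obtain ⟨k, hk, hkR⟩ := sylow_conj_in _ R (R.map (MulAut.conj g₁).toMonoidHom) r hRF₁ hR₂F₁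
    (by rw [hRcard, hfac]) (by rw [hR₂card, hRcard, hfac])
  refine ⟨P₀, k⁻¹ * g₁, hfix, ?_, ?_, ?_⟩
  · have hc : k⁻¹ * g₁ ∈
        Subgroup.normalizer (((P₀ : Subgroup N).map N.subtype : Subgroup G) : Set G) :=
      Subgroup.mul_mem _ (Subgroup.inv_mem _ hk.2) hg₁
    intro v hv
    exact (Subgroup.mem_set_normalizer_iff.1 hc v).1 hv
  · intro x hx
    have h1 : g₁ * x * g₁⁻¹ ∈ R.map (MulAut.conj g₁).toMonoidHom := ⟨x, hx, rfl⟩
    have h2 := (hkR _).1 h1
    have e : k⁻¹ * g₁ * x * (k⁻¹ * g₁)⁻¹ = k⁻¹ * (g₁ * x * g₁⁻¹) * k := by group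
    rw [e]; exact h2
  · have hg : g₁ = h₀ * y⁻¹ := by rw [← hgy]; group
    have e : h₀⁻¹ * (k⁻¹ * g₁) = (h₀⁻¹ * k⁻¹ * h₀⁻¹⁻¹) * y⁻¹ := by rw [hg]; group
    rw [e]
    exact F.mul_mem (hFn.conj_mem _ (F.inv_mem hk.1) _) (F.inv_mem (hNF hy))

end

end Cfsg.Agent.Lib.Helper65
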